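import Cfsg.Agent.INV.BSQ8Main
import Cfsg.Agent.BLK.Real2
import Cfsg.Agent.BLK.Princ2
import Cfsg.Agent.BLK.Ito
import Cfsg.Agent.KSG.PSL2Deg
import Cfsg.Agent.CHAR.InvolFormula

/-!
# Real characters: parity arguments, and real characters of even degree from an involution centralizer
-/

set_option autoImplicit false
set_option linter.unusedSectionVars false

namespace CL.RealCh

open Cfsg Subgroup CL.Char CL.Blk Finset
open scoped ComplexConjugate

variable {G : Type*} [Group G] [Finite G]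

/-- real-valued -/
def IsReal {G : Type*} (χ : G → ℂ) : Prop := ∀ g, conj (χ g) = χ g

theorem irrConj_irrConj (χ : IrrCharacter G) : irrConj G (irrConj G χ) = χ :=
  Subtype.ext (funext fun g => by simp [irrConj_apply])

theorem parity (f : IrrCharacter G → ℤ) (hf : ∀ χ, f (irrConj G χ) = f χ) (ho : Odd (∑ χ, f χ)) :
    ∃ χ : IrrCharacter G, IsReal χ.1 ∧ Odd (f χ) := by
  by_contra hn
  push Not at hn
  have h1 : ∑ χ, (f χ : ZMod 2) = 0 := by
    refine Finset.sum_involution (fun χ _ => irrConj G χ) (fun χ _ => ?_) (fun χ _ h e => h ?_)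
      (fun _ _ => mem_univ _) fun χ _ => irrConj_irrConj χ
    · rw [hf, ← two_mul]
      exact mul_eq_zero_of_left rfl _
    · exact (ZMod.intCast_eq_zero_iff_even).2 (Int.not_odd_iff_even.1
        (hn χ fun g => by rw [← irrConj_apply, e]))
  rw [← Int.cast_sum, ZMod.intCast_eq_zero_iff_even] at h1
  exact Int.not_even_iff_odd.2 ho h1

theorem irrConj_mem_principal {p : ℕ} {M : Ideal AlgInt} (hM : IsPModular p M) (χ : IrrCharacter G) :
    irrConj G χ ∈ principalBlock M G ↔ χ ∈ principalBlock M G := by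
  rw [← galIrr_mem_principal_iff hM (starRingAut : ℂ ≃+* ℂ) χ]
  rfl

/-- a group of even order has a non-principal real character in its principal `2`-block -/
theorem exists_real_principal {M : Ideal AlgInt} (hM : IsPModular 2 M) {t : G} (ht : orderOf t = 2) :
    ∃ χ ∈ principalBlock M G, χ.1 ≠ (fun _ => 1) ∧ IsReal χ.1 := by
  classical
  have h2 : t * t = 1 := by rw [← pow_two, ← ht, pow_orderOf_eq_one]
  choose a ha using fun χ : IrrCharacter G => χ.2.isCharacter.isGen.exists_int_of_mul_self h2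
  have hs := sum_degree_mul_eq_zero hM (isPBlock_principalBlock (M := M) (G := G)) (y := t) (by rw [ht])
  obtain ⟨χ, h1, h3⟩ := parity (fun χ => if χ ∈ principalBlock M G ∧ χ ≠ Blk.irrOne G then
      charDegree χ.1 * a χ else 0) (fun χ => by
    have e1 : a (irrConj G χ) = a χ := by
      have := ha (irrConj G χ)
      rw [irrConj_apply, ha χ, map_intCast] at this
      exact_mod_cast this.symm
    have e2 : charDegree (irrConj G χ).1 = charDegree χ.1 := charDegree_eq_of_apply_one (by
      rw [irrConj_apply, χ.2.apply_one_eq_charDegree, map_natCast])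
    have e3 : irrConj G χ = Blk.irrOne G ↔ χ = Blk.irrOne G := by
      rw [← Equiv.eq_symm_apply]
      exact iff_of_eq (congrArg _ (Subtype.ext (funext fun g => by
        change conj (1 : ℂ) = 1
        simp)))
    simp only [e1, e2, ne_eq, e3, irrConj_mem_principal hM]) (by
    have : ∑ χ : IrrCharacter G, (if χ ∈ principalBlock M G ∧ χ ≠ Blk.irrOne G then
        (charDegree χ.1 : ℤ) * a χ else 0) = -1 := by
      rw [← add_sum_erase _ _ (mem_filter.2 ⟨mem_univ _, irrOne_mem_principalBlock hM⟩)] at hs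
      rw [← sum_filter]
      have e : (filter (fun χ => χ ∈ principalBlock M G ∧ χ ≠ Blk.irrOne G) univ) =
          (filter (· ∈ principalBlock M G) univ).erase (Blk.irrOne G) := by
        ext; simp [and_comm]
      rw [e]
      apply Int.cast_injective (α := ℂ)
      push_cast
      rw [Blk.irrOne_apply, Blk.irrOne_apply, one_mul, add_comm, add_eq_zero_iff_eq_neg] at hs
      rw [← hs]
      exact sum_congr rfl fun χ _ => by rw [ha, χ.2.apply_one_eq_charDegree]
    rw [this]
    decide)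
  split_ifs at h3 with h4
  · exact ⟨χ, h4.1, fun e => h4.2 (Subtype.ext e), h1⟩
  · exact absurd h3 (by decide)

theorem classInner_conj [Fintype G] (a b : G → ℂ) :
    classInner (fun g => conj (a g)) (fun g => conj (b g)) = conj (classInner a b) := by
  simp [classInner]

/-- a real character of a normal subgroup of odd index lies under a real character -/
theorem exists_real_over (N : Subgroup G) [N.Normal] (hN : Odd N.index) {θ : N → ℂ}
    (hθ : IsIrrCharacter N θ) (hr : IsReal θ) :
    ∃ χ, IsIrrCharacter G χ ∧ IsReal χ ∧ charDegree θ ∣ charDegree χ := by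
  classical
  have := Fintype.ofFinite G
  obtain ⟨n, h1, -, h2⟩ := hθ.isCharacter.isGen.ind.exists_int_coeffs
  have hri : ∀ g, conj (indFun N θ g) = indFun N θ g := fun g => by
    rw [← indFun_conj, funext hr]
  obtain ⟨χ, h3, h4⟩ := parity (fun χ => n χ ^ 2) (fun χ => by
    have := h1 (irrConj G χ)
    rw [← funext hri, show (irrConj G χ).1 = fun g => conj (χ.1 g) from rfl, classInner_conj, h1,
      map_intCast] at this
    rw [Int.cast_injective (α := ℂ) this]) (by
    rw [classInner_ind_self hθ] at h2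
    have h3 : (∑ χ, n χ ^ 2 : ℤ) = N.relIndex (inertia N θ) := by exact_mod_cast h2.symm
    rw [h3, Int.odd_coe_nat]
    exact hN.of_dvd_nat (relIndex_dvd_index_of_normal _ _))
  refine ⟨χ, χ.2, h3, charDegree_dvd_of_under χ.2 hθ ?_⟩
  rw [← inner_ind_eq_inner_res hθ.isCharacter χ.2.isCharacter, h1]
  intro e
  rw [Int.cast_eq_zero] at e
  rw [e] at h4
  exact absurd h4 (by decide)

/-- If `C(t) = ⟨t⟩ × A` and `A` has a real character of `2`-defect zero, then `G` has a real irreducible
character of even degree. -/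
theorem exists_real_even {A : Type*} [Group A] {t : G} (ht : orderOf t = 2)
    (e : centralizer ({t} : Set G) ≃* Multiplicative (ZMod 2) × A)
    (he : e ⟨t, mem_centralizer_singleton_iff.2 rfl⟩ = (Multiplicative.ofAdd 1, 1)) {ξ : A → ℂ}
    (hξ : IsIrrCharacter A ξ) (hr : IsReal ξ) (h0 : ∀ a, 2 ∣ orderOf a → ξ a = 0)
    {s : centralizer ({t} : Set G)} (hs : ¬ 2 ∣ (centralizer ({s} : Set _)).index)
    (hs' : 2 ∣ orderOf (e s).2) :
    ∃ χ : IrrCharacter G, Even (charDegree χ.1) ∧ IsReal χ.1 := by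
  classical
  have := Fintype.ofFinite G
  obtain ⟨M, hM⟩ := CL.BS.exists_isPModular 2 Nat.prime_two
  let C := centralizer ({t} : Set G)
  set t' : C := ⟨t, mem_centralizer_singleton_iff.2 rfl⟩ with ht'
  have h2 : t * t = 1 := by rw [← pow_two, ← ht, pow_orderOf_eq_one]
  have h2' : t' * t' = 1 := Subtype.ext h2
  have z0 : ∀ u : Multiplicative (ZMod 2), u = 1 ∨ u = Multiplicative.ofAdd 1 := by decide
  have z1 : (Multiplicative.ofAdd 1 : Multiplicative (ZMod 2)) ≠ 1 := by decide
  have z2 : (Multiplicative.ofAdd 1 : Multiplicative (ZMod 2)) * Multiplicative.ofAdd 1 = 1 := by decide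
  let sg : Multiplicative (ZMod 2) →* ℂˣ := MonoidHom.mk' (fun u => if u = 1 then 1 else -1)
    fun u v => by rcases z0 u with rfl | rfl <;> rcases z0 v with rfl | rfl <;> simp [-ofAdd_eq_one, z1, z2]
  let π : C →* A := (MonoidHom.snd _ _).comp e.toMonoidHom
  let φ : C →* ℂˣ := sg.comp ((MonoidHom.fst _ _).comp e.toMonoidHom)
  let μ : IrrCharacter C := ⟨fun c => ξ (π c), hξ.comp_surjective π
    (Prod.snd_surjective.comp e.surjective)⟩
  have hπ : π t' = 1 := congrArg Prod.snd he
  have sg1 : sg (Multiplicative.ofAdd 1) = -1 := by simp only [sg, MonoidHom.mk'_apply, if_neg z1]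
  have hφ : φ t' = -1 := by
    change sg (e t').1 = -1
    rw [he, sg1]
  have hφ1 : ∀ c, φ c = 1 ∨ φ c = -1 := fun c => by
    change sg (e c).1 = 1 ∨ sg (e c).1 = -1
    rcases z0 (e c).1 with h | h <;> rw [h]
    · exact Or.inl (map_one _)
    · exact Or.inr sg1
  have hodd : ∀ c : C, Odd (orderOf c) → φ c = 1 := fun c hc => (hφ1 c).resolve_right fun h => by
    have := map_pow φ c (orderOf c)
    rw [pow_orderOf_eq_one, map_one, h, hc.neg_one_pow] at this
    exact absurd (congrArg Units.val this) (by norm_num)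
  have hodd' : ∀ c : C, φ c = 1 → ¬ 2 ∣ orderOf (π c) → Odd (orderOf c) := fun c h1 h3 => by
    refine (Nat.not_even_iff_odd.1 fun h => h3 h.two_dvd).of_dvd_nat (orderOf_dvd_of_pow_eq_one
      (e.injective ?_))
    have h4 : (e c).1 = 1 := (z0 _).resolve_right fun h => by
      have h5 : φ c = -1 := by
        change sg (e c).1 = -1
        rw [h, sg1]
      rw [h1] at h5
      exact absurd (congrArg Units.val h5) (by norm_num)
    rw [map_pow, map_one]
    exact Prod.ext (by simp [h4]) (pow_orderOf_eq_one (π c))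
  have hc : ∀ c : C, t' * c = c * t' := fun c => Subtype.ext (mem_centralizer_singleton_iff.1 c.2).symm
  set θ : C → ℂ := μ.1 - fun c => φ c * μ.1 c with hθ
  have hθ1 : ∀ c : C, θ (t' * c) = if Odd (orderOf c) then 2 * μ.1 c else 0 := fun c => by
    have e1 : θ (t' * c) = (1 + φ c) * μ.1 c := by
      simp only [hθ, μ, Pi.sub_apply, map_mul, hπ, hφ, one_mul, Units.val_mul, Units.val_neg, Units.val_one]
      ring
    rw [e1]
    split_ifs with h
    · rw [hodd c h, Units.val_one, one_add_one_eq_two]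
    · rcases hφ1 c with h1 | h1
      · by_cases h3 : 2 ∣ orderOf (π c)
        · exact mul_eq_zero_of_right _ (h0 _ h3)
        · exact absurd (hodd' c h1 h3) h
      · rw [h1]; simp
  have hμ' := μ.2.hom_mul φ
  have hgen : IsGeneralizedCharacter C θ := μ.2.isCharacter.isGen.sub hμ'.isCharacter.isGen
  have hne : μ.1 ≠ fun c => φ c * μ.1 c := fun h => by
    have h1 := congrFun h t'
    simp only [μ, hφ, hπ, Units.val_neg, Units.val_one, neg_mul, one_mul, eq_neg_iff_add_eq_zero,
      add_self_eq_zero] at h1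
    exact hξ.one_re_pos.ne' (by rw [h1]; rfl)
  have hsupp : ∀ x : C, (x : G) ∉ {g : G | ∃ c : C, Odd (orderOf c) ∧ g = t * c} → θ x = 0 := fun x hx => by
    rw [show x = t' * (t' * x) by rw [← mul_assoc, h2', one_mul], hθ1, if_neg]
    exact fun h => hx ⟨_, h, by simp [ht', ← mul_assoc, h2]⟩
  have hpow : ∀ (c : C) (n : ℕ), Odd n → orderOf c ∣ n → (t * c) ^ n = t := fun c n h1 h3 => by
    have : Commute t' c := hc c
    have h4 := congrArg Subtype.val (this.mul_pow n)
    obtain ⟨m, rfl⟩ := h1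
    rw [orderOf_dvd_iff_pow_eq_one.1 h3, pow_succ t', pow_mul, pow_two, h2'] at h4
    simpa using h4
  have hn : classInner (indFun C θ) (indFun C θ) = 2 := by
    rw [classInner_indFun_indFun_of_ti C _ ?_ hgen.isClassFunction hsupp hsupp (by simp [hθ]), hθ,
      classInner_sub_left, classInner_sub_right, classInner_sub_right, μ.2.inner_self, hμ'.inner_self,
      μ.2.inner_of_ne hμ' hne, hμ'.inner_of_ne μ.2 hne.symm]
    · norm_num
    · rintro g hg _ ⟨c, h1, rfl⟩ ⟨c', h3, h4⟩
      have h5 := congrArg (· ^ (orderOf c * orderOf c')) h4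
      simp only [conj_pow, hpow c _ (h1.mul h3) (dvd_mul_right _ _),
        hpow c' _ (h1.mul h3) (dvd_mul_left _ _)] at h5
      exact absurd (mem_centralizer_singleton_iff.2 (mul_inv_eq_iff_eq_mul.1 h5)) hg
  obtain ⟨χ, ψ, hχ, hψ, hne', e1⟩ := hgen.ind.exists_sub_of_norm_two hn (by simp [indFun_one, hθ])
  have hin : classInner (indFun C θ) χ = 1 := by
    rw [e1, classInner_sub_left, hχ.inner_self, hψ.inner_of_ne hχ hne'.symm, sub_zero]
  have hθr : ∀ c, conj (θ c) = θ c := fun c => by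
    rcases hφ1 c with h | h <;> simp [hθ, μ, h, hr (π c)]
  have hreal : IsReal χ := by
    have h1 : classInner (indFun C θ) (fun g => conj (χ g)) = 1 := by
      rw [← funext hθr, funext (indFun_conj C θ), classInner_conj, hin, map_one]
    rw [e1, classInner_sub_left, hχ.inner hχ.conj, hψ.inner hχ.conj] at h1
    by_contra h3
    rw [if_neg fun h => h3 fun g => (congrFun h g).symm] at h1
    split_ifs at h1 <;> norm_num at h1
  refine ⟨⟨χ, hχ⟩, Nat.not_odd_iff_even.1 fun ho => ?_, hreal⟩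
  have hB := mem_principalBlock_of_inv hM (χ := ⟨χ, hχ⟩) (ψ := ⟨χ, hχ⟩)
    (fun h => Nat.not_even_iff_odd.2 ho (even_iff_two_dvd.2 h)) (CL.BS.sameBlock_refl hM.2.1 _)
    fun g _ => ((hχ.apply_inv g).trans (hreal g)).symm
  have h3 := CL.BS.inner_oddPart_section hM (z := t) ⟨1, ht⟩ hB μ
    fun h => principal_apply_ne_zero' hM h hs (h0 _ hs')
  rw [classInner_indFun_left C θ hχ.isClassFunction, classInner, ← Equiv.sum_comp (Equiv.mulLeft t')] at hin
  rw [classInner] at h3
  have h4 : ∑ c : C, θ (Equiv.mulLeft t' c) * conj (χ (Equiv.mulLeft t' c : C)) =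
      2 * ∑ c : C, CL.BS.oddPart (fun c : C => χ (t * c)) c * conj (μ.1 c) := by
    rw [mul_sum]
    refine sum_congr rfl fun c _ => ?_
    rw [Equiv.coe_mulLeft, hθ1, hreal, CL.BS.oddPart, show conj (μ.1 c) = μ.1 c from hr _]
    split_ifs
    · rw [mul_assoc, mul_comm (μ.1 c)]
      rfl
    · simp
  rw [h4, mul_left_comm, h3] at hin
  norm_num at hin

section
open scoped MatrixGroups
open CL.GL2

variable {F : Type*} [Field F] [Fintype F] [DecidableEq F]

theorem inv_data (g : SL(2, F)) :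
    ((g⁻¹ : SL(2, F)) : Matrix (Fin 2) (Fin 2) F).trace = (g : Matrix (Fin 2) (Fin 2) F).trace ∧
    ((g⁻¹ : SL(2, F)) : Matrix (Fin 2) (Fin 2) F).det = (g : Matrix (Fin 2) (Fin 2) F).det ∧
    (IsScal ((g⁻¹ : SL(2, F)) : Matrix (Fin 2) (Fin 2) F) ↔ IsScal (g : Matrix (Fin 2) (Fin 2) F)) ∧
    (IsScal (g : Matrix (Fin 2) (Fin 2) F) → (g⁻¹ : SL(2, F)) 0 0 = g 0 0) := by
  refine ⟨?_, by rw [g.2, (g⁻¹).2], ?_, ?_⟩ <;>
    simp [Matrix.SpecialLinearGroup.coe_inv, Matrix.adjugate_fin_two, Matrix.trace_fin_two, IsScal, add_comm,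
      eq_comm]

theorem psL_apply_inv (α : MulChar F ℂ) (g : SL(2, F)) : psL α g⁻¹ = psL α g := by
  obtain ⟨h1, h2, h3, h4⟩ := inv_data g
  simp only [psL, ps, h1, h2, h3]
  split_ifs with h
  · rw [h4 h]
  · rfl

theorem dsL_apply_inv (m : Matrix (Fin 2) (Fin 2) F) (η : centSL m →* ℂˣ) (g : SL(2, F)) :
    dsL m η g⁻¹ = dsL m η g := by
  obtain ⟨h1, h2, h3, h4⟩ := inv_data g
  simp only [dsL, ds, h1, h2, h3]
  split_ifs with h
  · rw [h4 h]
  · rfl

/-- `PSL₂(q)`, `q > 3`, has a real irreducible character of degree divisible by `4` -/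
theorem exists_real_psl (hq : 3 < Fintype.card F) :
    ∃ ξ, IsIrrCharacter PSL(2, F) ξ ∧ IsReal ξ ∧ 4 ∣ charDegree ξ := by
  have key : ∀ d, d ∈ charDegrees PSL(2, F) → 4 ∣ d → (∀ χ, IsIrrCharacter SL(2, F) χ → χ 1 = d →
      ∀ g, χ g⁻¹ = χ g) → ∃ ξ, IsIrrCharacter PSL(2, F) ξ ∧ IsReal ξ ∧ 4 ∣ charDegree ξ := by
    intro d hd h4 h
    obtain ⟨χ, h1, h2, h3⟩ := mem_charDegrees_PSL.1 hd
    obtain ⟨ξ, h5, rfl⟩ := exists_irr_PSL h1 h2
    refine ⟨ξ, h5, fun g => ?_, by rwa [charDegree_eq_of_apply_one (n := d) (by simpa using h3)]⟩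
    obtain ⟨g, rfl⟩ := pslMk_surjective g
    rw [← h5.apply_inv, ← map_inv]
    exact h _ h1 h3 g
  obtain ⟨p, hp⟩ := CharP.exists F
  obtain ⟨n, hp', hn⟩ := FiniteField.card F p
  by_cases h2 : p = 2
  · refine key _ card_mem_charDegrees_PSL ?_ fun χ h1 h3 g => ?_
    · rw [hn, h2] at hq ⊢
      refine pow_dvd_pow 2 (m := 2) (not_lt.1 fun h => ?_)
      have := Nat.pow_le_pow_right (n := 2) (by norm_num) (Nat.lt_succ_iff.1 h)
      omega
    · rw [eq_stL_of_degree h1 h3, stL, Pi.sub_apply, Pi.sub_apply, psL_apply_inv]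
      rfl
  have ho : Odd (Fintype.card F) := hn ▸ (hp'.odd_of_ne_two h2).pow
  by_cases h4 : Fintype.card F % 4 = 3
  · refine key _ (succ_mem_charDegrees_PSL fun h => ?_) (by omega) fun χ h1 h3 g => ?_
    · have := Nat.le_of_dvd (by norm_num) h
      omega
    · obtain ⟨α, -, rfl⟩ := eq_psL_of_degree h1 (by simpa using h3)
      exact psL_apply_inv α g
  · refine key _ (pred_mem_charDegrees_PSL fun h => ?_) (by obtain ⟨k, hk⟩ := ho; omega)
      fun χ h1 h3 g => ?_
    · have := Nat.le_of_dvd (by norm_num) h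
      omega
    · obtain ⟨m, hm, -⟩ := exists_noEig_det_one (F := F)
      have : Fact (NoEig m) := ⟨hm⟩
      obtain ⟨η, -, rfl⟩ := eq_dsL_of_degree hq m h1 (by rw [h3, Nat.cast_sub (by omega), Nat.cast_one])
      exact dsL_apply_inv m η g

end

end CL.RealCh
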