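import Cfsg.Agent.INV.Def1Br4

/-! Lemmas for the Brauer--Tuan theorem. -/

set_option autoImplicit false
open Cfsg Subgroup CL.Char MulAction
open CL.Blk hiding irrOne irrOne_apply
open scoped ComplexConjugate

namespace CL.D1

variable {G : Type*} [Group G] [Finite G] {p : ℕ} [hp : Fact p.Prime] {e : ℕ} (D : Data G p e)

omit hp in
theorem Data.sum_neg_le {θ θ' : IrrCharacter G} (hθ : θ ∈ D.Y) (hθ' : θ' ∈ D.Y) (hne : θ ≠ θ')
    (hd : charDegree θ'.1 = charDegree θ.1) :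
    ∑ χ ∈ D.X with ¬ D.δ χ = 1, charDegree χ.1 ≤ charDegree θ.1 ^ 2 := by
  classical
  have := Fintype.ofFinite G
  obtain ⟨m, hm, hm'⟩ := (θ.2.isCharacter.mul θ'.2.isCharacter.conj).exists_nat_coeffs
  have h1 : ∑ χ : IrrCharacter G, m χ * charDegree χ.1 = charDegree θ.1 ^ 2 := by
    have := congrFun hm' 1
    simp only [Pi.mul_apply, Finset.sum_apply, Pi.smul_apply, smul_eq_mul,
      IsIrrCharacter.apply_one_eq_charDegree (Subtype.prop _), map_natCast, hd] at this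
    rw [sq]
    exact_mod_cast this.symm
  rw [← h1]
  refine le_trans (Finset.sum_le_sum fun χ hχ => Nat.le_mul_of_pos_left _ ?_)
    (Finset.sum_le_sum_of_subset (Finset.subset_univ _))
  obtain ⟨h2, h3⟩ := Finset.mem_filter.1 hχ
  have h4 := D.inner_mul_conj hθ hθ' hne h2
  obtain ⟨k, hk⟩ := (θ.2.isCharacter.mul θ.2.isCharacter.conj).exists_nat_inner χ.2.isCharacter
  rw [hm, hk, (D.δ_sign χ h2).resolve_left h3] at h4
  have : (k : ℤ) - m χ = -1 := by exact_mod_cast h4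
  omega

theorem add_card_le_sum {ι : Type*} {s : Finset ι} {f : ι → ℕ} (h : ∀ i ∈ s, 1 ≤ f i) {j : ι}
    (hj : j ∈ s) : f j + s.card ≤ ∑ i ∈ s, f i + 1 := by
  classical
  have := Finset.card_nsmul_le_sum (s.erase j) f 1 fun i hi => h i (Finset.mem_of_mem_erase hi)
  rw [← Finset.add_sum_erase s f hj, ← Finset.card_erase_add_one hj]
  rw [smul_eq_mul, mul_one] at this
  exact Nat.add_le_add_right (Nat.add_le_add_left this _) 1

theorem Data.exists_counts (hperf : commutator G = ⊤) {x : G} (hx : orderOf x = p)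
    {θ : IrrCharacter G} (hθ : θ ∈ D.Y) : ∃ a b K L : ℕ, a + b + 1 = e ∧ a ≤ K ∧ b ≤ L ∧
      (D.X.filter fun χ => D.δ χ = 1).card = a ∧ (D.X.filter fun χ => ¬ D.δ χ = 1).card = b ∧
      ∑ χ ∈ D.X with D.δ χ = 1, charDegree χ.1 = K * p + a ∧
      ∑ χ ∈ D.X with ¬ D.δ χ = 1, charDegree χ.1 + b = L * p ∧
      D.ε * charDegree θ.1 = e + (K - L) * p ∧
      (∀ χ ∈ D.X, D.δ χ = 1 → ∃ k, 1 ≤ k ∧ k + a ≤ K + 1 ∧ charDegree χ.1 = k * p + 1) ∧
      ∀ χ ∈ D.X, ¬ D.δ χ = 1 → ∃ k, 1 ≤ k ∧ k + b ≤ L + 1 ∧ charDegree χ.1 + 1 = k * p := by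
  have h1 : ∀ χ ∈ D.X.filter fun χ => D.δ χ = 1,
      1 ≤ charDegree χ.1 / p ∧ charDegree χ.1 = charDegree χ.1 / p * p + 1 := fun χ hχ => by
    obtain ⟨h1, h2⟩ := Finset.mem_filter.1 hχ
    have h3 : charDegree χ.1 ≡ 1 [MOD p] :=
      Int.natCast_modEq_iff.1 (by simpa [h2] using D.deg_X hx h1)
    have h4 := Nat.div_add_mod' (charDegree χ.1) p
    rw [h3, Nat.mod_eq_of_lt hp.out.one_lt] at h4
    have h5 := degree_ne_one hperf (D.ne_one (Or.inl h1))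
    exact ⟨Nat.pos_of_ne_zero fun h => by simp [h] at h4; omega, h4.symm⟩
  have h2 : ∀ χ ∈ D.X.filter fun χ => ¬ D.δ χ = 1, 1 ≤ (charDegree χ.1 + 1) / p ∧
      charDegree χ.1 + 1 = (charDegree χ.1 + 1) / p * p := fun χ hχ => by
    obtain ⟨h1, h2⟩ := Finset.mem_filter.1 hχ
    have h3 : p ∣ charDegree χ.1 + 1 := Int.natCast_dvd_natCast.1 (by
      simpa [(D.δ_sign χ h1).resolve_left h2] using (D.deg_X hx h1).symm.dvd)
    exact ⟨Nat.div_pos (Nat.le_of_dvd (by omega) h3) hp.out.pos, (Nat.div_mul_cancel h3).symm⟩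
  have h3 := Finset.card_filter_add_card_filter_not (s := D.X) (fun χ => D.δ χ = 1)
  have h4 := D.card_X
  have h5 : ∑ χ ∈ D.X with D.δ χ = 1, charDegree χ.1 = (∑ χ ∈ D.X with D.δ χ = 1,
      charDegree χ.1 / p) * p + (D.X.filter fun χ => D.δ χ = 1).card := by
    rw [Finset.sum_congr rfl fun χ hχ => (h1 χ hχ).2, Finset.sum_add_distrib, Finset.sum_mul]
    simp
  have h6 : ∑ χ ∈ D.X with ¬ D.δ χ = 1, charDegree χ.1 + (D.X.filter fun χ => ¬ D.δ χ = 1).card =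
      (∑ χ ∈ D.X with ¬ D.δ χ = 1, (charDegree χ.1 + 1) / p) * p := by
    rw [Finset.sum_mul, ← Finset.sum_congr rfl fun χ hχ => (h2 χ hχ).2, Finset.sum_add_distrib]
    simp
  refine ⟨_, _, _, _, by omega, by simpa using Finset.card_nsmul_le_sum _ _ 1 fun χ hχ => (h1 χ hχ).1,
    by simpa using Finset.card_nsmul_le_sum _ _ 1 fun χ hχ => (h2 χ hχ).1, rfl, rfl, h5, h6, ?_,
    fun χ hχ h => ⟨_, (h1 χ (by simp [hχ, h])).1, add_card_le_sum (fun χ hχ => (h1 χ hχ).1)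
      (by simp [hχ, h]), (h1 χ (by simp [hχ, h])).2⟩,
    fun χ hχ h => ⟨_, (h2 χ (by simp [hχ, h])).1, add_card_le_sum (fun χ hχ => (h2 χ hχ).1)
      (by simp [hχ, h]), (h2 χ (by simp [hχ, h])).2⟩⟩
  rw [D.deg_eqn hθ, ← Finset.sum_filter_add_sum_filter_not D.X (fun χ => D.δ χ = 1),
    Finset.sum_congr rfl (g := fun χ => (charDegree χ.1 : ℤ)) fun χ hχ => by
      rw [(Finset.mem_filter.1 hχ).2, one_mul],
    Finset.sum_congr (s₁ := D.X.filter fun χ => ¬ D.δ χ = 1) rfl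
      (g := fun χ => -(charDegree χ.1 : ℤ)) fun χ hχ => by
      rw [(D.δ_sign χ (Finset.mem_filter.1 hχ).1).resolve_left (Finset.mem_filter.1 hχ).2]
      simp, Finset.sum_neg_distrib]
  zify at h3 h4 h5 h6
  push_cast
  linear_combination h5 - h6 + h3 + h4

theorem Data.principal_dvd [IsSimpleGroup G] (hG : ¬ IsMulCommutative G) (P : Sylow p G)
    (hP : Nat.card P = p) (hc : Nat.card (centralizer ((P : Subgroup G) : Set G)) = p * 1)
    {q : ℕ} [hq : Fact q.Prime] (hqp : q ≠ p) (hqG : q ∣ Nat.card G) {θ : IrrCharacter G}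
    (hθ : θ ∈ D.Y) (Q : Sylow q G) : ∃ S ⊆ D.X, (∀ χ ∈ S, ∀ k, ¬ charDegree χ.1 ∣ q ^ k) ∧
      ∃ i : ℤ, (i = 0 ∨ i = 1) ∧ (Nat.card Q : ℤ) ∣
        1 + ∑ χ ∈ S, D.δ χ * charDegree χ.1 - i * (D.ε * charDegree θ.1) := by
  classical
  obtain ⟨M, hM⟩ := CL.BS.exists_isPModular q hq.out
  have h4 := D.block_dvd hM (no_order_pq P hP hq.out hqp hc (by simp [hq.out.ne_one]))
    (isBlockUnion_of_block hM isPBlock_principalBlock) hθ Q
  rw [if_pos (show irrOne G ∈ principalBlock M G from irrOne_mem_principalBlock hM)] at h4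
  refine ⟨_, Finset.filter_subset (· ∈ principalBlock M G) _, fun χ hχ k hk =>
    notMem_principal_of_pow hG hM hqG (D.ne_one (Or.inl (Finset.mem_filter.1 hχ).1)) hk
      (Finset.mem_filter.1 hχ).2, ?_⟩
  split_ifs at h4
  exacts [⟨1, Or.inr rfl, by rwa [one_mul]⟩, ⟨0, Or.inl rfl, by rwa [zero_mul]⟩]

end CL.D1
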