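import Mathlib
import Cfsg.Agent.TECH.SylIn
import Cfsg.Agent.PLOC.Fusion
import Cfsg.Agent.SIG.PElt
import Cfsg.Agent.SOLV.PSolvable
import Cfsg.Agent.BLK.PrincCol

/-! Groups in which the normalizer of a Sylow `p`-subgroup controls fusion of elements and the
centralizers of non-trivial `p`-elements are `p`-nilpotent: reduction to simple groups. -/

set_option autoImplicit false

open Cfsg Subgroup CL.MSS CL.Blk

namespace CL.GlSz

variable {G : Type*} [Group G] [Finite G] {p : ℕ} [hp : Fact p.Prime]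

/-- the centralizer of an element -/
abbrev C1 {G : Type*} [Group G] (x : G) : Subgroup G := centralizer ({x} : Set G)

theorem mem_C1 {G : Type*} [Group G] {x g : G} : g ∈ C1 x ↔ g * x = x * g :=
  mem_centralizer_singleton_iff

theorem npc_mul {H : Subgroup G} (h : HasNormalPComplement p H) {a b : G} (ha : a ∈ H) (hb : b ∈ H)
    (ha' : ¬ p ∣ orderOf a) (hb' : ¬ p ∣ orderOf b) : ¬ p ∣ orderOf (a * b) := by
  have := (npc_mem_iff hp.out h).1 (mul_mem
    ((npc_mem_iff hp.out h (g := ⟨a, ha⟩)).2 (by rwa [orderOf_mk]))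
    ((npc_mem_iff hp.out h (g := ⟨b, hb⟩)).2 (by rwa [orderOf_mk])))
  rwa [← Subgroup.orderOf_coe] at this

theorem npc_comm {H R : Subgroup G} (h : HasNormalPComplement p H) (hR : IsPGroup p R) {o r : G}
    (ho : o ∈ H) (ho' : ¬ p ∣ orderOf o) (hr : r ∈ R) (hrH : r ∈ H) (hn : o * r * o⁻¹ ∈ R) :
    o * r = r * o := by
  have h1 := npc_mul h ho (mul_mem (mul_mem hrH (inv_mem ho)) (inv_mem hrH)) ho'
    (by rwa [orderOf_conj', orderOf_inv])
  have h2 : o * (r * o⁻¹ * r⁻¹) ∈ R := by simpa only [mul_assoc] using mul_mem hn (inv_mem hr)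
  have h3 := eq_one_of_pElt_of_pReg (pElt_of_mem_isPGroup hp.out hR h2) h1
  calc o * r = o * (r * o⁻¹ * r⁻¹) * (r * o) := by group
    _ = r * o := by rw [h3, one_mul]

theorem npc_dec {H R : Subgroup G} (h : HasNormalPComplement p H) (hR : SylIn p R H) {c : G}
    (hc : c ∈ H) : ∃ o ∈ H, ∃ r ∈ R, ¬ p ∣ orderOf o ∧ c = o * r := by
  have h1 : (⟨c, hc⟩ : H) ∈ pResidual p H ⊔ (hR.toSylow : Subgroup H) :=
    pResidual_sup_sylow hR.toSylow ▸ mem_top _
  obtain ⟨o, ho, r, hr, e⟩ := mem_sup_of_normal_left.1 h1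
  exact ⟨o, o.2, r, hr, by rw [Subgroup.orderOf_coe]; exact (npc_mem_iff hp.out h).1 ho,
    (congrArg Subtype.val e).symm⟩

theorem isPGroup_of_npc (h0 : pPrimeCore p G = ⊥) {N : Subgroup G} [N.Normal]
    (h : HasNormalPComplement p N) : IsPGroup p N := by
  rw [isPGroup_iff_pResidual_eq_bot, ← map_eq_bot_iff_of_injective _ N.subtype_injective,
    ← le_bot_iff, ← h0]
  exact le_pPrimeCore (by
    rw [card_map_of_injective N.subtype_injective]; exact hasNPC_iff_coprime_card_pResidual.1 h)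

/-- `p`-elements that are congruent modulo a normal `p'`-subgroup are conjugate -/
theorem isConj_of_mk_eq {N : Subgroup G} [N.Normal] (hN : (Nat.card N).Coprime p) {a b : G}
    (ha : ∃ k, orderOf a = p ^ k) (hb : ∃ k, orderOf b = p ^ k)
    (h : QuotientGroup.mk' N a = QuotientGroup.mk' N b) : IsConj a b := by
  have h1 : b⁻¹ * a ∈ N := QuotientGroup.eq.1 h.symm
  obtain ⟨n, hn, h2⟩ := PComp.exists_conj_of_sup_eq (P := zpowers b) (R := zpowers a)
    le_normalizer_of_normal hN (isPGroup_zpowers_of_pElt hb) (isPGroup_zpowers_of_pElt ha)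
    (zpowers_le.2 (by simpa using mul_mem_sup (mem_zpowers b) h1))
  have h3 : n * a * n⁻¹ ∈ zpowers b := h2 (conj_mem_cj (mem_zpowers a))
  have h4 : b⁻¹ * (n * a * n⁻¹) ∈ N := by
    have := mul_mem (mul_mem (‹N.Normal›.conj_mem n hn b⁻¹) h1) (inv_mem hn)
    simpa [mul_assoc] using this
  have h5 := eq_one_of_pElt_of_pReg (pElt_of_mem_isPGroup hp.out (isPGroup_zpowers_of_pElt hb)
    (mul_mem (inv_mem (mem_zpowers b)) h3)) fun hd =>
      (hp.out.coprime_iff_not_dvd.1 hN.symm) (hd.trans (orderOf_dvd_natCard N h4))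
  exact isConj_iff.2 ⟨n, (inv_mul_eq_one.1 h5).symm⟩

theorem exists_central (P : Sylow p G) {N : Subgroup G} [N.Normal] (h : (P : Subgroup G) ⊓ N ≠ ⊥) :
    ∃ z ∈ (P : Subgroup G), z ∈ N ∧ z ≠ 1 ∧ (P : Subgroup G) ≤ C1 z := by
  obtain ⟨⟨z, hz, hc⟩, h1⟩ := ne_bot_iff_exists_ne_one.1 (inf_centralizer_ne_bot_of_isPGroup
    (P.isPGroup'.to_le inf_le_left) P.isPGroup'
    ((le_inf le_normalizer le_normalizer_of_normal).trans inf_normalizer_le_normalizer_inf) h)
  exact ⟨z, hz.1, hz.2, fun e => h1 (Subtype.ext e), fun y hy => mem_C1.2 (hc y hy)⟩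

theorem exists_parts (P : Sylow p G) {n : G} (hn : n ∈ normalizer ((P : Subgroup G) : Set G)) :
    ∃ u ∈ (P : Subgroup G), ∃ g ∈ normalizer ((P : Subgroup G) : Set G), ¬ p ∣ orderOf g ∧
      n = u * g ∧ ∀ x, n * x = x * n → g * x = x * g := by
  obtain ⟨u, hu⟩ := exists_isPPart hp.out n
  have h1 := hu.mem hp.out hn
  refine ⟨u, (sylIn_top P).le_of_normalizes (isPGroup_zpowers_of_pElt hu.pElt) le_top
    (zpowers_le.2 h1) (mem_zpowers u), u⁻¹ * n, mul_mem (inv_mem h1) hn, hu.pReg, by group,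
    fun x hx => ?_⟩
  exact ((hu.commute_of_commute hp.out (c := x) hx).inv_left.mul_left hx).eq

/-- the hypotheses -/
structure Hy (P : Sylow p G) : Prop where
  fus : ∀ x ∈ (P : Subgroup G), ∀ y ∈ (P : Subgroup G), IsConj x y →
    ∃ n ∈ normalizer ((P : Subgroup G) : Set G), n * x * n⁻¹ = y
  npc : ∀ x ∈ (P : Subgroup G), x ≠ 1 → HasNormalPComplement p (C1 x)

namespace Hy

variable {P : Sylow p G} (h : Hy P)
include h

theorem syl {x : G} (hx : x ∈ (P : Subgroup G)) : SylIn p ((P : Subgroup G) ⊓ C1 x) (C1 x) := by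
  obtain ⟨S, hS, hxS⟩ := exists_sylIn_ge (P.isPGroup'.to_le (zpowers_le.2 hx))
    (zpowers_le.2 (mem_C1.2 rfl) : zpowers x ≤ C1 x)
  obtain ⟨g, -, hg⟩ := (sylIn_top P).exists_conj_le hS.pgroup le_top
  obtain ⟨n, hn, e⟩ := h.fus x hx _ (hg (conj_mem_cj (hxS (mem_zpowers x)))) (isConj_iff.2 ⟨g, rfl⟩)
  have hc : n⁻¹ * g ∈ C1 x := mem_C1.2 (by
    calc n⁻¹ * g * x = n⁻¹ * (g * x * g⁻¹) * g := by group
      _ = _ := by rw [← e]; group)
  refine hS.of_card_le (P.isPGroup'.to_le inf_le_left) inf_le_right ?_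
  rw [← card_cj (n⁻¹ * g) S]
  refine card_le_of_le (le_inf (cj_le_iff_forall.2 fun s hs => ?_) (cj_le_of_mem hS.le hc))
  have := (mem_normalizer_iff.1 (inv_mem hn) _).1 (hg (conj_mem_cj hs))
  simpa [mul_assoc] using this

omit [Finite G] hp in
theorem central {z y : G} (hz : z ∈ (P : Subgroup G)) (hc : (P : Subgroup G) ≤ C1 z)
    (hy : y ∈ (P : Subgroup G)) (hzy : IsConj z y) : (P : Subgroup G) ≤ C1 y := by
  obtain ⟨n, hn, rfl⟩ := h.fus z hz y hy hzy
  rw [C1, ← cj_centralizer_singleton, ← cj_eq_of_mem_normalizer hn]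
  exact cj_mono n hc

theorem cent {g x : G} (hg : g ∈ normalizer ((P : Subgroup G) : Set G)) (hg' : ¬ p ∣ orderOf g)
    (hx : x ∈ (P : Subgroup G)) (hx1 : x ≠ 1) (hc : g * x = x * g) :
    ∀ y ∈ (P : Subgroup G), g * y = y * g := by
  have key : ∀ x ∈ (P : Subgroup G), x ≠ 1 → g * x = x * g → ∀ y ∈ (P : Subgroup G), y ∈ C1 x →
      g * y = y * g := fun x hx hx1 hc y hy hyx =>
    npc_comm (h.npc x hx hx1) P.isPGroup' (mem_C1.2 hc) hg' hy hyx ((mem_normalizer_iff.1 hg y).1 hy)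
  obtain ⟨z, hz, -, hz1, hzc⟩ := exists_central P (N := ⊤) fun e => hx1 (by
    rwa [(inf_top_eq _).symm.trans e] at hx)
  exact fun y hy => key z hz hz1 (key x hx hx1 hc z hz (mem_C1.2 (mem_C1.1 (hzc hx)).symm)) y hy
    (hzc hy)

theorem frat (N : Subgroup G) [N.Normal] {x c : G} (hx : x ∈ (P : Subgroup G)) (hx1 : x ≠ 1)
    (hc : c ∈ C1 x) : ∃ k ∈ N, ∃ o : G, ∃ r ∈ (P : Subgroup G), r ∈ C1 x ∧
      (∀ y ∈ (P : Subgroup G), y ∈ C1 x → y ∈ N → o * y = y * o) ∧ c = k * (o * r) := by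
  have h1 := (h.syl hx).inf_normal (N := N) le_normalizer_of_normal
  have h2 : C1 x ≤ normalizer ((C1 x ⊓ N : Subgroup G) : Set G) :=
    (le_inf le_normalizer le_normalizer_of_normal).trans inf_normalizer_le_normalizer_inf
  obtain ⟨k, hk, n, hn, rfl⟩ := h1.frattini (h2 hc)
  obtain ⟨o, ho, r, hr, ho', rfl⟩ := npc_dec (h.npc x hx hx1) (h.syl hx)
    (((C1 x).mul_mem_cancel_left hk.1).1 hc)
  refine ⟨k, hk.2, o, r, hr.1, hr.2, fun y h3 h4 h5 => ?_, rfl⟩
  have h6 : r ∈ normalizer (((P : Subgroup G) ⊓ C1 x ⊓ N : Subgroup G) : Set G) :=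
    (le_inf le_normalizer le_normalizer_of_normal).trans inf_normalizer_le_normalizer_inf hr
  exact npc_comm (h.npc x hx hx1) h1.pgroup ho ho' ⟨⟨h3, h4⟩, h5⟩ h4
    ((mem_normalizer_iff.1 ((mul_mem_cancel_right h6).1 hn) y).1 ⟨⟨h3, h4⟩, h5⟩)

theorem normal_of_le (h0 : pPrimeCore p G = ⊥) {N : Subgroup G} [N.Normal] (hN : N ≠ ⊥)
    (hle : N ≤ P) : (P : Subgroup G).Normal := by
  obtain ⟨z, hz, hzN, hz1, hzc⟩ := exists_central P (N := N) (by rwa [inf_of_le_right hle])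
  have h1 : (P : Subgroup G) ≤ (C1 z).normalCore := fun y hy g => by
    have := h.central hz hzc (hle (‹N.Normal›.conj_mem z hzN g⁻¹)) (isConj_iff.2 ⟨g⁻¹, rfl⟩) hy
    rw [mem_C1] at this ⊢
    calc _ = g * (y * (g⁻¹ * z * g⁻¹⁻¹)) * g⁻¹ := by group
      _ = _ := by rw [this]; group
  rw [← P.is_maximal' (isPGroup_of_npc h0 (hasNPC_of_le (h.npc z hz hz1) (normalCore_le _))) h1]
  infer_instance

theorem le_of_normal (h0 : pPrimeCore p G = ⊥) (hn : ¬ (P : Subgroup G).Normal) {N : Subgroup G}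
    [N.Normal] (hN : N ≠ ⊥) : (P : Subgroup G) ≤ N := by
  by_contra hPN
  obtain ⟨z, hz, hzN, hz1, hzc⟩ := exists_central P (N := N) fun e => hN (le_bot_iff.1 (h0 ▸
    le_pPrimeCore (hp.out.coprime_iff_not_dvd.2
      (not_dvd_card_of_sylIn_bot (e ▸ sylIn_inf_normal P N))).symm))
  have key : ∀ x ∈ (P : Subgroup G), ∀ g ∈ N ⊔ (P : Subgroup G), g * x * g⁻¹ ∈ (P : Subgroup G) →
      ∃ u ∈ (P : Subgroup G), u * x * u⁻¹ = g * x * g⁻¹ := by
    intro x hx g hg hy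
    by_cases hx1 : x = 1
    · exact ⟨1, one_mem _, by simp [hx1]⟩
    obtain ⟨n, hn, e⟩ := h.fus x hx _ hy (isConj_iff.2 ⟨g, rfl⟩)
    have hc : n⁻¹ * g ∈ C1 x := mem_C1.2 (by
      calc n⁻¹ * g * x = n⁻¹ * (g * x * g⁻¹) * g := by group
        _ = _ := by rw [← e]; group)
    obtain ⟨k, hk, o, r, hr, -, ho, e1⟩ := h.frat N hx hx1 hc
    obtain ⟨u, hu, t, ht, ht', rfl, -⟩ := exists_parts P hn
    obtain ⟨m, hm, v, hv, rfl⟩ := mem_sup_of_normal_left.1 hg
    set π := QuotientGroup.mk' N with hπ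
    have hk1 : ∀ k ∈ N, π k = 1 := fun k hk => (QuotientGroup.eq_one_iff k).2 hk
    have hoz : o ∈ C1 z := mem_C1.2 (ho z hz (mem_C1.2 (mem_C1.1 (hzc hx)).symm) hzN)
    have h1 : π t ∈ (C1 z).map π := by
      refine ⟨u⁻¹ * v * (o * r)⁻¹, mul_mem (mul_mem (inv_mem (hzc hu)) (hzc hv))
        (inv_mem (mul_mem hoz (hzc hr))), ?_⟩
      have h2 := congrArg π e1
      simp only [map_mul, map_inv, hk1 k hk, hk1 m hm, one_mul] at h2 ⊢
      rw [← h2]; group
    have h2 : ∀ w ∈ (P : Subgroup G), t * w * t⁻¹ * w⁻¹ ∈ N := fun w hw => by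
      have h3 := npc_comm (hasNPC_map (h.npc z hz hz1) π) (P.isPGroup'.map π) h1
        (fun hd => ht' (hd.trans (orderOf_map_dvd π t))) (mem_map_of_mem π hw)
        (mem_map_of_mem π (hzc hw))
        ⟨_, (mem_normalizer_iff.1 ht w).1 hw, by simp only [map_mul, map_inv]⟩
      rw [← QuotientGroup.eq_one_iff, ← QuotientGroup.mk'_apply, ← hπ]
      simp only [map_mul, map_inv, h3]; group
    have h3 : ∃ y ∈ (P : Subgroup G), y ≠ 1 ∧ t * y = y * t := by
      by_contra h3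
      push Not at h3
      let φ : ↥(P : Subgroup G) → ↥((P : Subgroup G) ⊓ N) := fun w =>
        ⟨t * w * t⁻¹ * (w : G)⁻¹, mul_mem ((mem_normalizer_iff.1 ht w).1 w.2) ((P : Subgroup G).inv_mem w.2),
          h2 w w.2⟩
      have h4 : Function.Injective φ := fun a b hab => by
        have h5 : t * a * t⁻¹ * (a : G)⁻¹ = t * b * t⁻¹ * (b : G)⁻¹ := congrArg Subtype.val hab
        by_contra h6
        refine h3 ((b : G)⁻¹ * a) (mul_mem (inv_mem b.2) a.2)
          (fun e => h6 (Subtype.ext (inv_mul_eq_one.1 e).symm)) ?_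
        calc _ = t * (b : G)⁻¹ * t⁻¹ * (t * a * t⁻¹ * (a : G)⁻¹) * a * t := by group
          _ = _ := by rw [h5]; group
      exact hPN (inf_eq_left.1 (eq_of_le_of_card_ge inf_le_left
        (Nat.card_le_card_of_injective φ h4)))
    obtain ⟨y, hy1, hy2, hy3⟩ := h3
    refine ⟨u, hu, ?_⟩
    rw [← e, mul_assoc u t, h.cent ht ht' hy1 hy2 hy3 x hx]; group
  have h1 : HasNormalPComplement p (N ⊔ (P : Subgroup G) : Subgroup G) := by
    refine Tr.hasNPC_of_sylow_controls (P.subtype le_sup_right) fun x hx g hg => ?_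
    obtain ⟨u, hu, e⟩ := key x hx g g.2 hg
    exact ⟨⟨u, mem_sup_right hu⟩, hu, Subtype.ext e⟩
  exact hn (h.normal_of_le h0 hN
    ((isPGroup_of_npc h0 (hasNPC_of_le h1 le_sup_left)).le_sylow_of_normal P))

theorem sub {K : Subgroup G} [K.Normal] (hK : (P : Subgroup G) ≤ K) : Hy (P.subtype hK) := by
  refine ⟨fun x hx y hy hc => ?_, fun x hx hx1 => ?_⟩
  · by_cases hx1 : x = 1
    · exact ⟨1, one_mem _, by rw [hx1] at hc ⊢; simpa using (isConj_one_right.1 hc).symm⟩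
    replace hx1 : (x : G) ≠ 1 := fun e => hx1 (Subtype.ext e)
    obtain ⟨k, rfl⟩ := isConj_iff.1 hc
    obtain ⟨n, hn, e⟩ := h.fus x hx _ hy (isConj_iff.2 ⟨k, rfl⟩)
    replace e : n * x * n⁻¹ = k * x * (k : G)⁻¹ := e
    have hc : n⁻¹ * k ∈ C1 (x : G) := mem_C1.2 (by
      calc n⁻¹ * k * x = n⁻¹ * (k * x * (k : G)⁻¹) * k := by group
        _ = _ := by rw [← e]; group)
    obtain ⟨z, hz, -, hz1, hzc⟩ := exists_central P (N := ⊤) fun e => hx1 (by
      have : (x : G) ∈ (P : Subgroup G) := hx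
      rwa [(inf_top_eq _).symm.trans e] at this)
    obtain ⟨k₁, hk₁, o₁, r₁, hr₁, -, ho₁, e₁⟩ := h.frat K hx hx1 hc
    obtain ⟨k₂, hk₂, o₂, r₂, hr₂, -, ho₂, e₂⟩ := h.frat K hz hz1
      (mem_C1.2 (ho₁ z hz (mem_C1.2 (mem_C1.1 (hzc hx)).symm) (hK hz)))
    have h1 : o₂ ∈ centralizer ((P : Subgroup G) : Set G) := fun y hy =>
      (ho₂ y hy (hzc hy) (hK hy)).symm
    have h2 : n * o₂ ∈ K := by
      have : n * o₂ = (n * (k₁ * k₂) * n⁻¹)⁻¹ * (k * (r₂ * r₁)⁻¹) := by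
        rw [← mul_inv_cancel_left n k, e₁, e₂]; group
      rw [this]
      exact mul_mem (inv_mem (‹K.Normal›.conj_mem _ (mul_mem hk₁ hk₂) n))
        (mul_mem k.2 (inv_mem (hK (mul_mem hr₂ hr₁))))
    refine ⟨⟨_, h2⟩, mem_normalizer_iff.2 fun w => mem_normalizer_iff.1
      (mul_mem hn (centralizer_le_normalizer _ h1)) w, Subtype.ext ?_⟩
    change n * o₂ * x * (n * o₂)⁻¹ = k * x * (k : G)⁻¹
    rw [← e, mul_assoc n, ← h1 x hx]; group
  · exact hasNPC_of_injective (h.npc x hx fun e => hx1 (Subtype.ext e))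
      ((K.subtype.comp (C1 x).subtype).codRestrict _ fun c =>
        mem_C1.2 (congrArg Subtype.val (mem_C1.1 c.2)))
      fun a b e => Subtype.ext (Subtype.ext (congrArg Subtype.val e :))

theorem simple (h0 : pPrimeCore p G = ⊥) (hn : ¬ (P : Subgroup G).Normal) :
    IsSimpleGroup (normalClosure ((P : Subgroup G) : Set G)) ∧
      ¬ ((P.subtype le_normalClosure : Sylow p (normalClosure ((P : Subgroup G) : Set G))) :
        Subgroup (normalClosure ((P : Subgroup G) : Set G))).Normal := by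
  set K := normalClosure ((P : Subgroup G) : Set G) with hK
  have hle : (P : Subgroup G) ≤ K := le_normalClosure
  have h1 : pPrimeCore p K = ⊥ := by
    rw [pPrimeCore_eq_piCore] at h0 ⊢
    exact piCore_eq_bot_of_isSubnormal (Normal.isSubnormal inferInstance) h0
  have h2 : ¬ ((P.subtype hle : Sylow p K) : Subgroup K).Normal := fun h2 => hn (by
    have := Sylow.characteristic_of_normal (P.subtype hle) h2
    have h3 : (((P.subtype hle : Sylow p K) : Subgroup K).map K.subtype).Normal := inferInstance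
    rwa [Sylow.coe_subtype, map_subgroupOf_eq_of_le hle] at h3)
  have : Nontrivial K := (nontrivial_iff_ne_bot K).2 fun e => hn (by
    rw [le_bot_iff.1 (hle.trans e.le)]; infer_instance)
  refine ⟨⟨fun N hN => or_iff_not_imp_left.2 fun hN1 => ?_⟩, h2⟩
  have h3 := (h.sub hle).le_of_normal h1 h2 hN1
  have h4 : K ≤ (N.map K.subtype).normalCore := normalClosure_le_normal fun y hy g => by
    obtain ⟨k, hk, n, hn, rfl⟩ := (sylIn_sylow P hle).frattini
      (le_normalizer_of_normal (mem_top g))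
    have h5 := (mem_normalizer_iff.1 hn y).1 hy
    exact ⟨_, hN.conj_mem ⟨_, hle h5⟩ (h3 h5) ⟨k, hk⟩, by simp [mul_assoc]⟩
  exact eq_top_iff.2 fun x _ => by
    obtain ⟨y, hy, e⟩ := normalCore_le _ (h4 x.2)
    exact Subtype.ext e ▸ hy

/-- products of two conjugates of central elements -/
theorem pair {x y y' w : G} (hx : x ∈ (P : Subgroup G)) (hxc : (P : Subgroup G) ≤ C1 x)
    (hy : y ∈ (P : Subgroup G)) (hyc : (P : Subgroup G) ≤ C1 y) (hyy : IsConj y y')
    (hs : IsPSolvable p (closure ({x, y'} : Set G))) (hw : IsPPart p (x * y') w) :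
    ∃ z ∈ (P : Subgroup G), IsConj y z ∧ IsConj w (x * z) := by
  set H := closure ({x, y'} : Set G)
  have hxH : x ∈ H := subset_closure (by simp)
  have hyH : y' ∈ H := subset_closure (by simp)
  have hwH : w ∈ H := hw.mem hp.out (mul_mem hxH hyH)
  set f := QuotientGroup.mk' (pPrimeCore p H) with hf
  have hsurj : Function.Surjective f := QuotientGroup.mk'_surjective _
  have hpe : ∀ a ∈ (P : Subgroup G), ∀ b, IsConj a b → ∃ k, orderOf b = p ^ k := fun a ha b hab => by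
    obtain ⟨c, rfl⟩ := isConj_iff.1 hab
    rw [orderOf_conj']; exact pElt_of_mem_isPGroup hp.out P.isPGroup' ha
  have key : ∀ a ∈ (P : Subgroup G), (P : Subgroup G) ≤ C1 a → ∀ b : H, IsConj a b →
      ∃ S : Sylow p H, b ∈ (S : Subgroup H) ∧ (∀ s ∈ (S : Subgroup H), (s : G) ∈ C1 (b : G)) ∧
        f b ∈ pCore p (H ⧸ pPrimeCore p H) := by
    intro a ha hac b hab
    obtain ⟨S, hS⟩ := (isPGroup_zpowers_of_pElt (x := b)
      (by rw [← Subgroup.orderOf_coe]; exact hpe a ha b hab)).exists_le_sylow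
    have hb := hS (mem_zpowers b)
    obtain ⟨g, -, hg⟩ := (sylIn_top P).exists_conj_le (S.isPGroup'.map H.subtype) le_top
    have h1 : ∀ s ∈ (S : Subgroup H), g * s * g⁻¹ ∈ (P : Subgroup G) := fun s hs =>
      hg (conj_mem_cj (mem_map_of_mem _ hs))
    have h2 := h.central ha hac (h1 b hb) (hab.trans (isConj_iff.2 ⟨g, rfl⟩))
    have h3 : ∀ s ∈ (S : Subgroup H), (s : G) ∈ C1 (b : G) := fun s hs => by
      have := mem_C1.1 (h2 (h1 s hs))
      rw [conj_mul, conj_mul] at this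
      exact mem_C1.2 (by simpa using this)
    refine ⟨S, hb, h3, IsPSolvable.centralizer_pCore_le (IsPSolvable.of_surjective hs hsurj)
      (pPrimeCore_quotient_pPrimeCore p H) fun q hq => ?_⟩
    obtain ⟨s, hs, rfl⟩ := (isPGroup_pCore p _).le_sylow_of_normal (S.mapSurjective hsurj) hq
    rw [← map_mul, ← map_mul]
    exact congrArg f (Subtype.ext (mem_C1.1 (h3 s hs)))
  obtain ⟨S, hxS, hSc, -⟩ := key x hx hxc ⟨x, hxH⟩ (IsConj.refl x)
  obtain ⟨-, -, -, h1⟩ := key y hy hyc ⟨y', hyH⟩ hyy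
  obtain ⟨s, hs, e⟩ := (isPGroup_pCore p _).le_sylow_of_normal (S.mapSurjective hsurj) h1
  have hco := coprime_card_pPrimeCore p H
  have h2 : IsConj s ⟨y', hyH⟩ := isConj_of_mk_eq hco (pElt_of_mem_isPGroup hp.out S.isPGroup' hs)
    (by rw [← Subgroup.orderOf_coe]; exact hpe y hy y' hyy) e
  have h3 := pElt_of_mem_isPGroup hp.out S.isPGroup' (mul_mem hxS hs)
  have h4 : IsPPart p ((⟨x, hxH⟩ : H) * ⟨y', hyH⟩) ⟨w, hwH⟩ := isPPart_coe_iff.1 hw
  have h5 : IsConj (⟨w, hwH⟩ : H) (⟨x, hxH⟩ * s) := by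
    refine isConj_of_mk_eq hco h4.pElt h3 ?_
    have h6 := h4.map hp.out f
    rw [map_mul, ← e, ← map_mul] at h6
    exact h6.unique hp.out ((isPPart_self hp.out h3).map hp.out f)
  obtain ⟨c, hc, h6⟩ := (sylIn_sylow P hxc).exists_conj_le (S.isPGroup'.map H.subtype)
    (by rintro _ ⟨t, ht, rfl⟩; exact hSc t ht)
  refine ⟨c * s * c⁻¹, h6 (conj_mem_cj (mem_map_of_mem _ hs)),
    (hyy.trans (H.subtype.map_isConj h2).symm).trans (isConj_iff.2 ⟨c, rfl⟩),
    (H.subtype.map_isConj h5).trans (isConj_iff.2 ⟨c, ?_⟩)⟩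
  change c * (x * s) * c⁻¹ = _
  rw [← mul_assoc c, mem_C1.1 hc]; group

end Hy

end CL.GlSz
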