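import Mathlib
import Cfsg.Agent.INV.GlSz1
import Cfsg.Agent.BLK.GlSzCoh

/-! Simple groups in which the normalizer of a Sylow `p`-subgroup controls fusion, centralizers of
`p`-elements are `p`-nilpotent and pairs of elements of order `p` generate `p`-solvable
subgroups: `p` is not odd. -/

set_option autoImplicit false

open Cfsg Subgroup CL.MSS CL.Blk CL.Char

namespace CL.GlSz

variable {G : Type*} [Group G] [Finite G] {p : ℕ} [hp : Fact p.Prime] {M : Ideal AlgInt}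

/-- the central elements of order dividing `p` -/
def Om {G : Type*} [Group G] {p : ℕ} (P : Sylow p G) : Subgroup G where
  carrier := {z | z ∈ (P : Subgroup G) ∧ (P : Subgroup G) ≤ C1 z ∧ z ^ p = 1}
  one_mem' := ⟨one_mem _, fun y _ => mem_C1.2 (by simp), one_pow _⟩
  mul_mem' := fun {a b} ha hb => ⟨mul_mem ha.1 hb.1, fun _ hy => mem_C1.2
    (Commute.mul_right (mem_C1.1 (ha.2.1 hy)) (mem_C1.1 (hb.2.1 hy))), by
    rw [Commute.mul_pow (mem_C1.1 (hb.2.1 ha.1)), ha.2.2, hb.2.2, one_mul]⟩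
  inv_mem' := fun {a} ha => ⟨inv_mem ha.1, fun _ hy => mem_C1.2
    (Commute.inv_right (mem_C1.1 (ha.2.1 hy))), by rw [inv_pow, ha.2.2, inv_one]⟩

theorem exists_mem_Om {P : Sylow p G} (h : (P : Subgroup G) ≠ ⊥) : ∃ z ∈ Om P, z ≠ 1 := by
  obtain ⟨z, hz, -, hz1, hzc⟩ := exists_central P (N := ⊤) (by rwa [inf_top_eq])
  obtain ⟨k, hk⟩ := pElt_of_mem_isPGroup hp.out P.isPGroup' hz
  obtain ⟨k, rfl⟩ := Nat.exists_eq_succ_of_ne_zero (n := k) fun e => hz1 (by simpa [e] using hk)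
  refine ⟨z ^ p ^ k, ⟨pow_mem hz _, fun y hy => mem_C1.2
    (Commute.pow_right (mem_C1.1 (hzc hy)) _), by rw [← pow_mul, ← pow_succ, ← hk,
      pow_orderOf_eq_one]⟩, pow_ne_one_of_lt_orderOf (pow_pos hp.out.pos _).ne' ?_⟩
  rw [hk]
  exact Nat.pow_lt_pow_right hp.out.one_lt (Nat.lt_succ_self k)

namespace Hy

variable {P : Sylow p G} (h : Hy P)
include h

omit [Finite G] hp in
theorem mem_Om {z y : G} (hz : z ∈ Om P) (hy : y ∈ (P : Subgroup G)) (hzy : IsConj z y) :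
    y ∈ Om P := by
  refine ⟨hy, h.central hz.1 hz.2.1 hy hzy, ?_⟩
  obtain ⟨c, rfl⟩ := isConj_iff.1 hzy
  rw [conj_pow, hz.2.2, mul_one, mul_inv_cancel]

theorem exists_const [IsSimpleGroup G] (hG : ¬ IsMulCommutative G) (hM : IsPModular p M)
    (hp2 : p ≠ 2) (hP1 : (P : Subgroup G) ≠ ⊥) :
    ∃ χ ∈ principalBlock M G, χ ≠ Blk.irrOne G ∧ ∀ a ∈ Om P, ∀ b ∈ Om P, a ≠ 1 → b ≠ 1 →
      χ.1 a = χ.1 b := by
  classical
  obtain ⟨z, hz, hz1⟩ := exists_mem_Om hP1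
  set N := normalizer ((P : Subgroup G) : Set G) with hN
  let C : Subgroup N :=
    { carrier := {n | (n : G) ∈ centralizer ((P : Subgroup G) : Set G) ∧ ¬ p ∣ orderOf (n : G)}
      one_mem' := ⟨one_mem _, not_dvd_orderOf_one hp.out⟩
      mul_mem' := fun {a b} ha hb => ⟨mul_mem ha.1 hb.1, npc_mul (h.npc z hz.1 hz1)
        (mem_C1.2 (ha.1 z hz.1).symm) (mem_C1.2 (hb.1 z hz.1).symm) ha.2 hb.2⟩
      inv_mem' := fun {a} ha => ⟨inv_mem ha.1, by rw [coe_inv, orderOf_inv]; exact ha.2⟩ }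
  have hC : C.Normal := ⟨fun c hc n => ⟨(normal_subgroupOf_centralizer_normalizer _).conj_mem c hc.1 n,
    by rw [coe_mul, coe_mul, coe_inv, orderOf_conj']; exact hc.2⟩⟩
  let ι : (P : Subgroup G) →* N ⧸ C := (QuotientGroup.mk' C).comp (inclusion le_normalizer)
  have hι : Function.Injective ι := (injective_iff_map_eq_one ι).2 fun y hy => Subtype.ext
    (eq_one_of_pElt_of_pReg (pElt_of_mem_isPGroup hp.out P.isPGroup' y.2)
      ((QuotientGroup.eq_one_iff _).1 hy).2)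
  have hcj : ∀ (n : N) (y : (P : Subgroup G)), (n : N ⧸ C) * ι y * (n : N ⧸ C)⁻¹ = ι (n • y) :=
    fun _ _ => rfl
  let e := MonoidHom.ofInjective hι
  let σ : ι.range →* G := (P : Subgroup G).subtype.comp e.symm.toMonoidHom
  have hσ : ∀ y, σ (e y) = y := fun y => congrArg Subtype.val (e.symm_apply_apply y)
  have he : ∀ y, (e y : N ⧸ C) = ι y := fun _ => rfl
  have hfr : ∀ g, g ∉ ι.range → ∀ k ∈ ι.range, g * k = k * g → k = 1 := by
    rintro g hg _ ⟨y, rfl⟩ hc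
    obtain ⟨n, rfl⟩ := QuotientGroup.mk_surjective g
    by_contra h1
    have h2 : (n : G) * y * (n : G)⁻¹ = y :=
      congrArg Subtype.val (hι ((hcj n y).symm.trans (mul_inv_eq_iff_eq_mul.2 hc)))
    obtain ⟨u, hu, t, ht, ht', e1, h3⟩ := exists_parts P n.2
    refine hg ⟨⟨u, hu⟩, QuotientGroup.eq.2 ?_⟩
    have h4 : (((inclusion le_normalizer ⟨u, hu⟩ : N)⁻¹ * n : N) : G) = t := by
      change u⁻¹ * n = t
      rw [e1, inv_mul_cancel_left]
    refine ⟨h4 ▸ fun w hw => (h.cent ht ht' y.2 (fun e => h1 ?_)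
      (h3 _ (mul_inv_eq_iff_eq_mul.1 h2)) w hw).symm, h4 ▸ ht'⟩
    rw [show y = 1 from Subtype.ext e, map_one]
  have hne : ∀ y : (P : Subgroup G), e y ≠ 1 → (y : G) ≠ 1 := fun y hy e1 => hy (by
    rw [show y = 1 from Subtype.ext e1, map_one])
  have hF : Fr p ι.range σ := by
    refine ⟨⟨?_⟩, P.isPGroup'.of_equiv e, (P : Subgroup G).subtype_injective.comp e.symm.injective,
      hfr, fun k k' => ?_, fun k hk => ?_, fun k hk => ?_⟩
    · rintro _ ⟨y, rfl⟩ g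
      obtain ⟨n, rfl⟩ := QuotientGroup.mk_surjective g
      exact ⟨_, (hcj n y).symm⟩
    · obtain ⟨y, rfl⟩ := e.surjective k
      obtain ⟨y', rfl⟩ := e.surjective k'
      rw [hσ, hσ, he, he]
      refine ⟨fun hc => ?_, fun hc => ?_⟩
      · obtain ⟨n, hn, e1⟩ := h.fus _ y.2 _ y'.2 hc
        exact isConj_iff.2 ⟨((⟨n, hn⟩ : N) : N ⧸ C), (hcj _ _).trans (congrArg ι (Subtype.ext e1))⟩
      · obtain ⟨g, hg⟩ := isConj_iff.1 hc
        obtain ⟨n, rfl⟩ := QuotientGroup.mk_surjective g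
        exact isConj_iff.2 ⟨n, congrArg Subtype.val (hι ((hcj n y).symm.trans hg))⟩
    · obtain ⟨y, rfl⟩ := e.surjective k
      rw [hσ]
      exact h.npc _ y.2 (hne y hk)
    · obtain ⟨y, rfl⟩ := e.surjective k
      rw [hσ, he, ← (h.syl y.2).card_eq_pow_factorization,
        ← card_subgroupOf_of_le inf_le_left, ← card_map_of_injective hι]
      congr 2
      refine le_antisymm ?_ fun g hg => ?_
      · rintro _ ⟨w, hw, rfl⟩
        rw [mem_C1, ← map_mul, ← map_mul]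
        exact congrArg ι (Subtype.ext (mem_C1.1 hw.2))
      · obtain ⟨w, rfl⟩ : g ∈ ι.range := by_contra fun hg' =>
          hk (Subtype.ext (hfr g hg' _ ⟨y, rfl⟩ (mem_C1.1 hg)))
        rw [mem_C1, ← map_mul, ← map_mul] at hg
        exact ⟨w, ⟨w.2, mem_C1.2 (congrArg Subtype.val (hι hg))⟩, rfl⟩
  have := Fintype.ofFinite G
  have := Fintype.ofFinite (N ⧸ C)
  have : (((Om P).subgroupOf P).map ι).Normal := ⟨by
    rintro _ ⟨y, hy, rfl⟩ g
    obtain ⟨n, rfl⟩ := QuotientGroup.mk_surjective g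
    exact ⟨n • y, h.mem_Om hy (n • y).2 (isConj_iff.2 ⟨n, rfl⟩), (hcj n y).symm⟩⟩
  obtain ⟨χ, h1, h2, h3⟩ := hF.exists_const hG hM hp2 (Z := ((Om P).subgroupOf P).map ι)
    (map_le_range _ _) (fun e1 => hz1 (congrArg Subtype.val (hι (((eq_bot_iff_forall _).1 e1 _
      (mem_map_of_mem ι (x := ⟨z, hz.1⟩) hz)).trans (map_one ι).symm)))) (by
      rintro _ ⟨y, hy, rfl⟩ _ ⟨w, rfl⟩
      rw [← map_mul, ← map_mul]
      exact congrArg ι (Subtype.ext (mem_C1.1 (hy.2.1 w.2)).symm))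
  refine ⟨χ, h1, h2, fun a ha b hb ha1 hb1 => ?_⟩
  have := h3 (e ⟨a, ha.1⟩) (e ⟨b, hb.1⟩) ⟨_, ha, rfl⟩ ⟨_, hb, rfl⟩
    (fun e1 => ha1 ((hσ ⟨a, ha.1⟩).symm.trans (by rw [e1, map_one])))
    (fun e1 => hb1 ((hσ ⟨b, hb.1⟩).symm.trans (by rw [e1, map_one])))
  rwa [hσ, hσ] at this

variable [IsSimpleGroup G] (hG : ¬ IsMulCommutative G) (hp2 : p ≠ 2) (hP1 : (P : Subgroup G) ≠ ⊥)
  (hc : ∀ x y : G, orderOf x = p → orderOf y = p → IsPSolvable p (closure ({x, y} : Set G)))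
include hG hp2 hP1 hc

theorem isConj_Om {x y : G} (hx : x ∈ Om P) (hy : y ∈ Om P) (hx1 : x ≠ 1) (hy1 : y ≠ 1) :
    IsConj y x := by
  obtain ⟨x, rfl⟩ := inv_surjective x
  rw [inv_mem_iff] at hx
  rw [inv_ne_one] at hx1
  by_contra hn
  obtain ⟨M, hM⟩ := CL.Glb.exists_isPModular hp.out
  obtain ⟨χ, h1, h2, h3⟩ := h.exists_const hG hM hp2 hP1
  have := Fintype.ofFinite G
  have h4 : ∀ a, χ.1 (x * (a * y * a⁻¹)) = χ.1 x := fun a => by
    obtain ⟨w, hw⟩ := exists_isPPart hp.out (x * (a * y * a⁻¹))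
    obtain ⟨z, hz, h5, h6⟩ := h.pair hx.1 hx.2.1 hy.1 hy.2.1 (isConj_iff.2 ⟨a, rfl⟩)
      (hc _ _ (orderOf_eq_prime hx.2.2 hx1)
        (by rw [orderOf_conj']; exact orderOf_eq_prime hy.2.2 hy1)) hw
    obtain ⟨c, h7⟩ := isConj_iff.1 h6
    have h8 := mul_mem hx (h.mem_Om hy hz h5)
    have h9 : x * z ≠ 1 := fun e => hn (eq_inv_of_mul_eq_one_right e ▸ h5)
    rw [← χ.2.isClassFunction _ c, principal_apply_of_isPPart hM (h7 ▸ hw.conj c)
      (h.npc _ h8.1 h9) h1, h3 _ h8 _ hx h9 hx1]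
  have h5 := irr_mul_sum_conj χ.2 x y
  simp only [h4, Finset.sum_const, Finset.card_univ, nsmul_eq_mul, ← Nat.card_eq_fintype_card] at h5
  have h6 : χ.1 x ≠ 0 := principal_apply_ne_zero' hM h1 fun hd =>
    P.not_dvd_index (hd.trans (index_dvd_of_le hx.2.1))
  have h7 : y ∈ charKer χ.1 := χ.2.mem_charKer.2 (mul_left_cancel₀
    (mul_ne_zero (Char.card_ne_zero G) h6) (by linear_combination -h5))
  rw [χ.2.charKer_eq_bot_of_simple fun e => h2 (Subtype.ext e), mem_bot] at h7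
  exact hy1 h7

theorem frobSyl : FrobSyl P := by
  obtain ⟨u, hu, hu1⟩ := exists_mem_Om hP1
  obtain ⟨n, hn, e⟩ := h.fus _ hu.1 _ (inv_mem hu.1)
    (h.isConj_Om hG hp2 hP1 hc (inv_mem hu) hu (inv_ne_one.2 hu1) hu1)
  obtain ⟨v, hv, t, ht, ht', rfl, -⟩ := exists_parts P hn
  have h1 : t * u * t⁻¹ = u⁻¹ := by
    calc _ = v⁻¹ * (v * t * u * (v * t)⁻¹) * v := by group
      _ = _ := by rw [e, mem_C1.1 ((inv_mem hu).2.1 (inv_mem hv)), inv_mul_cancel_right]
  have h2 := h.cent (mul_mem ht ht) (fun hd => ht' (hd.trans (by rw [← sq]; exact orderOf_pow_dvd 2)))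
    hu.1 hu1 (by
      calc _ = t * (t * u * t⁻¹) * t := by group
        _ = t * u⁻¹ * t := by rw [h1]
        _ = (t * u * t⁻¹)⁻¹ * (t * t) := by group
        _ = _ := by rw [h1, inv_inv])
  have h3 : ∀ a b : (P : Subgroup G), Commute a b :=
    MonoidHom.FixedPointFree.commute_all_of_involutive (φ := MulDistribMulAction.toMonoidHom
      (P : Subgroup G) (⟨t, ht⟩ : normalizer ((P : Subgroup G) : Set G)))
      (fun y hy => by_contra fun h3 => by
        have h4 := h.cent ht ht' y.2 (fun e => h3 (Subtype.ext e))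
          (mul_inv_eq_iff_eq_mul.1 (congrArg Subtype.val hy)) u hu.1
        rw [h4, mul_inv_cancel_right, eq_inv_iff_mul_eq_one, ← sq] at h1
        exact hp2 ((Nat.prime_dvd_prime_iff_eq hp.out Nat.prime_two).1
          (orderOf_eq_prime hu.2.2 hu1 ▸ orderOf_dvd_of_pow_eq_one h1)))
      fun y => Subtype.ext (by
        change t * (t * y * t⁻¹) * t⁻¹ = y
        calc _ = t * t * y * (t * t)⁻¹ := by group
          _ = _ := by rw [h2 y y.2, mul_inv_cancel_right])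
  refine ⟨⟨⟨h3⟩⟩, fun y hy hy1 => le_antisymm (fun g hg => ?_)
    (le_inf (centralizer_le (Set.singleton_subset_iff.2 hy)) (centralizer_le_normalizer _))⟩
  obtain ⟨v, hv, t, ht, ht', rfl, h4⟩ := exists_parts P hg.2
  exact mul_mem (fun w hw => congrArg Subtype.val (h3 ⟨w, hw⟩ ⟨v, hv⟩))
    fun w hw => (h.cent ht ht' hy hy1 (h4 y (mem_C1.1 hg.1)) w hw).symm

theorem false_of_odd : False := by
  classical
  have hF := h.frobSyl hG hp2 hP1 hc
  have hcj := fun x y => h.isConj_Om hG hp2 hP1 hc (x := x) (y := y)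
  by_cases hPO : (P : Subgroup G) ≤ Om P
  · exact false_of_one_class hp2 P hP1 ⟨hF.comm, fun x hx => (hPO hx).2.2⟩
      (fun x hx y hy h1 h2 => hcj y x (hPO hy) (hPO hx) h2 h1) h.npc hc
  obtain ⟨M, hM⟩ := CL.Glb.exists_isPModular hp.out
  obtain ⟨u, hu, hu1⟩ := exists_mem_Om hP1
  have := Fintype.ofFinite (P : Subgroup G)
  have := Fintype.ofFinite (Om P)
  have hou : orderOf u = p := orderOf_eq_prime hu.2.2 hu1
  have hle : Om P ≤ P := fun _ hx => hx.1
  have hu' : (⟨u, hu.1⟩ : (P : Subgroup G)) ≠ 1 := fun e => hu1 (congrArg Subtype.val e)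
  set e := (centralizer ((P : Subgroup G) : Set G)).relIndex
    (normalizer ((P : Subgroup G) : Set G)) with he
  have he0 : e ≠ 0 := index_ne_zero_of_finite
  have hq : Nat.card (Om P) = e + 1 := by
    rw [he, ← hF.card_conj hu', ← card_subgroupOf_of_le hle,
      ← Finset.card_insert_of_notMem (a := 1) (by simpa using hu1), ← Nat.card_eq_finsetCard]
    refine Nat.card_congr (Equiv.subtypeEquivRight fun z => ?_)
    simp only [mem_subgroupOf, Finset.mem_insert, Finset.mem_filter, Finset.mem_univ, true_and]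
    exact ⟨fun hz => or_iff_not_imp_left.2 fun h1 => hcj _ _ hz hu (fun e => h1 (Subtype.ext e)) hu1,
      fun hz => hz.elim (fun e => e ▸ one_mem _) (h.mem_Om hu z.2)⟩
  have hr := card_mul_relIndex_of_le hle
  have hr1 : (Om P).relIndex P ≠ 1 := fun e => hPO (relIndex_eq_one.1 e)
  have hr0 : (Om P).relIndex P ≠ 0 := index_ne_zero_of_finite
  obtain ⟨r, hr2⟩ : ∃ r, (Om P).relIndex P = r + 2 := ⟨_, (Nat.sub_add_cancel (by omega)).symm⟩
  rw [hq, hr2] at hr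
  have hm : e + 1 < Nat.card (P : Subgroup G) := by nlinarith
  obtain ⟨δ, d₀, ζ, a, D⟩ := hF.exists_excData hM hm
  obtain ⟨ψ, -, hψ, -⟩ := hF.exists_two_orbits hm
  have h1 := D.card_mul hF.comm' fun _ => hF.ncard_orbit
  have h2 := hF.sum_sq hM hψ
  rw [D.sum_split hψ fun n _ => n ^ 2, Finset.sum_const, Finset.card_erase_of_mem
    (Finset.mem_filter.2 ⟨Finset.mem_univ _, ψ, hψ, rfl⟩), ← he] at h2
  rw [← he, ← hr, Nat.card_eq_fintype_card, Fintype.card_subtype] at h1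
  generalize (Finset.univ.filter (· ∈ ζ '' {ψ | ψ ≠ 1})).card = s at h1 h2
  have h3 : e + 1 ≤ s - 1 := by
    have h3 : e ≤ r + 1 := Nat.le_of_dvd r.succ_pos ((Nat.dvd_add_left (dvd_mul_left e (r + 2))).1
      ⟨s, by nlinarith⟩)
    have h4 : (e + 2) * e ≤ s * e := by nlinarith
    have := Nat.le_of_mul_le_mul_right h4 (Nat.pos_of_ne_zero he0)
    omega
  have h4 := Finset.sum_nonneg (s := Finset.univ.filter (· ∈ principalBlock M G \ ζ '' {ψ | ψ ≠ 1}))
    fun χ _ => sq_nonneg (a χ)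
  have h5 : d₀ ≤ 1 := by
    by_contra h5
    have h6 : ((e + 1 : ℕ) : ℤ) ≤ (s - 1 : ℕ) := by exact_mod_cast h3
    rw [nsmul_eq_mul] at h2
    push_cast at h6
    nlinarith [sq_nonneg (d₀ - δ), mul_le_mul h6 (show 4 ≤ d₀ ^ 2 by nlinarith) (by norm_num)
      (by positivity)]
  have hle' : ∀ χ ∈ principalBlock M G, (χ.1 u).re ≤ e + 1 := by
    intro χ hχ
    by_cases h6 : χ ∈ ζ '' {ψ | ψ ≠ 1}
    · obtain ⟨φ, hφ, rfl⟩ := h6
      have h7 : ‖δ * ∑ᶠ ψ ∈ MulAction.orbit (NK (P : Subgroup G)) φ, lc ψ ⟨u, hu.1⟩‖ ≤ e := by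
        rw [norm_mul, show ‖(δ : ℂ)‖ = 1 by rcases D.sign with h | h <;> simp [h], one_mul,
          finsum_mem_eq_finite_toFinset_sum _ (Set.toFinite _), he, ← hF.ncard_orbit hφ,
          Set.ncard_eq_toFinset_card _ (Set.toFinite _)]
        exact (norm_sum_le _ _).trans (by simp [norm_hom])
      have h8 : (d₀ : ℝ) ≤ 1 := by exact_mod_cast h5
      rw [D.apply_exc hF.comm' hφ hu', Complex.add_re, Complex.intCast_re]
      linarith [Complex.re_le_norm (δ * ∑ᶠ ψ ∈ MulAction.orbit (NK (P : Subgroup G)) φ,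
        lc ψ ⟨u, hu.1⟩)]
    · have h7 := Finset.single_le_sum (f := fun χ => a χ ^ 2) (fun χ _ => sq_nonneg _)
        (Finset.mem_filter.2 ⟨Finset.mem_univ χ, Set.mem_sdiff_of_mem hχ h6⟩)
      have h8 : a χ ≤ e + 1 := by
        nlinarith [sq_nonneg (d₀ - δ), nsmul_nonneg (sq_nonneg d₀) (s - 1), sq_nonneg (a χ - 1)]
      rw [D.apply_of_notMem hF.comm' hχ h6 hu', Complex.intCast_re]
      exact_mod_cast h8
  have key : ∀ χ : IrrCharacter G, ∃ d : ℤ, χ.1 u = d ∧ (χ ≠ Blk.irrOne G →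
      d + (e + 1) ≤ charDegree χ.1) := by
    intro χ
    obtain ⟨k, hk⟩ := (χ.2.isCharacter.res (Om P)).exists_nat_inner isIrrCharacter_one.isCharacter
    have h1 : ∑ y : Om P, χ.1 y = charDegree χ.1 + e * χ.1 u := by
      rw [← Finset.add_sum_erase _ _ (Finset.mem_univ 1), Finset.sum_congr rfl
        (g := fun _ => χ.1 u), Finset.sum_const, Finset.card_erase_of_mem (Finset.mem_univ _),
        Finset.card_univ, ← Nat.card_eq_fintype_card, nsmul_eq_mul, hq, Nat.add_sub_cancel,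
        OneMemClass.coe_one, χ.2.apply_one_eq_charDegree]
      intro y hy
      obtain ⟨c, hc⟩ := isConj_iff.1 (hcj y u y.2 hu (fun e =>
        (Finset.mem_erase.1 hy).1 (Subtype.ext e)) hu1)
      rw [← hc, χ.2.isClassFunction]
    simp only [classInner, map_one, mul_one] at hk
    rw [h1, inv_mul_eq_iff_eq_mul₀ (Char.card_ne_zero _), hq] at hk
    obtain ⟨d, hd⟩ := χ.2.isGen.exists_int_of_rat (g := u)
      ⟨(((e + 1 : ℕ) : ℚ) * k - charDegree χ.1) / e, by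
        push_cast at hk ⊢
        rw [eq_div_iff (Nat.cast_ne_zero.2 he0)]
        linear_combination hk⟩
    refine ⟨d, hd, fun hne => ?_⟩
    rw [hd] at hk
    have h2 : (charDegree χ.1 : ℤ) + e * d = (e + 1) * k := by exact_mod_cast hk
    have h3 : d ≤ charDegree χ.1 := by
      have := χ.2.isCharacter.re_le u
      rw [hd, Complex.intCast_re] at this
      exact_mod_cast this
    have h4 : d ≠ charDegree χ.1 := fun e => hu1 (by
      have h5 : u ∈ charKer χ.1 := χ.2.mem_charKer.2 (by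
        rw [hd, e, χ.2.apply_one_eq_charDegree, Int.cast_natCast])
      rwa [χ.2.charKer_eq_bot_of_simple fun e => hne (Subtype.ext e), mem_bot] at h5)
    have h6 : 0 < (k : ℤ) - d := by
      by_contra hh
      have := mul_nonpos_of_nonneg_of_nonpos (show (0 : ℤ) ≤ e + 1 by positivity) (not_lt.1 hh)
      have : (charDegree χ.1 : ℤ) - d ≤ 0 := by linarith
      omega
    nlinarith
  choose d hd hle using key
  refine false_of_pairs_inv hM ⟨1, by rw [pow_one, hou]⟩ hu1 (h.npc u hu.1 hu1)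
    (hcj _ u (inv_mem hu) hu (inv_ne_one.2 hu1) hu1) d (fun χ _ => hd χ) (fun χ hχ hne => ?_)
    fun a => ?_
  · have h6 := hle' χ hχ
    rw [hd, Complex.intCast_re] at h6
    have h7 : d χ ≤ e + 1 := by exact_mod_cast h6
    linarith [hle χ hne]
  have hy : orderOf (a * u * a⁻¹) = p := by rw [orderOf_conj', hou]
  obtain ⟨h6, h7⟩ := (abSyl_of_sylow P fun a ha b hb =>
    congrArg Subtype.val (hF.comm' ⟨a, ha⟩ ⟨b, hb⟩)).pair hu.2.2 (hy ▸ pow_orderOf_eq_one _)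
    (hc _ _ hou hy)
  have h8 : ∀ s : ℤ, p ∣ orderOf (u * (a * u * a⁻¹) ^ s) →
      ∃ w, IsConj w u ∧ IsPPart p (u * (a * u * a⁻¹) ^ s) w := by
    intro s hg
    obtain ⟨w, hw⟩ := exists_isPPart hp.out (u * (a * u * a⁻¹) ^ s)
    obtain ⟨c, -, h9⟩ := (sylIn_top P).exists_conj_le (isPGroup_zpowers_of_pElt hw.pElt) le_top
    have h10 := h9 (conj_mem_cj (mem_zpowers w))
    refine ⟨w, (isConj_iff.2 ⟨c, rfl⟩).trans (hcj u _ hu ⟨h10, hF.le_centralizer h10, ?_⟩ hu1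
      fun e => (hw.eq_one_iff hp.out).1 (by simpa using e) hg), hw⟩
    rw [conj_pow, h7 s w hw, mul_one, mul_inv_cancel]
  by_cases h9 : p ∣ orderOf (u * (a * u * a⁻¹) ^ (1 : ℤ))
  · obtain ⟨w, h10, h11⟩ := h8 _ h9
    exact ⟨w, h10, Or.inl (by rwa [zpow_one] at h11)⟩
  by_cases h10 : p ∣ orderOf (u * (a * u * a⁻¹) ^ (-1 : ℤ))
  · obtain ⟨w, h10, h11⟩ := h8 _ h10
    exact ⟨w, h10, Or.inr (by rwa [zpow_neg_one, conj_inv] at h11)⟩
  have h11 := h6 _ _ h9 h10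
  rw [zpow_one, zpow_neg_one, eq_inv_iff_mul_eq_one, ← sq] at h11
  exact absurd ((Nat.prime_dvd_prime_iff_eq hp.out Nat.prime_two).1
    (hy ▸ orderOf_dvd_of_pow_eq_one h11)) hp2

end Hy

end CL.GlSz
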