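import Mathlib
import Cfsg.Agent.INV.J1A5
import Cfsg.Agent.INV.A4Cent
import Cfsg.Agent.FGS.FiberCount

/-!
A 2-central involution whose weak closure in its centraliser is `2 × A₅`: local analysis.
-/

namespace CL.J1W

open Subgroup CL.J1U CL.TC CL.A4C

/-- an involution with `(p0 * r0) ^ 3 = 1` -/
def r0 : A5 := ⟨Equiv.swap 0 1 * Equiv.swap 2 4, by simp⟩

theorem a5_r0 : ∀ r : A5, r * r = 1 → (p0 * r) ^ 3 = 1 → r ≠ p0 →
    ∃ v, v * p0 = p0 * v ∧ v * r0 = r * v := by decide +kernel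

theorem a5_y {r : A5} (h1 : r * r = 1) (h2 : r ≠ 1) : ∃ y : A5,
    (∀ v, v * r = r * v → y * v * y⁻¹ * r = r * (y * v * y⁻¹)) ∧
    ∀ v, v * r = r * v → v * y = y * v → v = 1 := by
  obtain ⟨φ, rfl⟩ := a5_aut h1 h2
  refine ⟨φ ⟨Equiv.swap 1 3 * Equiv.swap 1 2, by simp⟩, fun v => ?_, fun v => ?_⟩ <;>
    obtain ⟨v, rfl⟩ := φ.surjective v <;>
    simp only [← map_mul, ← map_inv, EmbeddingLike.apply_eq_iff_eq, MulEquiv.map_eq_one_iff] <;>
    intro h <;> rcases a5_cent0 v h with rfl | rfl | rfl | rfl <;> decide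

variable {G : Type*} [Group G]

/-- An odd orbit in a coset of an elementary abelian 2-group forces a fixed point. -/
theorem exists_fixed [Finite G] {T K : Subgroup G} {d : G} (hT : ∀ a ∈ T, a * a = 1)
    (hK : ∀ k ∈ K, ∀ a ∈ T, k * a * k⁻¹ ∈ T) (hd : ∀ k ∈ K, k * d * k⁻¹ * d⁻¹ ∈ T)
    (hodd : Odd ((centralizer {d}).relIndex K)) :
    ∃ σ ∈ T, ∀ k ∈ K, k * (σ * d) * k⁻¹ = σ * d := by
  classical
  letI : CommGroup T := { (inferInstance : Group T) with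
    mul_comm := fun a b => Subtype.ext (comm_of_sq (hT a a.2) (hT b b.2) (hT _ (a * b).2)) }
  rw [← ncard_conj] at hodd
  set O := {y | ∃ k ∈ K, k * d * k⁻¹ = y}
  have hO : ∀ x ∈ O, x * d⁻¹ ∈ T := by rintro _ ⟨k, hk, rfl⟩; exact hd k hk
  let c : G → T := fun x => if h : x * d⁻¹ ∈ T then ⟨_, h⟩ else 1
  have hc : ∀ x ∈ O, (c x : G) = x * d⁻¹ := fun x hx => by simp only [c, dif_pos (hO x hx)]
  let F := (Set.toFinite O).toFinset
  refine ⟨(∏ x ∈ F, c x : T), Subtype.property _, fun k hk => ?_⟩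
  let φ : T →* T := MonoidHom.mk' (fun a => ⟨k * a * k⁻¹, hK k hk a a.2⟩) fun a b =>
    Subtype.ext (by simp)
  have h1 : ∀ l ∈ K, ∀ x ∈ O, l * x * l⁻¹ ∈ O := by
    rintro l hl _ ⟨m, hm, rfl⟩
    exact ⟨l * m, mul_mem hl hm, by group⟩
  have h2 : ∏ x ∈ F, (φ (c x) * ⟨_, hd k hk⟩) = ∏ x ∈ F, c x := by
    refine Finset.prod_equiv (MulAut.conj k).toEquiv (fun x => ?_) fun x hx => ?_
    · simp only [F, Set.Finite.mem_toFinset]
      exact ⟨h1 k hk x, fun h => by simpa [mul_assoc] using h1 _ (inv_mem hk) _ h⟩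
    · rw [Set.Finite.mem_toFinset] at hx
      refine Subtype.ext ?_
      change k * c x * k⁻¹ * (k * d * k⁻¹ * d⁻¹) = c (k * x * k⁻¹)
      rw [hc x hx, hc _ (h1 k hk x hx)]; group
  rw [Finset.prod_mul_distrib, ← map_prod, Finset.prod_const,
    ← Set.ncard_eq_toFinset_card O (Set.toFinite O)] at h2
  obtain ⟨m, hm⟩ := hodd
  rw [hm, pow_succ, pow_mul, sq, show (⟨_, hd k hk⟩ * ⟨_, hd k hk⟩ : T) = 1 from
    Subtype.ext (hT _ (hd k hk)), one_pow, one_mul] at h2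
  have h3 := congrArg Subtype.val h2
  generalize (∏ x ∈ F, c x) = σ at h3
  change k * σ * k⁻¹ * (k * d * k⁻¹ * d⁻¹) = σ at h3
  rw [← h3]; nth_rewrite 1 [h3]; group

/-- the class of `t` -/
def Jc (t : G) : Set G := {x | ∃ g, x = g * t * g⁻¹}

/-- the weak closure in the centraliser of `s` -/
def W (t s : G) : Subgroup G := closure {x | x ∈ Jc t ∧ x * s = s * x}

/-- the subgroup generated by the squares of `W t s` -/
def L (t s : G) : Subgroup G := closure {k | ∃ h ∈ W t s, h * h = k}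

theorem conj_mem_Jc {t x : G} (g : G) (h : x ∈ Jc t) : g * x * g⁻¹ ∈ Jc t := by
  obtain ⟨k, rfl⟩ := h
  exact ⟨g * k, by group⟩

theorem self_mem_Jc (t : G) : t ∈ Jc t := ⟨1, by group⟩

theorem conj_mem_W {t s h : G} (g : G) (hh : h ∈ W t s) : g * h * g⁻¹ ∈ W t (g * s * g⁻¹) := by
  have : (W t s).map (MulAut.conj g).toMonoidHom ≤ W t (g * s * g⁻¹) := by
    rw [W, MonoidHom.map_closure]
    refine closure_mono ?_
    rintro _ ⟨k, ⟨h1, h2⟩, rfl⟩
    exact ⟨conj_mem_Jc g h1, by simpa using congrArg (MulAut.conj g) h2⟩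
  exact this (mem_map_of_mem _ hh)

theorem conj_mem_L {t s h : G} (g : G) (hh : h ∈ L t s) : g * h * g⁻¹ ∈ L t (g * s * g⁻¹) := by
  have : (L t s).map (MulAut.conj g).toMonoidHom ≤ L t (g * s * g⁻¹) := by
    rw [L, MonoidHom.map_closure]
    refine closure_mono ?_
    rintro _ ⟨_, ⟨k, hk, rfl⟩, rfl⟩
    exact ⟨g * k * g⁻¹, conj_mem_W g hk, by simp [mul_assoc]⟩
  exact this (mem_map_of_mem _ hh)

theorem conj_mem_L_iff {t s h : G} (g : G) : g * h * g⁻¹ ∈ L t (g * s * g⁻¹) ↔ h ∈ L t s :=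
  ⟨fun h1 => by simpa [mul_assoc] using conj_mem_L g⁻¹ h1, conj_mem_L g⟩

theorem mem_W {t s x : G} (h1 : x ∈ Jc t) (h2 : x * s = s * x) : x ∈ W t s := subset_closure ⟨h1, h2⟩

/-- the centraliser of `W t s` -/
def D (t s : G) : Subgroup G := centralizer (W t s : Set G)

theorem mem_D {t s y : G} : y ∈ D t s ↔ ∀ w ∈ W t s, w * y = y * w := mem_centralizer_iff

theorem conj_mem_D {t s y : G} (g : G) (hy : y ∈ D t s) : g * y * g⁻¹ ∈ D t (g * s * g⁻¹) :=
  mem_D.mpr fun w hw => by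
    have := mem_D.mp hy (g⁻¹ * w * g) (by simpa [mul_assoc] using conj_mem_W g⁻¹ hw)
    simpa [mul_assoc] using congrArg (MulAut.conj g) this

/-- `W t s = ⟨s⟩ × f(A₅)` -/
structure WC (t s : G) (f : A5 →* G) : Prop where
  inj : Function.Injective f
  sq : s * s = 1
  comm : ∀ g, f g * s = s * f g
  ne : ∀ g, f g ≠ s
  mem : ∀ h, h ∈ W t s ↔ ∃ g, Over s f h g

namespace WC

variable {t s : G} {f : A5 →* G} (C : WC t s f)
include C

theorem conj (g : G) : WC t (g * s * g⁻¹) ((MulAut.conj g).toMonoidHom.comp f) := by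
  refine ⟨(MulAut.conj g).injective.comp C.inj, conj_sq g C.sq, fun k => ?_, fun k e => ?_,
    fun h => ⟨fun hh => ?_, ?_⟩⟩
  · simpa using congrArg (MulAut.conj g) (C.comm k)
  · exact C.ne k (by simpa using e)
  · obtain ⟨k, hk⟩ := (C.mem (g⁻¹ * h * g)).mp (by simpa [mul_assoc] using conj_mem_W g⁻¹ hh)
    exact ⟨k, hk.imp (fun e => by simpa [mul_assoc] using congrArg (MulAut.conj g) e)
      fun e => by simpa [mul_assoc] using congrArg (MulAut.conj g) e⟩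
  · rintro ⟨k, rfl | rfl⟩
    · exact conj_mem_W g ((C.mem _).mpr ⟨k, Or.inl rfl⟩)
    · simpa [mul_assoc] using conj_mem_W g ((C.mem _).mpr ⟨k, Or.inr rfl⟩)

theorem mul_mul (g k : A5) : s * f g * (s * f k) = f (g * k) := by
  rw [mul_assoc, ← mul_assoc (f g), C.comm, ← mul_assoc, ← mul_assoc, C.sq, one_mul, map_mul]

theorem fW (g : A5) : f g ∈ W t s := (C.mem _).mpr ⟨g, Or.inl rfl⟩

theorem sW : s ∈ W t s := (C.mem _).mpr ⟨1, Or.inr (by simp)⟩

theorem L_eq : L t s = f.range := by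
  apply le_antisymm
  · rw [L, closure_le]
    rintro _ ⟨h, hh, rfl⟩
    obtain ⟨g, rfl | rfl⟩ := (C.mem h).mp hh
    · exact ⟨g * g, map_mul _ _ _⟩
    · exact ⟨g * g, (C.mul_mul g g).symm⟩
  · rw [MonoidHom.range_eq_map, ← a5_gen, MonoidHom.map_closure]
    refine closure_mono ?_
    rintro _ ⟨_, rfl | rfl, rfl⟩
    · exact ⟨f (a5x ^ 2), C.fW _, by rw [← map_mul]; congr 1; decide⟩
    · exact ⟨f (a5y ^ 3), C.fW _, by rw [← map_mul]; congr 1; decide⟩

theorem fL (g : A5) : f g ∈ L t s := C.L_eq ▸ ⟨g, rfl⟩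

theorem not_mem : s ∉ L t s := by
  rw [C.L_eq]; rintro ⟨g, hg⟩; exact C.ne g hg

theorem not_mem' (g : A5) : s * f g ∉ L t s := fun h =>
  C.not_mem ((mul_mem_cancel_right (C.fL g)).mp h)

theorem mul_mem_iff {h k : G} (hh : h ∈ W t s) (hk : k ∈ W t s) :
    h * k ∈ L t s ↔ (h ∈ L t s ↔ k ∈ L t s) := by
  obtain ⟨g, rfl | rfl⟩ := (C.mem h).mp hh <;> obtain ⟨l, rfl | rfl⟩ := (C.mem k).mp hk
  · simp [C.fL, mul_mem]
  · rw [mul_mem_cancel_left (C.fL g)]; simp [C.fL]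
  · rw [mul_mem_cancel_right (C.fL l)]; simp [C.fL]
  · simp [C.mul_mul, C.not_mem', -map_mul, C.fL]

theorem o_comm {h k : G} {g l : A5} (h1 : Over s f h g) (h2 : Over s f k l) :
    h * k = k * h ↔ g * l = l * g := by
  rw [← C.inj.eq_iff]
  rcases h1 with rfl | rfl <;> rcases h2 with rfl | rfl
  · rw [map_mul, map_mul]
  · rw [← mul_assoc, C.comm, mul_assoc, mul_assoc, mul_right_inj, map_mul, map_mul]
  · rw [← mul_assoc, C.comm, mul_assoc, mul_assoc, mul_right_inj, map_mul, map_mul]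
  · rw [C.mul_mul, C.mul_mul]

theorem o_sq {h : G} {g : A5} (h1 : Over s f h g) : h * h = 1 ↔ g * g = 1 := by
  rw [← C.inj.eq_iff, map_one]
  rcases h1 with rfl | rfl
  · rw [map_mul]
  · rw [C.mul_mul]

theorem comm_of_mem {h : G} (hh : h ∈ W t s) : h * s = s * h := by
  obtain ⟨g, hg⟩ := (C.mem h).mp hh
  exact (C.o_comm hg (l := 1) (Or.inr (by simp))).mpr (by simp)

theorem sq_of_comm {r h : G} (hr : r ∈ W t s) (rr : r * r = 1) (r1 : r ≠ 1) (rs : r ≠ s)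
    (hh : h ∈ W t s) (e : h * r = r * h) : h * h = 1 := by
  obtain ⟨p, hp⟩ := (C.mem r).mp hr
  obtain ⟨g, hg⟩ := (C.mem h).mp hh
  exact (C.o_sq hg).mpr (a5_sq_of_comm ((C.o_sq hp).mp rr) (Cen.o_ne_one hp r1 rs)
    ((C.o_comm hg hp).mp e))

theorem comm_of_comm {r h k : G} (hr : r ∈ W t s) (rr : r * r = 1) (r1 : r ≠ 1) (rs : r ≠ s)
    (hh : h ∈ W t s) (e : h * r = r * h) (hk : k ∈ W t s) (e' : k * r = r * k) : h * k = k * h :=
  comm_of_sq (C.sq_of_comm hr rr r1 rs hh e) (C.sq_of_comm hr rr r1 rs hk e')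
    (C.sq_of_comm hr rr r1 rs (mul_mem hh hk) (Commute.mul_left e e'))

theorem eq_of_central {h : G} (hh : h ∈ W t s) (e : ∀ w ∈ W t s, h * w = w * h) :
    h = 1 ∨ h = s := by
  obtain ⟨g, hg⟩ := (C.mem h).mp hh
  obtain rfl := a5_center fun k => ((C.o_comm hg (Or.inl rfl)).mp (e _ (C.fW k))).symm
  exact hg.imp (by simp) (by simp)

theorem conj_of_iff {h k : G} (hW : h ∈ W t s) (hh : h * h = 1) (h1 : h ≠ 1) (h2 : h ≠ s)
    (kW : k ∈ W t s) (kk : k * k = 1) (k1 : k ≠ 1) (k2 : k ≠ s) (e : h ∈ L t s ↔ k ∈ L t s) :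
    ∃ g, f g * h * (f g)⁻¹ = k := by
  obtain ⟨p, hp⟩ := (C.mem h).mp hW
  obtain ⟨q, hq⟩ := (C.mem k).mp kW
  obtain ⟨g, hg⟩ := a5_conj ((C.o_sq hp).mp hh) (Cen.o_ne_one hp h1 h2)
    ((C.o_sq hq).mp kk) (Cen.o_ne_one hq k1 k2)
  refine ⟨g, ?_⟩
  rcases hp with rfl | rfl <;> rcases hq with rfl | rfl
  · rw [← hg, map_mul, map_mul, map_inv]
  · exact absurd (e.mp (C.fL _)) (C.not_mem' _)
  · exact absurd (e.mpr (C.fL _)) (C.not_mem' _)
  · rw [← hg, map_mul, map_mul, map_inv, ← mul_assoc, C.comm]; group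

theorem fp {p : A5} (h1 : p * p = 1) (h2 : p ≠ 1) : f p * f p = 1 ∧ f p ≠ 1 :=
  ⟨by rw [← map_mul, h1, map_one], fun h => h2 (C.inj (h.trans (map_one f).symm))⟩

end WC

/-- the hypotheses -/
structure HW (t : G) : Prop where
  odd : ¬ 2 ∣ (centralizer {t}).index
  wc : ∃ f, WC t t f

namespace HW

variable [Finite G] {t : G} (H : HW t)
include H

omit [Finite G] in
theorem wcs {s : G} (hs : s ∈ Jc t) : ∃ f, WC t s f := by
  obtain ⟨g, rfl⟩ := hs
  obtain ⟨f, C⟩ := H.wc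
  exact ⟨_, C.conj g⟩

omit [Finite G] in
theorem sq {s : G} (hs : s ∈ Jc t) : s * s = 1 := (H.wcs hs).elim fun _ C => C.sq

omit [Finite G] in
theorem ne_one {s : G} (hs : s ∈ Jc t) : s ≠ 1 := (H.wcs hs).elim fun _ C h =>
  C.ne 1 (by rw [map_one, h])

theorem both {f : A5 →* G} (C : WC t t f) : f p0 ∈ Jc t ∧ t * f p0 ∈ Jc t := by
  classical
  have key : ∀ ε, (ε = 1 ∨ ε = t) → ∀ p q : A5, p * p = 1 → p ≠ 1 → q * q = 1 → q ≠ 1 →
      ε * f p ∈ Jc t → ε * f q ∈ Jc t := fun ε hε p q p1 p2 q1 q2 h => by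
    obtain ⟨k, rfl⟩ := a5_conj p1 p2 q1 q2
    have h1 : f k * ε = ε * f k := by
      rcases hε with rfl | rfl
      · simp
      · exact C.comm k
    have := conj_mem_Jc (f k) h
    rwa [← mul_assoc, h1, mul_assoc ε, mul_assoc ε, ← map_inv, ← map_mul, ← map_mul] at this
  have pp : p0 * p0 = 1 ∧ p0 ≠ 1 := by decide
  let T := W t t ⊓ centralizer {f p0}
  have hT : ∀ a ∈ T, a * a = 1 := fun a ha => C.sq_of_comm (C.fW p0) (C.fp pp.1 pp.2).1
    (C.fp pp.1 pp.2).2 (C.ne _) ha.1 (mem_centralizer_singleton_iff.mp ha.2)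
  have h1 : Odd (Jc t).ncard := by
    have := ncard_conj ⊤ t
    rw [relIndex_top_right] at this
    rw [← Nat.not_even_iff_odd, even_iff_two_dvd, show Jc t = {y | ∃ h ∈ (⊤ : Subgroup G),
      h * t * h⁻¹ = y} by ext; simp [Jc, eq_comm], this]
    exact H.odd
  have h2 : 2 ∣ (Jc t \ T).ncard := by
    refine CL.Cnt.dvd_ncard_of_conj_elem T (fun g hg x hx => ⟨conj_mem_Jc g hx.1, fun h => hx.2 ?_⟩)
      fun x hx => ?_
    · exact (mul_mem_cancel_left hg).mp ((mul_mem_cancel_right (inv_mem hg)).mp h)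
    · have h3 : IsPGroup 2 T := fun a => ⟨1, Subtype.ext (by rw [pow_one, pow_two]; exact hT a a.2)⟩
      obtain ⟨n, hn⟩ := h3.index ((centralizer {x}).subgroupOf T)
      rcases n with _ | n
      · have h4 := relIndex_eq_one.mp hn
        have h5 := mem_centralizer_singleton_iff.mp (h4 (show t ∈ T from
          ⟨C.sW, mem_centralizer_singleton_iff.mpr (C.comm p0).symm⟩))
        have h6 := mem_centralizer_singleton_iff.mp (h4 (show f p0 ∈ T from
          ⟨C.fW _, mem_centralizer_singleton_iff.mpr rfl⟩))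
        exact absurd ⟨mem_W hx.1 h5.symm, mem_centralizer_singleton_iff.mpr h6.symm⟩ hx.2
      · exact (dvd_pow_self 2 n.succ_ne_zero).trans hn.symm.dvd
  have h3 : Odd (Jc t ∩ T).ncard := by
    rw [← Set.ncard_inter_add_ncard_sdiff_eq_ncard (Jc t) T, Nat.odd_add'] at h1
    rw [← Nat.not_even_iff_odd, ← h1, Nat.not_odd_iff_even]
    exact even_iff_two_dvd.mpr h2
  have h4 : ∀ ε δ, (ε = 1 ∧ δ = t ∨ ε = t ∧ δ = 1) → ε * f p0 ∈ Jc t → δ * f p0 ∈ Jc t := by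
    intro ε δ hε h
    by_contra h'
    have hε' : ε = 1 ∨ ε = t := hε.imp (·.1) (·.1)
    have ov : ∀ v, Over t f (ε * f v) v := fun v =>
      hε'.imp (fun e => by rw [e, one_mul]) fun e => by rw [e]
    have h5 : Jc t ∩ T = insert t ((fun v => ε * f v) '' (({p0, q0, p0 * q0} : Finset A5) : Set A5)) := by
      ext x
      refine ⟨fun ⟨hx, hx1, hx2⟩ => ?_, ?_⟩
      · by_cases e : x = t
        · exact Or.inl e
        obtain ⟨g, hg⟩ := (C.mem x).mp hx1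
        have g1 := Cen.o_ne_one hg (H.ne_one hx) e
        have g2 := (C.o_sq hg).mp (H.sq hx)
        have g3 := (C.o_comm hg (Or.inl rfl)).mp (mem_centralizer_singleton_iff.mp hx2)
        have g4 : x = ε * f g ∨ x = δ * f g := by
          rcases hε with ⟨rfl, rfl⟩ | ⟨rfl, rfl⟩
          · rwa [one_mul]
          · rw [one_mul]; exact hg.symm
        refine Or.inr ⟨g, by simpa using (a5_cent0 g g3).resolve_left g1, ?_⟩
        exact (g4.resolve_right fun e => h' (key δ (hε.symm.imp (·.2) (·.2)) _ _ g2 g1 pp.1 pp.2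
          (e ▸ hx))).symm
      · rintro (rfl | ⟨v, hv, rfl⟩)
        · exact ⟨self_mem_Jc _, C.sW, mem_centralizer_singleton_iff.mpr (C.comm p0).symm⟩
        · have hv' : v * v = 1 ∧ v ≠ 1 ∧ v * p0 = p0 * v := by
            simp only [Finset.coe_insert, Finset.coe_singleton, Set.mem_insert_iff,
              Set.mem_singleton_iff] at hv
            rcases hv with rfl | rfl | rfl <;> decide
          exact ⟨key ε hε' _ _ pp.1 pp.2 hv'.1 hv'.2.1 h, (C.mem _).mpr ⟨v, ov v⟩,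
            mem_centralizer_singleton_iff.mpr ((C.o_comm (ov v) (Or.inl rfl)).mpr hv'.2.2)⟩
    rw [h5, Set.ncard_insert_of_notMem, Set.ncard_image_of_injective _
      fun a b e => C.inj (mul_left_cancel e), Set.ncard_coe_finset] at h3
    · exact absurd h3 (by decide)
    · rintro ⟨v, hv, e⟩
      have h6 : v = 1 := by
        rcases hε' with rfl | rfl
        · exact absurd (by simpa using e) (C.ne v)
        · exact C.inj (by simpa using e)
      exact absurd (h6 ▸ hv) (by decide)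
  have h5 : f p0 ∈ Jc t ∨ t * f p0 ∈ Jc t := by
    by_contra! h
    have h6 : W t t ≤ centralizer {f a5x} := by
      rw [W, closure_le]
      rintro x ⟨hx1, hx2⟩
      by_cases e : x = t
      · exact mem_centralizer_singleton_iff.mpr (e ▸ (C.comm _).symm)
      obtain ⟨g, hg⟩ := (C.mem x).mp (mem_W hx1 hx2)
      have g1 := Cen.o_ne_one hg (H.ne_one hx1) e
      have g2 := (C.o_sq hg).mp (H.sq hx1)
      rcases hg with rfl | rfl
      · exact absurd (by simpa using key 1 (Or.inl rfl) _ _ g2 g1 pp.1 pp.2 (by simpa using hx1)) h.1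
      · exact absurd (key t (Or.inr rfl) _ _ g2 g1 pp.1 pp.2 hx1) h.2
    exact absurd ((C.o_comm (Or.inl rfl) (Or.inl rfl)).mp
      (mem_centralizer_singleton_iff.mp (h6 (C.fW p0)))) (by decide)
  rcases h5 with h | h
  · exact ⟨h, h4 1 t (Or.inl ⟨rfl, rfl⟩) (by simpa using h)⟩
  · exact ⟨by simpa using h4 t 1 (Or.inr ⟨rfl, rfl⟩) h, h⟩

/-- all involutions of the weak closure are conjugate to `t` -/
theorem allJ {s h : G} (hs : s ∈ Jc t) (hW : h ∈ W t s) (hh : h * h = 1) (h1 : h ≠ 1) :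
    h ∈ Jc t := by
  obtain ⟨g, rfl⟩ := hs
  obtain ⟨f, C⟩ := H.wc
  obtain ⟨b1, b2⟩ := H.both C
  have h2 : g⁻¹ * h * g⁻¹⁻¹ ∈ W t t := by simpa [mul_assoc] using conj_mem_W g⁻¹ hW
  suffices g⁻¹ * h * g⁻¹⁻¹ ∈ Jc t by simpa [mul_assoc] using conj_mem_Jc g this
  have h3 := conj_sq g⁻¹ hh
  have h4 : g⁻¹ * h * g⁻¹⁻¹ ≠ 1 := fun e => h1 (conj_eq_one_iff.mp e)
  generalize g⁻¹ * h * g⁻¹⁻¹ = x at h2 h3 h4
  by_cases e : x = t
  · exact e ▸ self_mem_Jc t
  have f0 := C.fp (p := p0) (by decide) (by decide)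
  by_cases hL : x ∈ L t t
  · obtain ⟨k, rfl⟩ := C.conj_of_iff (C.fW p0) f0.1 f0.2 (C.ne _) h2 h3 h4 e
      (iff_of_true (C.fL _) hL)
    exact conj_mem_Jc _ b1
  · obtain ⟨k, rfl⟩ := C.conj_of_iff (mul_mem C.sW (C.fW p0)) (H.sq b2) (H.ne_one b2)
      (by simpa using f0.2) h2 h3 h4 e (iff_of_false (C.not_mem' _) hL)
    exact conj_mem_Jc _ b2

theorem mul_mem_Jc {s r : G} (hs : s ∈ Jc t) (hr : r ∈ Jc t) (e : r * s = s * r) (ne : r ≠ s) :
    r * s ∈ Jc t :=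
  H.allJ hs (mul_mem (mem_W hr e) (mem_W hs rfl))
    (by rw [mul_assoc, ← mul_assoc s, ← e, mul_assoc, H.sq hs, mul_one, H.sq hr])
    fun h => ne (by rw [eq_inv_of_mul_eq_one_left h, inv_eq_of_mul_eq_one_left (H.sq hs)])

omit [Finite G] in
theorem trans {s h r k : G} (hs : s ∈ Jc t) (hh : h ∈ Jc t) (h2 : h ≠ s) (h3 : h * s = s * h)
    (hr : r ∈ Jc t) (hk : k ∈ Jc t) (k2 : k ≠ r) (k3 : k * r = r * k)
    (e : h ∈ L t s ↔ k ∈ L t r) : s ∈ L t h ↔ r ∈ L t k := by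
  obtain ⟨g, rfl⟩ : ∃ g, g * s * g⁻¹ = r := by
    obtain ⟨a, rfl⟩ := hs
    obtain ⟨b, rfl⟩ := hr
    exact ⟨b * a⁻¹, by group⟩
  obtain ⟨f, C⟩ := H.wcs hr
  obtain ⟨l, e2⟩ := C.conj_of_iff (conj_mem_W g (mem_W hh h3)) (conj_sq g (H.sq hh))
    (by simpa using H.ne_one hh) (by simpa using h2) (mem_W hk k3) (H.sq hk) (H.ne_one hk) k2
    ((conj_mem_L_iff g).trans e)
  rw [← conj_mem_L_iff g, ← conj_mem_L_iff (f l), e2, C.comm, mul_inv_cancel_right]

theorem tournament {s h : G} (hs : s ∈ Jc t) (hh : h ∈ Jc t) (h2 : h ≠ s) (h3 : h * s = s * h) :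
    s ∈ L t h ↔ h ∉ L t s := by
  by_contra hc
  have hs' : s ∈ L t h ↔ h ∈ L t s := by
    generalize (s ∈ L t h) = P, (h ∈ L t s) = Q at hc ⊢
    tauto
  have sym : ∀ r k : G, r ∈ Jc t → k ∈ Jc t → k ≠ r → k * r = r * k →
      (r ∈ L t k ↔ k ∈ L t r) := fun r k hr hk k2 k3 => by
    have t1 := H.trans hs hh h2 h3 hr hk k2 k3
    have t2 := H.trans hs hh h2 h3 hk hr k2.symm k3.symm
    rw [hs'] at t1 t2
    generalize (h ∈ L t s) = P, (r ∈ L t k) = Q, (k ∈ L t r) = R at t1 t2 ⊢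
    clear * - t1 t2
    tauto
  have p := H.mul_mem_Jc hs hh h3 h2
  obtain ⟨f, C⟩ := H.wcs p
  obtain ⟨f1, C1⟩ := H.wcs hs
  obtain ⟨f2, C2⟩ := H.wcs hh
  have c1 : s * (h * s) = h * s * s := by rw [← mul_assoc, ← h3]
  have c2 : h * (h * s) = h * s * h := by rw [mul_assoc, ← h3]
  have q1 := C.mul_mem_iff (mem_W hh c2) (mem_W hs c1)
  have q2 := sym _ _ p hs (by simpa using H.ne_one hh) c1
  have q3 := sym _ _ p hh (by simpa using H.ne_one hs) c2
  have q4 := C1.mul_mem_iff (mem_W hh h3) C1.sW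
  have q5 := C2.mul_mem_iff C2.sW (mem_W hs h3.symm)
  refine C.not_mem (q1.mpr ?_)
  rw [← q2, ← q3, q4, q5, hs']
  simp [C1.not_mem, C2.not_mem]

theorem noswap {s r g : G} (hs : s ∈ Jc t) (e1 : g * s * g⁻¹ = r) (e2 : g * r * g⁻¹ = s)
    (e3 : r * s = s * r) : r = s := by
  by_contra ne
  have h1 := H.tournament hs (e1 ▸ conj_mem_Jc g hs) ne e3
  have h2 := conj_mem_L_iff (t := t) (s := s) (h := r) g
  rw [e1, e2] at h2
  exact iff_not_self (h2.symm.trans h1)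

theorem inner {s c : G} {f : A5 →* G} (hs : s ∈ Jc t) (C : WC t s f) (hc : c * s = s * c) :
    ∃ k, ∀ w ∈ W t s, (f k)⁻¹ * c * w = w * ((f k)⁻¹ * c) := by
  have hf : ∀ c, c * s = s * c → ∀ g, ∃ g', c * f g * c⁻¹ = f g' := fun c hc g => by
    have := conj_mem_L c (C.fL g)
    rw [hc, mul_inv_cancel_right, C.L_eq] at this
    exact this.imp fun _ h => h.symm
  have fs : ∀ k c, c * s = s * c → (f k)⁻¹ * c * s = s * ((f k)⁻¹ * c) := fun k c hc =>
    (Commute.inv_left (C.comm k)).mul_left hc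
  have cj : ∀ c x y, c * f x * c⁻¹ = f y → (y = 1 ↔ x = 1) := fun c x y h => by
    rw [← C.inj.eq_iff, ← C.inj.eq_iff (b := 1), map_one, ← h, conj_eq_one_iff]
  have cm : ∀ c x y x' y', c * f x * c⁻¹ = f y → c * f x' * c⁻¹ = f y' →
      c * f (x * x') * c⁻¹ = f (y * y') := fun c x y x' y' h h' => by
    rw [map_mul, map_mul, ← h, ← h']; group
  obtain ⟨p, hp⟩ := hf c hc p0
  obtain ⟨k, hk⟩ := a5_conj0' p ((cj _ _ _ (cm _ _ _ _ _ hp hp)).mpr (by decide))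
    (fun h => absurd ((cj _ _ _ hp).mp h) (by decide))
  have h1 : (f k)⁻¹ * c * f p0 * ((f k)⁻¹ * c)⁻¹ = f p0 := by
    calc _ = (f k)⁻¹ * (c * f p0 * c⁻¹ * f k) := by group
      _ = _ := by rw [hp, ← map_mul, hk, map_mul, inv_mul_cancel_left]
  have h2 := fs k c hc
  obtain ⟨q, hq⟩ := hf _ h2 q0
  obtain ⟨r, hr⟩ := hf _ h2 r0
  have h3 : q = q0 := by
    have h4 := cm _ _ _ _ _ hq h1
    rw [show q0 * p0 = p0 * q0 by decide, cm _ _ _ _ _ h1 hq] at h4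
    rcases a5_cent0 q (C.inj h4).symm with rfl | rfl | rfl | rfl
    · exact absurd ((cj _ _ _ hq).mp rfl) (by decide)
    · exact absurd (C.inj (mul_left_cancel (mul_right_cancel (h1.trans hq.symm)))) (by decide)
    · rfl
    · have h5 := cm _ _ _ _ _ h1 hq
      rw [show p0 * (p0 * q0) = q0 by decide] at h5
      have f0 := C.fp (p := q0) (by decide) (by decide)
      exact absurd (C.inj (H.noswap (H.allJ hs (C.fW q0) f0.1 f0.2) hq h5
        (by rw [← map_mul, ← map_mul]; congr 1; decide))) (by decide)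
  subst h3
  have h4 := cm _ _ _ _ _ h1 hr
  obtain ⟨v, v1, v2⟩ := a5_r0 r ((cj _ _ _ (cm _ _ _ _ _ hr hr)).mpr (by decide))
    (by rw [pow_three]; exact (cj _ _ _ (cm _ _ _ _ _ h4 (cm _ _ _ _ _ h4 h4))).mpr (by decide))
    (fun h => (show r0 ≠ p0 by decide) (C.inj (mul_left_cancel (mul_right_cancel
      (hr.trans ((congrArg f h).trans h1.symm))))))
  have v3 : v * q0 = q0 * v := by
    rcases a5_cent0 v v1 with rfl | rfl | rfl | rfl <;> decide
  refine ⟨k * v, fun w hw => ?_⟩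
  rw [map_mul, mul_inv_rev, mul_assoc (f v)⁻¹]
  generalize (f k)⁻¹ * c = d at h1 h2 hq hr
  have fin : ∀ x y, d * f x * d⁻¹ = f y → v * x = y * v → Commute ((f v)⁻¹ * d) (f x) :=
    fun x y h e => by
      calc (f v)⁻¹ * d * f x = (f v)⁻¹ * (d * f x * d⁻¹ * f v) * ((f v)⁻¹ * d) := by group
        _ = _ := by rw [h, ← map_mul, ← e, map_mul, inv_mul_cancel_left]
  have c1 := fin _ _ h1 v1
  have c2 := fin _ _ hq v3
  have c3 := fin _ _ hr v2
  have c4 : ∀ g, Commute ((f v)⁻¹ * d) (f g) := fun g => by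
    have : closure {a5x, a5y} ≤ (centralizer {(f v)⁻¹ * d}).comap f := by
      rw [closure_le]
      rintro _ (rfl | rfl) <;> refine mem_centralizer_singleton_iff.mpr (Commute.symm ?_)
      · rw [show a5x = q0 * p0 * r0 * q0 * r0 by decide]
        simp only [map_mul]
        exact (((c2.mul_right c1).mul_right c3).mul_right c2).mul_right c3
      · rw [show a5y = r0 * q0 * p0 * r0 * q0 * p0 by decide]
        simp only [map_mul]
        exact ((((c3.mul_right c2).mul_right c1).mul_right c3).mul_right c2).mul_right c1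
    exact (mem_centralizer_singleton_iff.mp (this (a5_gen ▸ mem_top g))).symm
  obtain ⟨g, rfl | rfl⟩ := (C.mem w).mp hw
  · exact c4 g
  · exact Commute.mul_right (fs v d h2) (c4 g)

omit [Finite G] in
theorem mem_D_self {s : G} (hs : s ∈ Jc t) : s ∈ D t s :=
  (H.wcs hs).elim fun _ C => mem_D.mpr fun _ hw => C.comm_of_mem hw

theorem spread {s u y : G} (hs : s ∈ Jc t) (hu : u ∈ Jc t) (ne : u ≠ s) (e : u * s = s * u)
    (h1 : y ∈ D t s) (h2 : y ∈ D t u) (h3 : y ∈ D t (u * s)) {r : G} (hr : r ∈ Jc t)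
    (e' : r * s = s * r) : y ∈ D t r := by
  by_cases rs : r = s
  · exact rs ▸ h1
  obtain ⟨f, C⟩ := H.wcs hs
  have key : ∀ x ∈ Jc t, x ≠ s → x * s = s * x → y ∈ D t x → (x ∈ L t s ↔ r ∈ L t s) →
      y ∈ D t r := fun x hx xs ex hy h => by
    obtain ⟨g, rfl⟩ := C.conj_of_iff (mem_W hx ex) (H.sq hx) (H.ne_one hx) xs (mem_W hr e')
      (H.sq hr) (H.ne_one hr) rs h
    have := conj_mem_D (f g) hy
    rwa [mem_D.mp h1 _ (C.fW g), mul_inv_cancel_right] at this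
  by_cases h : u ∈ L t s ↔ r ∈ L t s
  · exact key u hu ne e h2 h
  · refine key _ (H.mul_mem_Jc hs hu e ne) (by simpa using H.ne_one hu)
      (by rw [← mul_assoc, ← e]) h3 ?_
    rw [C.mul_mem_iff (mem_W hu e) C.sW]
    have := C.not_mem
    tauto

theorem key {c : G} (hc : c * t = t * c) : ∃ w ∈ W t t, ∀ r ∈ Jc t, r * t = t * r →
    w * c ∈ D t r := by
  obtain ⟨f, C⟩ := H.wc
  have ht := self_mem_Jc t
  have f0 := C.fp (p := p0) (by decide) (by decide)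
  let T := W t t ⊓ centralizer {f p0}
  have tT : t ∈ T := ⟨C.sW, mem_centralizer_singleton_iff.mpr (C.comm p0).symm⟩
  have pT : f p0 ∈ T := ⟨C.fW _, mem_centralizer_singleton_iff.mpr rfl⟩
  have T1 : ∀ a ∈ T, a * a = 1 := fun a ha => C.sq_of_comm (C.fW p0) f0.1 f0.2 (C.ne _) ha.1
    (mem_centralizer_singleton_iff.mp ha.2)
  have T0 : ∀ a ∈ T, ∀ b ∈ T, a * b = b * a := fun a ha b hb =>
    comm_of_sq (T1 a ha) (T1 b hb) (T1 _ (mul_mem ha hb))
  have T2 : ∀ a ∈ T, a ≠ 1 → a ∈ Jc t := fun a ha a1 => H.allJ ht ha.1 (T1 a ha) a1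
  have T3 : ∀ s ∈ T, ∀ a ∈ T, a ∈ W t s := fun s hs a ha => by
    by_cases a1 : a = 1
    · exact a1 ▸ one_mem _
    · exact mem_W (T2 a ha a1) (T0 a ha s hs)
  have T4 : ∀ s ∈ T, s ≠ 1 → ∀ r ∈ T, r ≠ 1 → r ≠ s → ∀ w ∈ W t s, w * r = r * w → w ∈ T :=
    fun s hs s1 r hr r1 rs w hw e => by
      obtain ⟨g, E⟩ := H.wcs (T2 s hs s1)
      have h1 := fun a ha => E.comm_of_comm (T3 s hs r hr) (T1 r hr) r1 rs hw e (T3 s hs a ha)
        (T0 a ha r hr)
      refine ⟨?_, mem_centralizer_singleton_iff.mpr (h1 _ pT)⟩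
      by_cases w1 : w = 1
      · exact w1 ▸ one_mem _
      · exact mem_W (H.allJ (T2 s hs s1) hw (E.sq_of_comm (T3 s hs r hr) (T1 r hr) r1 rs hw e) w1)
          (h1 _ tT)
  have T5 : ∀ s, ∃ r ∈ T, r ≠ 1 ∧ r ≠ s := fun s => by
    by_cases h : t = s
    · exact ⟨_, pT, f0.2, h ▸ C.ne _⟩
    · exact ⟨_, tT, H.ne_one ht, h⟩
  have T6 : ∀ d, (∀ a ∈ T, d * a = a * d) → ∀ s ∈ T, s ≠ 1 → ∃ a ∈ T, ∃ x ∈ D t s, d = a * x :=
    fun d hd s hs s1 => by
      obtain ⟨g, E⟩ := H.wcs (T2 s hs s1)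
      obtain ⟨k, hk⟩ := H.inner (T2 s hs s1) E (hd s hs)
      obtain ⟨r, hr, r1, rs⟩ := T5 s
      refine ⟨g k, T4 s hs s1 r hr r1 rs _ (E.fW k) ?_, _, mem_D.mpr fun w hw => (hk w hw).symm,
        by group⟩
      have h1 : Commute ((g k)⁻¹ * d) r := hk r (T3 s hs r hr)
      have h2 := (show Commute d r from hd r hr).mul_left h1.inv_left
      simpa using h2.eq
  obtain ⟨k, hk⟩ := H.inner ht C hc
  set d := (f k)⁻¹ * c with hd'
  have hd : ∀ a ∈ T, d * a = a * d := fun a ha => hk a ha.1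
  let K : Subgroup G :=
    { carrier := {g | g ∈ normalizer (T : Set G) ∧ g * d * g⁻¹ * d⁻¹ ∈ T}
      one_mem' := ⟨one_mem _, by simp⟩
      mul_mem' := fun {g h} hg hh => ⟨mul_mem hg.1 hh.1, by
        simpa [mul_assoc] using mul_mem ((mem_normalizer_iff.mp hg.1 _).mp hh.2) hg.2⟩
      inv_mem' := fun {g} hg => ⟨inv_mem hg.1, by
        simpa [mul_assoc] using (mem_normalizer_iff.mp (inv_mem hg.1) _).mp (inv_mem hg.2)⟩ }
  have K1 : ∀ g ∈ K, (∀ a ∈ T, g * a = a * g) → g * d = d * g := fun g hg e => by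
    obtain ⟨s, hs, s1, ne⟩ := T5 (g * d * g⁻¹ * d⁻¹)
    obtain ⟨φ, E⟩ := H.wcs (T2 s hs s1)
    obtain ⟨a, ha, x, hx, rfl⟩ := T6 g e s hs s1
    obtain ⟨b, hb, z, hz, hbz⟩ := T6 d hd s hs s1
    have h1 : a * x * d * (a * x)⁻¹ * d⁻¹ = x * z * x⁻¹ * z⁻¹ := by
      have c1 : Commute a (x * d * x⁻¹) :=
        (Commute.mul_right (mem_D.mp hx a (T3 s hs a ha)) (hd a ha).symm).mul_right
          (Commute.inv_right (mem_D.mp hx a (T3 s hs a ha)))
      have c2 : Commute b (x * z * x⁻¹ * z⁻¹) := mem_D.mp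
        (mul_mem (mul_mem (mul_mem hx hz) (inv_mem hx)) (inv_mem hz)) b (T3 s hs b hb)
      calc _ = a * (x * d * x⁻¹) * a⁻¹ * d⁻¹ := by group
        _ = x * b * z * x⁻¹ * z⁻¹ * b⁻¹ := by rw [c1.eq, hbz]; group
        _ = b * (x * z * x⁻¹ * z⁻¹) * b⁻¹ := by rw [← mem_D.mp hx b (T3 s hs b hb)]; group
        _ = _ := by rw [c2.eq, mul_inv_cancel_right]
    have h2 := E.eq_of_central (T3 s hs _ hg.2) fun w hw => h1 ▸ (mem_D.mp
      (mul_mem (mul_mem (mul_mem hx hz) (inv_mem hx)) (inv_mem hz)) w hw).symm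
    rw [← mul_inv_eq_iff_eq_mul, ← mul_inv_eq_one]
    exact h2.resolve_right ne.symm
  have K2 : ∀ n, ∀ g ∈ K, g ^ 2 ^ n = 1 → ∀ a ∈ T, g * a = a * g := fun n => by
    induction n with
    | zero => intro g _ h a _; simp at h; simp [h]
    | succ n ih =>
      intro g hg h a ha
      have h1 := ih (g ^ 2) (pow_mem hg 2) (by rwa [← pow_mul, ← pow_succ']) a ha
      by_cases a1 : a = 1
      · simp [a1]
      rw [← mul_inv_eq_iff_eq_mul]
      refine H.noswap (T2 a ha a1) rfl ?_ (T0 _ ((mem_normalizer_iff.mp hg.1 _).mp ha) a ha)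
      calc _ = g ^ 2 * a * (g ^ 2)⁻¹ := by rw [pow_two]; group
        _ = a := by rw [h1, mul_inv_cancel_right]
  have K3 : Odd ((centralizer {d}).relIndex K) := by
    obtain ⟨P⟩ : Nonempty (Sylow 2 K) := inferInstance
    rw [← Nat.not_even_iff_odd, even_iff_two_dvd]
    refine fun h => P.not_dvd_index (h.trans (index_dvd_of_le fun g hg => ?_))
    obtain ⟨n, hn⟩ := P.isPGroup' ⟨g, hg⟩
    exact mem_centralizer_singleton_iff.mpr (K1 g g.2 (K2 n g g.2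
      (congrArg (fun x : P => ((x : K) : G)) hn)))
  obtain ⟨σ, hσ, hK⟩ := exists_fixed (K := K) T1 (fun g hg a ha => (mem_normalizer_iff.mp hg.1 a).mp ha)
    (fun g hg => hg.2) K3
  have main : ∀ s ∈ T, s ≠ 1 → σ * d ∈ D t s := fun s hs s1 => by
    obtain ⟨φ, E⟩ := H.wcs (T2 s hs s1)
    obtain ⟨r, hr, r1, rs⟩ := T5 s
    obtain ⟨p, hp⟩ := (E.mem r).mp (T3 s hs r hr)
    obtain ⟨y, y1, y2⟩ := a5_y ((E.o_sq hp).mp (T1 r hr)) (Cen.o_ne_one hp r1 rs)
    have n1 : ∀ a ∈ T, φ y * a * (φ y)⁻¹ ∈ T := fun a ha => by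
      obtain ⟨v, hv⟩ := (E.mem a).mp (T3 s hs a ha)
      have h1 : Over s φ (φ y * a * (φ y)⁻¹) (y * v * y⁻¹) := hv.imp (fun e => by simp [e])
        fun e => by rw [e, ← mul_assoc, E.comm]; simp [mul_assoc]
      exact T4 s hs s1 r hr r1 rs _ ((E.mem _).mpr ⟨_, h1⟩)
        ((E.o_comm h1 hp).mpr (y1 v ((E.o_comm hv hp).mp (T0 a ha r hr))))
    obtain ⟨b, hb, z, hz, hbz⟩ := T6 d hd s hs s1
    have c1 := mem_D.mp hz _ (E.fW y)
    have h1 := hK (φ y) ⟨mem_normalizer_fintype n1, by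
      have : φ y * d * (φ y)⁻¹ * d⁻¹ = φ y * b * (φ y)⁻¹ * b⁻¹ := by
        calc _ = φ y * b * (φ y)⁻¹ * (φ y * z) * (φ y)⁻¹ * z⁻¹ * b⁻¹ := by rw [hbz]; group
          _ = _ := by rw [c1]; group
      exact this ▸ mul_mem (n1 b hb) (inv_mem hb)⟩
    have h2 : σ * b * φ y = φ y * (σ * b) := by
      rw [mul_inv_eq_iff_eq_mul, hbz, ← mul_assoc σ, mul_assoc _ z, ← c1, ← mul_assoc,
        ← mul_assoc, ← mul_assoc, mul_left_inj, mul_assoc] at h1
      exact h1.symm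
    obtain ⟨v, hv⟩ := (E.mem _).mp (T3 s hs _ (mul_mem hσ hb))
    obtain rfl := y2 v ((E.o_comm hv hp).mp (T0 _ (mul_mem hσ hb) r hr))
      ((E.o_comm hv (Or.inl rfl)).mp h2)
    rw [hbz, ← mul_assoc]
    refine mul_mem ?_ hz
    rcases hv with e | e <;> rw [e, map_one]
    · exact one_mem _
    · exact mul_mem (H.mem_D_self (T2 s hs s1)) (one_mem _)
  refine ⟨σ * (f k)⁻¹, mul_mem hσ.1 (inv_mem (C.fW k)), fun r hr e => ?_⟩
  rw [mul_assoc]
  have h1 := H.mul_mem_Jc ht (T2 _ pT f0.2) (C.comm _) (C.ne _)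
  exact H.spread ht (T2 _ pT f0.2) (C.ne _) (C.comm _) (main _ tT (H.ne_one ht)) (main _ pT f0.2)
    (main _ (mul_mem pT tT) (H.ne_one h1)) hr e

end HW

end CL.J1W
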