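import Cfsg.Agent.INV.Def1Loc

/-! Few Sylow subgroups of prime order, I: the degrees in the principal block. -/

set_option autoImplicit false
open Cfsg Subgroup CL.Char MulAction
open CL.Blk hiding irrOne irrOne_apply

namespace CL.D1

/-- The parameters of the non-classical factorization of `(p - 1) (1 + r p)`. -/
structure U (p r u m : ℕ) : Prop where
  u_pos : 1 ≤ u
  le : u + 1 ≤ m
  hp : p = m * (u + 1) + 1
  hr : r = u * (m + 1) + 1

theorem U.unique {p r u m u' m' : ℕ} (h : U p r u m) (h' : U p r u' m') : u' = u ∧ m' = m := by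
  obtain ⟨h1, h2, h3, h4⟩ := h
  obtain ⟨h1', h2', h3', h4'⟩ := h'
  have h5 : m + u' = m' + u := by nlinarith
  rcases lt_trichotomy u u' with h | h | h
  · have : m * (u + 1) < m' * (u' + 1) := Nat.mul_lt_mul'' (by omega) (by omega)
    omega
  · omega
  · have : m' * (u' + 1) < m * (u + 1) := Nat.mul_lt_mul'' (by omega) (by omega)
    omega

theorem U.n_eq {p r u m : ℕ} (h : U p r u m) : 1 + r * p = (u * m + 1) * (p + u + 1) := by
  obtain ⟨-, -, rfl, rfl⟩ := h
  ring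

theorem nag_arith {p r d d' : ℕ} (hp : 2 ≤ p) (hr : r < p)
    (h : d * d' = (p - 1) * (1 + r * p)) (hd : (d : ℤ) ≡ 1 [ZMOD p]) :
    d = 1 ∨ d' = p - 1 ∨ ∃ u m, U p r u m ∧ d = (u + 1) * (u * m + 1) ∧ d' = m * (p + u + 1) := by
  obtain ⟨k, rfl⟩ : ∃ k, p = k + 1 := ⟨p - 1, by omega⟩
  simp only [add_tsub_cancel_right] at h ⊢
  have h0 : 0 < d * d' := by rw [h]; exact Nat.mul_pos (by omega) (by omega)
  have hd0 : 0 < d := Nat.pos_of_mul_pos_right h0
  have hd0' : 0 < d' := Nat.pos_of_mul_pos_left h0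
  obtain ⟨u, hu⟩ := hd.symm.dvd
  have h' : (d : ℤ) * d' = k * (1 + r * (k + 1)) := by exact_mod_cast h
  obtain ⟨w, hw⟩ : ∃ w : ℤ, (d' : ℤ) + 1 = (k + 1) * w :=
    ⟨1 + k * r - u * d', by push_cast at hu; linear_combination h' - d' * hu⟩
  push_cast at hu
  rw [or_iff_not_imp_left, or_iff_not_imp_left]
  intro hc1 hc2
  have hm : (1 : ℤ) ≤ k := by omega
  have hu1 : 1 ≤ u := by
    by_contra h1
    have : ((k : ℤ) + 1) * u ≤ 0 := mul_nonpos_of_nonneg_of_nonpos (by omega) (by omega)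
    omega
  have hw1 : 2 ≤ w := by
    by_contra h1
    have h2 : w ≤ 0 ∨ w = 1 := by omega
    rcases h2 with h2 | rfl
    · have : ((k : ℤ) + 1) * w ≤ 0 := mul_nonpos_of_nonneg_of_nonpos (by omega) h2
      omega
    · omega
  have key : (r - u * w) * k = (u + 1) * (w - 1) := by
    have h3 : ((k : ℤ) + 1) * ((r - u * w) * k) = (k + 1) * ((u + 1) * (w - 1)) := by
      rw [show (d : ℤ) = (k + 1) * u + 1 by linarith, show (d' : ℤ) = (k + 1) * w - 1 by linarith]
        at h'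
      linear_combination -h'
    exact mul_left_cancel₀ (by omega) h3
  have h4 : 1 ≤ r - u * w := by
    by_contra h4
    have : (r - u * w) * k ≤ 0 := mul_nonpos_of_nonpos_of_nonneg (by omega) (by omega)
    nlinarith
  have hrk : (r : ℤ) ≤ k := by omega
  have h5 : r - u * w = 1 := by
    by_contra h5
    have h6 : 2 * (k : ℤ) ≤ (r - u * w) * k := mul_le_mul_of_nonneg_right (by omega) (by omega)
    nlinarith
  rw [h5, one_mul] at key
  lift u to ℕ using by omega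
  obtain ⟨m, rfl⟩ : ∃ m : ℕ, w = m + 1 := ⟨(w - 1).toNat, by omega⟩
  have e1 : k = m * (u + 1) := by zify; linarith
  have e2 : r = u * (m + 1) + 1 := by zify; linarith
  refine ⟨u, m, ⟨by omega, ?_, by omega, e2⟩, ?_, ?_⟩
  · by_contra h6
    have : (k : ℤ) < r := by
      have : (m : ℤ) ≤ u := by omega
      nlinarith
    omega
  · zify; rw [e1] at hu; push_cast at hu; linarith
  · zify; rw [e1] at hw ⊢; push_cast at hw ⊢; linarith

variable {G : Type*} [Group G] [Finite G] {p : ℕ} [hp : Fact p.Prime]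

/-- The degrees in the principal block when there are fewer than `p ^ 2` Sylow subgroups. -/
structure Data.Deg' {e : ℕ} (D : Data G p e) (r : ℕ) : Prop where
  pos : ∀ χ ∈ D.X, D.δ χ = 1 → charDegree χ.1 = 1 + r * p ∨
    ∃ u m, U p r u m ∧ charDegree χ.1 = (u + 1) * (u * m + 1)
  neg : ∀ χ ∈ D.X, D.δ χ = -1 → charDegree χ.1 = p - 1 ∨
    ∃ u m, U p r u m ∧ charDegree χ.1 = m * (p + u + 1)
  ypos : ∀ θ ∈ D.Y, D.ε = 1 → charDegree θ.1 = e ∨
    ∃ u m, U p r u m ∧ D.Y.card * charDegree θ.1 = m * (p + u + 1)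
  yneg : ∀ θ ∈ D.Y, D.ε = -1 → D.Y.card * charDegree θ.1 = 1 + r * p ∨
    ∃ u m, U p r u m ∧ D.Y.card * charDegree θ.1 = (u + 1) * (u * m + 1)

theorem Data.degrees' (hperf : commutator G = ⊤) {e r : ℕ} (D : Data G p e) {x : G}
    (hx : orderOf x = p) (hi : (centralizer ({x} : Set G)).index = e * (1 + r * p))
    (hr : r < p) (hr0 : r ≠ 0) : D.Deg' r := by
  classical
  have hp2 := hp.out.two_le
  have hte : p - 1 = D.Y.card * e := by have := D.card_Y; omega
  have hteZ : (D.Y.card : ℤ) * e + 1 = p := by exact_mod_cast D.card_Y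
  have ht : 0 < D.Y.card := D.Y_nonempty.card_pos
  have hn1 : 1 < 1 + r * p := by have := Nat.mul_pos (Nat.pos_of_ne_zero hr0) hp.out.pos; omega
  have cof : ∀ d d' : ℕ, d * d' = (p - 1) * (1 + r * p) → (d : ℤ) ≡ -1 [ZMOD p] →
      (d' : ℤ) ≡ 1 [ZMOD p] := by
    intro d d' h hd
    obtain ⟨u, hu⟩ := hd.dvd
    have h' : (d : ℤ) * d' = (p - 1) * (1 + r * p) := by
      have := congrArg (Nat.cast : ℕ → ℤ) h
      rwa [Nat.cast_mul, Nat.cast_mul, Nat.cast_sub (by omega)] at this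
    exact Int.modEq_iff_dvd.2 ⟨1 - r + r * p + u * d', by linear_combination h' + d' * hu⟩
  have hX : ∀ χ ∈ D.X, ∃ d', charDegree χ.1 * d' = (p - 1) * (1 + r * p) := fun χ hχ =>
    ((D.deg_X_dvd hx hχ).trans (by
      rw [hi, hte]; exact Nat.mul_dvd_mul_right (dvd_mul_left _ _) _)).imp fun _ h => h.symm
  have hY : ∀ θ ∈ D.Y, ∃ d', D.Y.card * charDegree θ.1 * d' = (p - 1) * (1 + r * p) :=
    fun θ hθ => ((D.deg_Y_dvd hx hθ).trans (dvd_of_eq hi)).imp fun _ h => by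
      rw [hte, mul_assoc, ← h, mul_assoc]
  have hpos : ∀ d d' : ℕ, d * d' = (p - 1) * (1 + r * p) → (d : ℤ) ≡ 1 [ZMOD p] → 2 ≤ d →
      d = 1 + r * p ∨ ∃ u m, U p r u m ∧ d = (u + 1) * (u * m + 1) := fun d d' h h1 h2 => by
    rcases nag_arith hp2 hr h h1 with h3 | h3 | ⟨u, m, h3, h4, -⟩
    · omega
    · rw [h3, mul_comm] at h
      exact Or.inl (Nat.eq_of_mul_eq_mul_left (by omega) h)
    · exact Or.inr ⟨u, m, h3, h4⟩
  have hle : ∀ d : ℕ, (d = 1 + r * p ∨ ∃ u m, U p r u m ∧ d = (u + 1) * (u * m + 1)) →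
      d ≤ 1 + r * p := by
    rintro d (rfl | ⟨u, m, h, rfl⟩)
    · rfl
    · rw [h.n_eq, mul_comm]
      gcongr
      omega
  have p1 : ∀ χ ∈ D.X, D.δ χ = 1 → charDegree χ.1 = 1 + r * p ∨
      ∃ u m, U p r u m ∧ charDegree χ.1 = (u + 1) * (u * m + 1) := fun χ hχ h => by
    obtain ⟨d', hd'⟩ := hX χ hχ
    exact hpos _ _ hd' (h ▸ D.deg_X hx hχ) (degree_ne_one hperf (D.ne_one (Or.inl hχ)))
  have p4 : ∀ θ ∈ D.Y, D.ε = -1 → D.Y.card * charDegree θ.1 = 1 + r * p ∨
      ∃ u m, U p r u m ∧ D.Y.card * charDegree θ.1 = (u + 1) * (u * m + 1) := fun θ hθ h => by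
    obtain ⟨d', hd'⟩ := hY θ hθ
    have h3 := degree_ne_one hperf (D.ne_one (Or.inr hθ))
    refine hpos _ _ hd' ?_ (by nlinarith)
    push_cast
    refine ((D.deg_Y θ hθ).mul_left _).trans (Int.modEq_iff_dvd.2 ⟨1, ?_⟩)
    rw [h]; linear_combination hteZ
  have hb : ∀ χ ∈ D.X, D.δ χ * charDegree χ.1 ≤ 1 + r * p := fun χ hχ => by
    rcases D.δ_sign χ hχ with h | h
    · rw [h, one_mul]
      exact_mod_cast hle _ (p1 χ hχ h)
    · rw [h]
      have : (0 : ℤ) ≤ r * p := by positivity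
      omega
  have hXc : (D.X.card : ℤ) = e - 1 := by have := D.card_X; omega
  have hnZ : (1 : ℤ) < 1 + r * p := by exact_mod_cast hn1
  refine ⟨p1, fun χ hχ h => ?_, fun θ hθ h => ?_, p4⟩
  · obtain ⟨d', hd'⟩ := hX χ hχ
    rcases nag_arith hp2 hr ((mul_comm _ _).trans hd') (cof _ _ hd' (h ▸ D.deg_X hx hχ)) with
      rfl | h3 | ⟨u, m, h3, -, h4⟩
    · exfalso
      obtain ⟨θ, hθ⟩ := D.Y_nonempty
      have h1 := D.deg_eqn hθ
      rw [← Finset.add_sum_erase _ _ hχ, h] at h1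
      have h2 := Finset.sum_le_card_nsmul (D.X.erase χ) _ _
        fun ψ hψ => hb ψ (Finset.mem_of_mem_erase hψ)
      have h0 := Finset.card_pos.2 ⟨χ, hχ⟩
      rw [Finset.card_erase_of_mem hχ, nsmul_eq_mul, Nat.cast_sub h0, hXc] at h2
      have h3 : -(1 + r * p : ℤ) ≤ D.ε * charDegree θ.1 := by
        rcases D.ε_sign with h' | h'
        · rw [h']; omega
        · have h4 := hle _ (p4 θ hθ h')
          have h5 : charDegree θ.1 ≤ 1 + r * p := (Nat.le_mul_of_pos_left _ ht).trans h4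
          rw [h']
          have : (charDegree θ.1 : ℤ) ≤ 1 + r * p := by exact_mod_cast h5
          omega
      have h4 : e * (1 + r * p) ≤ charDegree χ.1 := by
        rw [mul_one] at hd'
        rw [hd', hte]
        gcongr
        exact Nat.le_mul_of_pos_left _ ht
      have h5 : (e : ℤ) * (1 + r * p) ≤ charDegree χ.1 := by exact_mod_cast h4
      push_cast at h2
      nlinarith
    · exact Or.inl h3
    · exact Or.inr ⟨u, m, h3, h4⟩
  · obtain ⟨d', hd'⟩ := hY θ hθ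
    have h1 : ((D.Y.card * charDegree θ.1 : ℕ) : ℤ) ≡ -1 [ZMOD p] := by
      push_cast
      refine ((D.deg_Y θ hθ).mul_left _).trans (Int.modEq_iff_dvd.2 ⟨-1, ?_⟩)
      rw [h]; linear_combination -hteZ
    rcases nag_arith hp2 hr ((mul_comm _ _).trans hd') (cof _ _ hd' h1) with
      rfl | h3 | ⟨u, m, h3, -, h4⟩
    · exfalso
      have h3 := D.deg_eqn hθ
      rw [mul_one, hte, mul_assoc] at hd'
      rw [Nat.eq_of_mul_eq_mul_left ht hd', h] at h3
      have h2 := Finset.sum_le_card_nsmul D.X _ _ hb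
      rw [nsmul_eq_mul, hXc] at h2
      push_cast at h3
      nlinarith
    · exact Or.inl (Nat.eq_of_mul_eq_mul_left ht (h3.trans hte))
    · exact Or.inr ⟨u, m, h3, h4⟩

end CL.D1
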