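import Cfsg.Agent.INV.Nag1
import Cfsg.Agent.CHAR.FS
import Cfsg.Agent.CHAR.Galois

/-! Few Sylow subgroups of prime order, II: bounds for character values. -/

set_option autoImplicit false
open Cfsg Subgroup CL.Char MulAction
open CL.Blk hiding irrOne irrOne_apply

namespace CL.D1

variable {G : Type*} [Group G] [Finite G] {p : ℕ} [hp : Fact p.Prime]

omit hp in
theorem isCharacter_avgN {χ : G → ℂ} (hχ : IsCharacter G χ) (K : Subgroup G) [Fintype K]
    (H : Subgroup G) (hH : H ≤ normalizer (K : Set G)) :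
    IsCharacter H fun g => (Nat.card K : ℂ)⁻¹ * ∑ k : K, χ (g * k) := by
  obtain ⟨n, ρ, rfl⟩ := hχ
  have c0 : (Nat.card K : ℂ) ≠ 0 := Nat.cast_ne_zero.2 Nat.card_pos.ne'
  have h1 : ∀ a : K, ρ a * ∑ k : K, ρ k = ∑ k : K, ρ k := fun a => by
    rw [Finset.mul_sum]
    exact Fintype.sum_equiv (Equiv.mulLeft a) _ _ fun k => by simp
  have := isCharacter_trace_mul_proj (ρ.comp H.subtype) ((Nat.card K : ℂ)⁻¹ • ∑ k : K, ρ k) (by
    rw [smul_mul_smul_comm, Finset.sum_mul]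
    simp only [h1, Finset.sum_const, Finset.card_univ, ← Nat.card_eq_fintype_card]
    rw [← Nat.cast_smul_eq_nsmul ℂ, smul_smul, inv_mul_cancel_right₀ c0]) (fun g => by
    rw [smul_mul_assoc, mul_smul_comm, Finset.sum_mul, Finset.mul_sum]
    congr 1
    refine (Fintype.sum_equiv (K.normalizerMonoidHom ⟨g, hH g.2⟩).toEquiv _ _ fun k => ?_).symm
    simp [← map_mul])
  convert this using 2 with g
  simp [Representation.character, Finset.mul_sum]

/-- A character with constant value `δ = ± 1` on the `p`-singular elements. -/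
structure Mem (p : ℕ) (χ : G → ℂ) (δ : ℤ) : Prop where
  ch : IsCharacter G χ
  sign : δ = 1 ∨ δ = -1
  val : ∀ g, p ∣ orderOf g → χ g = δ
  int : ∀ g, ¬ p ∣ orderOf g → IsIntegral ℤ (centralChar χ g)

namespace Mem
variable {χ : G → ℂ} {δ : ℤ} (h : Mem p χ δ)
include h

theorem avg {x v : G} (hx : orderOf x = p) [Fintype (zpowers x)] (hc : Commute x v)
    (hv : ¬ p ∣ orderOf v) : ∑ k : zpowers x, χ (v * k) = χ v + (p - 1) * δ := by
  classical
  rw [← Finset.add_sum_erase _ _ (Finset.mem_univ 1), Finset.sum_congr rfl (g := fun _ => (δ : ℂ))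
    (fun k hk => h.val _ ?_), Finset.sum_const, Finset.card_erase_of_mem (Finset.mem_univ _),
    Finset.card_univ, ← Nat.card_eq_fintype_card, Nat.card_zpowers, hx, nsmul_eq_mul,
    Nat.cast_sub hp.out.one_le]
  · simp
  · have h1 : orderOf (k : G) = p := CL.Small.orderOf_eq_of_card_prime
      (by rw [Nat.card_zpowers, hx]) k.2 fun h' => Finset.ne_of_mem_erase hk (Subtype.ext h')
    obtain ⟨i, hi⟩ := k.2
    rw [CL.Small.orderOf_mul_of_comm (by rw [← hi]; exact (hc.symm.zpow_right i).eq)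
      (by rw [h1]; exact (hp.out.coprime_iff_not_dvd.2 hv).symm), h1]
    exact dvd_mul_left _ _

theorem norm_le {x y : G} (hx : orderOf x = p) (hy : y ∈ normalizer (zpowers x : Set G))
    (hc : ¬ Commute x y) {k : ℕ} (hk : (charDegree χ : ℤ) + (p - 1) * δ = p * k) : ‖χ y‖ ≤ k := by
  classical
  have := Fintype.ofFinite (zpowers x)
  have hp0 : (p : ℂ) ≠ 0 := by exact_mod_cast hp.out.ne_zero
  have hK : Nat.card (zpowers x) = p := by rw [Nat.card_zpowers, hx]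
  have h1 := (isCharacter_avgN h.ch (zpowers x) _ le_rfl).norm_le_norm_one ⟨y, hy⟩
  let f : zpowers x → zpowers x := fun c => ⟨y⁻¹ * c * y * (c : G)⁻¹,
    mul_mem (by simpa using (mem_normalizer_iff.1 (inv_mem hy) c).1 c.2) (inv_mem c.2)⟩
  have hf : Function.Bijective f := Finite.injective_iff_bijective.1 fun c d hcd => by
    have h2 : y⁻¹ * c * y * (c : G)⁻¹ = y⁻¹ * d * y * (d : G)⁻¹ := congrArg Subtype.val hcd
    by_contra h3
    have h4 : Commute ((d : G)⁻¹ * c) y := by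
      change _ = _
      calc (d : G)⁻¹ * c * y = (d : G)⁻¹ * y * (y⁻¹ * c * y * (c : G)⁻¹) * c := by group
        _ = _ := by rw [h2]; group
    obtain ⟨i, hi⟩ : x ∈ zpowers ((d : G)⁻¹ * c) := CL.Small.eq_zpowers_of_card_prime hK
      (mul_mem (inv_mem d.2) c.2) (fun h5 => h3 (Subtype.ext (inv_mul_eq_one.1 h5).symm)) ▸
        mem_zpowers x
    exact hc (hi ▸ h4.zpow_left i)
  have h2 : ∑ k : zpowers x, χ (y * k) = p * χ y := by
    rw [← hf.sum_comp, Finset.sum_congr rfl (g := fun _ => χ y) fun c _ => by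
      rw [← h.ch.isClassFunction y c]; congr 1; simp [f, mul_assoc],
      Finset.sum_const, Finset.card_univ, ← Nat.card_eq_fintype_card, hK, nsmul_eq_mul]
  have h3 := h.avg hx (Commute.one_right x) (not_dvd_orderOf_one hp.out)
  have h4 : χ 1 + (p - 1) * δ = p * k := by
    rw [h.ch.apply_one_eq_charDegree]; exact_mod_cast hk
  simp only [OneMemClass.coe_one, hK, h2, h3, h4, inv_mul_cancel_left₀ hp0] at h1
  simpa using h1

theorem exists_phi {x v : G} (hx : orderOf x = p) (hc : Commute x v) (hv : ¬ p ∣ orderOf v) :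
    ∃ φ : zpowers v → ℂ, IsGeneralizedCharacter _ φ ∧ ∀ b : zpowers v, χ b = δ + p * φ b := by
  classical
  have := Fintype.ofFinite (zpowers x)
  have hp0 : (p : ℂ) ≠ 0 := by exact_mod_cast hp.out.ne_zero
  have h1 := isCharacter_avgN h.ch (zpowers x) (zpowers v) (zpowers_le.2
    (CL.Small.centralizer_le_normalizer' _ (by
      rw [CL.Small.centralizer_zpowers_eq]; exact CL.Small.mem_centralizer_singleton_iff'.2 hc)))
  refine ⟨_, h1.isGen.sub (isGen_one.intCast_smul δ), fun b => ?_⟩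
  obtain ⟨i, hi⟩ := b.2
  simp only [Pi.sub_apply, Pi.smul_apply, Nat.card_zpowers, hx]
  rw [h.avg hx (hi ▸ hc.zpow_right i) fun h' => hv (h'.trans (orderOf_dvd_of_mem_zpowers b.2))]
  field_simp
  simp
  ring

theorem sum_units_ge {x v : G} (hx : orderOf x = p) (hc : Commute x v) (hv : ¬ p ∣ orderOf v)
    {q k : ℕ} (hq : q.Prime) [NeZero (q ^ k)] (hvq : v ^ q ^ k = 1) {c : ℤ}
    (hd : (charDegree χ : ℤ) = δ + p * c) (hqc : ¬ (q : ℤ) ∣ c) :
    (Fintype.card (ZMod (q ^ k))ˣ : ℝ) * (p - 1) ^ 2 ≤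
      ∑ u : (ZMod (q ^ k))ˣ, ‖χ (v ^ (u : ZMod (q ^ k)).val)‖ ^ 2 := by
  obtain ⟨φ, hφ, h1⟩ := h.exists_phi hx hc hv
  have hp0 : (p : ℂ) ≠ 0 := by exact_mod_cast hp.out.ne_zero
  have hv' : (⟨v, mem_zpowers v⟩ : zpowers v) ^ q ^ k = 1 := Subtype.ext hvq
  have h2 : φ 1 = c := by
    have h3 := h1 1
    rw [OneMemClass.coe_one, h.ch.apply_one_eq_charDegree] at h3
    have h4 : (charDegree χ : ℂ) = δ + p * c := by exact_mod_cast hd
    exact mul_left_cancel₀ hp0 (by linear_combination h4 - h3)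
  have h3 := hφ.card_units_le_sum (fun h0 => hqc (by
    simpa using (hφ.int_modEq_one hq hv' (m := 0) (by simpa using h0) h2).dvd)) hv'
  have hp1 : (1 : ℝ) ≤ p := by exact_mod_cast hp.out.one_le
  have h4 : ∀ z : ℂ, (p ^ 2 - p) * ‖z‖ ^ 2 - (p - 1) ≤ ‖δ + p * z‖ ^ 2 := fun z => by
    have h5 : ‖(δ : ℂ)‖ = 1 := by rcases h.sign with h | h <;> simp [h]
    have h6 := norm_sub_norm_le (p * z) (-δ : ℂ)
    have h7 := norm_sub_norm_le (-δ : ℂ) (p * z)
    rw [norm_sub_rev] at h7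
    rw [norm_neg, h5, norm_mul, Complex.norm_natCast, sub_neg_eq_add, add_comm] at h6 h7
    have h8 : (p * ‖z‖ - 1) ^ 2 ≤ ‖δ + p * z‖ ^ 2 := sq_le_sq' (by linarith) h6
    nlinarith [sq_nonneg (‖z‖ - 1)]
  refine le_trans ?_ (Finset.sum_le_sum fun u _ => (h4 (φ (⟨v, mem_zpowers v⟩ ^
    (u : ZMod (q ^ k)).val))).trans_eq (by rw [← h1]; rfl))
  rw [Finset.sum_sub_distrib, ← Finset.mul_sum, Finset.sum_const, Finset.card_univ, nsmul_eq_mul]
  have h5 := mul_le_mul_of_nonneg_left h3 (show (0 : ℝ) ≤ p ^ 2 - p by nlinarith)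
  nlinarith

end Mem

namespace Data
variable {e : ℕ} (D : Data G p e)

omit hp in
theorem mem_X {χ : IrrCharacter G} (h : χ ∈ D.X) : Mem p χ.1 (D.δ χ) :=
  ⟨χ.2.isCharacter, D.δ_sign χ h, D.val_X χ h, fun g _ => χ.2.isIntegral_centralChar g⟩

/-- The sum of the exceptional characters. -/
noncomputable def Θ : G → ℂ := ∑ θ ∈ D.Y, θ.1

omit [Finite G] hp in
theorem Θ_reg {θ : IrrCharacter G} (h : θ ∈ D.Y) {g : G} (hg : ¬ p ∣ orderOf g) :
    D.Θ g = D.Y.card * θ.1 g := by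
  rw [Θ, Finset.sum_apply, Finset.sum_congr rfl fun θ' h' => D.Y_eq h' h hg, Finset.sum_const,
    nsmul_eq_mul]

omit [Finite G] in
theorem deg_Θ {θ : IrrCharacter G} (h : θ ∈ D.Y) :
    charDegree D.Θ = D.Y.card * charDegree θ.1 :=
  charDegree_eq_of_apply_one (by
    rw [D.Θ_reg h (not_dvd_orderOf_one hp.out), θ.2.apply_one_eq_charDegree, Nat.cast_mul])

theorem mem_Θ : Mem p D.Θ (-D.ε) := by
  obtain ⟨θ, hθ⟩ := D.Y_nonempty
  refine ⟨isCharacter_sum _ _ fun θ _ => θ.2.isCharacter, by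
    rcases D.ε_sign with h | h <;> simp [h], fun g hg => ?_, fun g hg => ?_⟩
  · rw [Θ, Finset.sum_apply, D.sum_Y g hg, Int.cast_neg]
  · have h0 : (D.Y.card : ℂ) ≠ 0 := by exact_mod_cast D.Y_nonempty.card_pos.ne'
    convert θ.2.isIntegral_centralChar g using 1
    rw [centralChar, centralChar, D.Θ_reg hθ hg, D.Θ_reg hθ (not_dvd_orderOf_one hp.out),
      mul_left_comm, mul_div_mul_left _ _ h0]

omit [Finite G] in
theorem eqnΘ {g : G} (hg : ¬ p ∣ orderOf g) :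
    (D.ε : ℂ) * D.Θ g = D.Y.card * (1 + ∑ χ ∈ D.X, (D.δ χ : ℂ) * χ.1 g) := by
  obtain ⟨θ, hθ⟩ := D.Y_nonempty
  rw [D.Θ_reg hθ hg, ← D.eqn θ hθ g hg, mul_left_comm]

/-- The nonexceptional characters of given sign and degree. -/
noncomputable def Xs (s : ℤ) (d : ℕ) : Finset (IrrCharacter G) :=
  D.X.filter fun χ => D.δ χ = s ∧ charDegree χ.1 = d

omit [Finite G] hp in
theorem mem_Xs {s : ℤ} {d : ℕ} {χ : IrrCharacter G} :
    χ ∈ D.Xs s d ↔ χ ∈ D.X ∧ D.δ χ = s ∧ charDegree χ.1 = d := Finset.mem_filter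

/-- The degrees for fixed parameters `u`, `m`. -/
structure Typ (r u m : ℕ) : Prop extends U p r u m where
  X : ∀ χ ∈ D.X, χ ∈ D.Xs 1 (1 + r * p) ∨ χ ∈ D.Xs 1 ((u + 1) * (u * m + 1)) ∨
    χ ∈ D.Xs (-1) (p - 1) ∨ χ ∈ D.Xs (-1) (m * (p + u + 1))
  Y : (D.ε = -1 ∧ charDegree D.Θ = 1 + r * p) ∨
    (D.ε = -1 ∧ charDegree D.Θ = (u + 1) * (u * m + 1)) ∨
    (D.ε = 1 ∧ charDegree D.Θ = p - 1) ∨ (D.ε = 1 ∧ charDegree D.Θ = m * (p + u + 1))

variable {D} {r u m : ℕ}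

omit [Finite G] in
theorem Deg'.typ (h : D.Deg' r) (hU : U p r u m) : D.Typ r u m := by
  refine ⟨hU, fun χ hχ => ?_, ?_⟩
  · simp only [mem_Xs, hχ, true_and]
    rcases D.δ_sign χ hχ with h1 | h1
    · rcases h.pos χ hχ h1 with h2 | ⟨u', m', h2, h3⟩
      · exact Or.inl ⟨h1, h2⟩
      · obtain ⟨rfl, rfl⟩ := hU.unique h2
        exact Or.inr (Or.inl ⟨h1, h3⟩)
    · rcases h.neg χ hχ h1 with h2 | ⟨u', m', h2, h3⟩
      · exact Or.inr (Or.inr (Or.inl ⟨h1, h2⟩))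
      · obtain ⟨rfl, rfl⟩ := hU.unique h2
        exact Or.inr (Or.inr (Or.inr ⟨h1, h3⟩))
  · obtain ⟨θ, hθ⟩ := D.Y_nonempty
    rw [D.deg_Θ hθ]
    rcases D.ε_sign with h1 | h1
    · rcases h.ypos θ hθ h1 with h2 | ⟨u', m', h2, h3⟩
      · exact Or.inr (Or.inr (Or.inl ⟨h1, by have := D.card_Y; rw [h2]; omega⟩))
      · obtain ⟨rfl, rfl⟩ := hU.unique h2
        exact Or.inr (Or.inr (Or.inr ⟨h1, h3⟩))
    · rcases h.yneg θ hθ h1 with h2 | ⟨u', m', h2, h3⟩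
      · exact Or.inl ⟨h1, h2⟩
      · obtain ⟨rfl, rfl⟩ := hU.unique h2
        exact Or.inr (Or.inl ⟨h1, h3⟩)

omit [Finite G] hp in
theorem Deg'.deg (h : D.Deg' r) (hU : ¬ ∃ u m, U p r u m) : D.Deg r :=
  ⟨fun χ h1 h2 => (h.pos χ h1 h2).resolve_right fun ⟨u, m, h3, _⟩ => hU ⟨u, m, h3⟩,
    fun χ h1 h2 => (h.neg χ h1 h2).resolve_right fun ⟨u, m, h3, _⟩ => hU ⟨u, m, h3⟩,
    fun χ h1 h2 => (h.ypos χ h1 h2).resolve_right fun ⟨u, m, h3, _⟩ => hU ⟨u, m, h3⟩,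
    fun χ h1 h2 => (h.yneg χ h1 h2).resolve_right fun ⟨u, m, h3, _⟩ => hU ⟨u, m, h3⟩⟩

omit [Finite G] hp in
theorem Typ.sum_split (h : D.Typ r u m) {M : Type*} [AddCommMonoid M] (F : IrrCharacter G → M) :
    ∑ χ ∈ D.X, F χ = ∑ χ ∈ D.Xs 1 (1 + r * p), F χ + ∑ χ ∈ D.Xs 1 ((u + 1) * (u * m + 1)), F χ +
      ∑ χ ∈ D.Xs (-1) (p - 1), F χ + ∑ χ ∈ D.Xs (-1) (m * (p + u + 1)), F χ := by
  have h1 : (u + 1) * (u * m + 1) < 1 + r * p := by
    rw [h.n_eq, mul_comm]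
    have := h.hp
    gcongr
    omega
  have h2 : p - 1 < m * (p + u + 1) :=
    lt_of_lt_of_le (by omega) (Nat.le_mul_of_pos_left _ (by have := h.le; omega))
  simp only [Xs, Finset.sum_filter, ← Finset.sum_add_distrib]
  refine Finset.sum_congr rfl fun χ hχ => ?_
  rcases h.X χ hχ with h3 | h3 | h3 | h3 <;> obtain ⟨-, h3, h4⟩ := D.mem_Xs.1 h3 <;>
    simp [h3, h4, h1.ne, h1.ne', h2.ne, h2.ne']

omit [Finite G] in
/-- The degree equation in terms of the numbers of characters of each degree. -/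
theorem Typ.rel (h : D.Typ r u m) : ∃ α β γ η : ℕ, (D.Xs 1 (1 + r * p)).card = α ∧
    (D.Xs 1 ((u + 1) * (u * m + 1))).card = β ∧ (D.Xs (-1) (p - 1)).card = γ ∧
    (D.Xs (-1) (m * (p + u + 1))).card = η ∧ e = 1 + α + β + γ + η ∧
    D.Y.card * e = m * (u + 1) ∧
    ((D.ε = -1 ∧ charDegree D.Θ = 1 + r * p ∧
        D.Y.card * (α * r + β * u) + r + 1 = D.Y.card * (γ + η * (m + 1))) ∨
      (D.ε = -1 ∧ charDegree D.Θ = (u + 1) * (u * m + 1) ∧
        D.Y.card * (α * r + β * u) + u + 1 = D.Y.card * (γ + η * (m + 1))) ∨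
      (D.ε = 1 ∧ charDegree D.Θ = p - 1 ∧ α * r + β * u = γ + η * (m + 1)) ∨
      (D.ε = 1 ∧ charDegree D.Θ = m * (p + u + 1) ∧
        D.Y.card * (α * r + β * u) = D.Y.card * (γ + η * (m + 1)) + m)) := by
  have h1 := h.sum_split (fun _ => (1 : ℕ))
  simp only [← Finset.card_eq_sum_ones] at h1
  have h2 := h.sum_split (fun χ => D.δ χ * charDegree χ.1)
  have h3 : ∀ s d, ∑ χ ∈ D.Xs s d, D.δ χ * charDegree χ.1 = (D.Xs s d).card * (s * d) :=
    fun s d => by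
      rw [Finset.sum_congr rfl (g := fun _ => s * d) fun χ hχ => by
        rw [(D.mem_Xs.1 hχ).2.1, (D.mem_Xs.1 hχ).2.2], Finset.sum_const, nsmul_eq_mul]
  simp only [h3] at h2
  obtain ⟨θ, hθ⟩ := D.Y_nonempty
  have h4 := D.deg_eqn hθ
  have h5 := D.card_X
  have h6 := D.card_Y
  have h7 := h.hp
  have h8 := h.Y
  have ht : (D.Y.card : ℤ) ≠ 0 := by exact_mod_cast D.Y_nonempty.card_pos.ne'
  have hp0 : (p : ℤ) ≠ 0 := by exact_mod_cast hp.out.ne_zero
  refine ⟨_, _, _, _, rfl, rfl, rfl, rfl, by omega, by omega, ?_⟩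
  rw [D.deg_Θ hθ] at h8 ⊢
  rw [h2] at h4
  generalize (D.Xs 1 (1 + r * p)).card = α at *
  generalize (D.Xs 1 ((u + 1) * (u * m + 1))).card = β at *
  generalize (D.Xs (-1) (p - 1)).card = γ at *
  generalize (D.Xs (-1) (m * (p + u + 1))).card = η at *
  generalize D.Y.card = t at *
  generalize charDegree θ.1 = f at *
  have e1 : (t : ℤ) * (1 + α + β + γ + η) + 1 = p := by
    have : e = 1 + α + β + γ + η := by omega
    rw [this] at h6
    exact_mod_cast h6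
  have e2 : (p : ℤ) = m * (u + 1) + 1 := by exact_mod_cast h7
  rw [Nat.cast_sub hp.out.one_le] at h4
  push_cast at h4
  rcases h8 with ⟨h8, h9⟩ | ⟨h8, h9⟩ | ⟨h8, h9⟩ | ⟨h8, h9⟩
  · refine Or.inl ⟨h8, h9, ?_⟩
    zify at h9 ⊢
    rw [h8] at h4
    exact mul_left_cancel₀ hp0 (by
      linear_combination -t * h4 - h9 - e1 + (t * β * u - t * η) * e2)
  · refine Or.inr (Or.inl ⟨h8, h9, ?_⟩)
    zify at h9 ⊢
    rw [h8] at h4
    exact mul_left_cancel₀ hp0 (by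
      linear_combination -t * h4 - h9 - e1 + (t * β * u - t * η + u) * e2)
  · refine Or.inr (Or.inr (Or.inl ⟨h8, h9, ?_⟩))
    zify [hp.out.one_le] at h9 ⊢
    rw [h8] at h4
    exact mul_left_cancel₀ (mul_ne_zero ht hp0) (by
      linear_combination -t * h4 + h9 - e1 + (t * β * u - t * η) * e2)
  · refine Or.inr (Or.inr (Or.inr ⟨h8, h9, ?_⟩))
    zify at h9 ⊢
    rw [h8] at h4
    exact mul_left_cancel₀ hp0 (by
      linear_combination -t * h4 + h9 - e1 + (t * β * u - t * η - 1) * e2)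

end Data

end CL.D1
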