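import Cfsg.Agent.INV.Nag2

/-! Few Sylow subgroups of prime order, III: the self-centralizing case, values at involutions. -/

set_option autoImplicit false
open Cfsg Subgroup CL.Char MulAction
open CL.Blk hiding irrOne irrOne_apply

namespace CL.D1

/-- Constraints on the value `c` at an involution of a character with sign `δ` and degree `f`. -/
def Good (p n F : ℕ) (δ : ℤ) (f : ℕ) (c : ℤ) : Prop :=
  (∀ k : ℕ, (f : ℤ) + (p - 1) * δ = p * k → |c| ≤ k) ∧ (F : ℤ) * f ∣ n * c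

section
variable {p r u m n F : ℕ} {c δ : ℤ}

theorem Good.of_n (h : Good p n F δ n c) (hn : n ≠ 0) : (F : ℤ) ∣ c := by
  have := h.2
  rwa [mul_comm (n : ℤ), mul_dvd_mul_iff_right (by exact_mod_cast hn)] at this

theorem Good.of_p (h : Good p n F (-1) (p - 1) c) (hp : 1 ≤ p) : c = 0 := by
  simpa using h.1 0 (by rw [Nat.cast_sub hp]; simp)

theorem good_aux {k A B : ℕ} (hA : A ≠ 0) (hk : k.Coprime B) (h1 : |c| ≤ k)
    (h2 : (F : ℤ) * (k * A : ℕ) ∣ (A * B : ℕ) * c) : (k : ℤ) ∣ c ∧ (¬ F ∣ B → c = 0) := by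
  have h3 : (F : ℤ) * k ∣ B * c := by
    rw [← mul_dvd_mul_iff_right (show (A : ℤ) ≠ 0 by exact_mod_cast hA)]
    rwa [Nat.cast_mul, ← mul_assoc, Nat.cast_mul, mul_assoc (A : ℤ), mul_comm (A : ℤ)] at h2
  have h4 : (k : ℤ) ∣ c := (Nat.isCoprime_iff_coprime.2 hk).dvd_of_dvd_mul_left
    ((dvd_mul_left _ _).trans h3)
  refine ⟨h4, fun h5 => ?_⟩
  by_contra h6
  have h7 : |c| = k := le_antisymm h1 (Int.le_of_dvd (abs_pos.2 h6) ((dvd_abs _ _).2 h4))
  have h8 : (k : ℤ) ≠ 0 := h7 ▸ (abs_pos.2 h6).ne'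
  rw [← dvd_abs, abs_mul, h7, Nat.abs_cast, mul_dvd_mul_iff_right h8] at h3
  exact h5 (by exact_mod_cast h3)

theorem U.cop1 (h : U p r u m) : (u + 1).Coprime (p + u + 1) := by
  rw [h.hp, show m * (u + 1) + 1 + u + 1 = 1 + (u + 1) * (m + 1) by ring]
  simp

theorem U.cop2 (u m : ℕ) : m.Coprime (u * m + 1) := by
  rw [add_comm]
  simp

theorem Good.of_a (hU : U p r u m) (h : Good p (1 + r * p) F 1 ((u + 1) * (u * m + 1)) c) :
    ((u + 1 : ℕ) : ℤ) ∣ c ∧ (¬ F ∣ p + u + 1 → c = 0) :=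
  good_aux (A := u * m + 1) (by omega) hU.cop1 (h.1 _ (by rw [hU.hp]; push_cast; ring))
    (hU.n_eq ▸ h.2)

theorem Good.of_b (hU : U p r u m) (h : Good p (1 + r * p) F (-1) (m * (p + u + 1)) c) :
    (m : ℤ) ∣ c ∧ (¬ F ∣ u * m + 1 → c = 0) :=
  good_aux (A := p + u + 1) (by omega) (U.cop2 u m) (h.1 _ (by rw [hU.hp]; push_cast; ring))
    (by rw [mul_comm (p + u + 1), ← hU.n_eq]; exact h.2)

theorem U.lt_two_mul (h : U p r u m) : p + 2 < 2 * r := by
  obtain ⟨h1, h2, rfl, rfl⟩ := h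
  nlinarith

end

variable {G : Type*} [Group G] [Finite G] {p : ℕ} [hp : Fact p.Prime]

theorem Mem.coprime {χ : G → ℂ} {δ : ℤ} (h : Mem p χ δ) {x : G} (hx : orderOf x = p) :
    (charDegree χ).Coprime p := by
  have h1 := h.ch.isGen.int_modEq_one hp.out (k := 1) (g := x)
    (by rw [pow_one, ← hx, pow_orderOf_eq_one]) (h.val x (by rw [hx]))
    (n := charDegree χ) (by rw [h.ch.apply_one_eq_charDegree]; simp)
  refine (hp.out.coprime_iff_not_dvd.2 fun h2 => hp.out.one_lt.ne' ?_).symm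
  have h3 : (p : ℤ) ∣ δ := by simpa using (Int.natCast_dvd_natCast.2 h2).sub h1.dvd
  rcases h.sign with h | h <;> simpa [h, Int.natCast_dvd_ofNat] using h3

namespace SC
variable {P : Sylow p G} {e r : ℕ} {x g : G} (h : SC P e r x g)
include h

local notation "N" => normalizer ((P : Subgroup G) : Set G)
local notation "π" a => Nat.card (fixedBy (G ⧸ N) a)

theorem norm_le {χ : G → ℂ} {δ : ℤ} (hχ : Mem p χ δ) {y : G} (hy : y ∈ zpowers g) (h1 : y ≠ 1)
    {k : ℕ} (hk : (charDegree χ : ℤ) + (p - 1) * δ = p * k) : ‖χ y‖ ≤ k :=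
  hχ.norm_le h.hz (h.hP ▸ zpowers_le.2 h.gN hy) (fun hc => h1 (h.eq_one_of_mem hy (by
    rw [h.hP, ← h.hC]; exact CL.Small.mem_centralizer_singleton_iff'.2 hc))) hk

theorem fix_mul {y : G} (hy : y ∈ zpowers g) (h2 : orderOf y = 2) (hodd : p ≠ 2) :
    (centralizer ({y} : Set G)).index * (π y) = p * (1 + r * p) ∧ (π y).Coprime p := by
  have h1 := (centralizer ({y} : Set G)).index_mul_card
  have h3 := h.not_dvd_card_cent (a := y) (by rintro rfl; simp at h2) (h.not_dvd_of_mem hy)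
  rw [h.card_cent_invol hodd hy h2] at h1 h3
  rw [h.card_G] at h1
  exact ⟨Nat.eq_of_mul_eq_mul_right h.e_pos (by rw [mul_assoc, h1]; ring),
    (hp.out.coprime_iff_not_dvd.2 fun h' => h3 (h'.mul_right _)).symm⟩

theorem good {χ : G → ℂ} {δ : ℤ} (hχ : Mem p χ δ) {y : G} (hy : y ∈ zpowers g)
    (h2 : orderOf y = 2) (hodd : p ≠ 2) :
    ∃ c : ℤ, χ y = c ∧ Good p (1 + r * p) (π y) δ (charDegree χ) c := by
  obtain ⟨a, b, -, hc⟩ := hχ.ch.exists_nat_sub_of_mul_self (g := y)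
    (by rw [← sq, ← h2, pow_orderOf_eq_one])
  have hc' : χ y = ((a - b : ℤ) : ℂ) := by simpa using hc
  generalize (a - b : ℤ) = c at hc'
  obtain ⟨h3, h4⟩ := h.fix_mul hy h2 hodd
  have h5 := hχ.coprime h.hz
  refine ⟨c, hc', fun k hk => ?_, ?_⟩
  · have := h.norm_le hχ hy (by rintro rfl; simp at h2) hk
    rw [hc', Complex.norm_intCast] at this
    exact_mod_cast this
  · have h6 := hχ.int y (h.not_dvd_of_mem hy)
    rw [centralChar, hc', hχ.ch.apply_one_eq_charDegree] at h6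
    have h7 := dvd_of_isIntegral_div (a := (centralizer ({y} : Set G)).index * c)
      (d := charDegree χ) (Nat.pos_of_ne_zero fun h0 => hp.out.one_lt.ne'
        (by rwa [h0, Nat.coprime_zero_left] at h5)) (by simpa using h6)
    have h8 := mul_dvd_mul_left ((π y) : ℤ) h7
    have h9 : ((centralizer ({y} : Set G)).index * (π y) : ℤ) = p * (1 + r * p : ℕ) := by
      exact_mod_cast h3
    rw [← mul_assoc, mul_comm _ ((centralizer ({y} : Set G)).index : ℤ), h9, mul_assoc] at h8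
    refine IsCoprime.dvd_of_dvd_mul_left ?_ h8
    exact_mod_cast Nat.isCoprime_iff_coprime.2 (h4.mul_left h5)

variable {D : Data G p e} {u m : ℕ}

theorem invol (T : D.Typ r u m) {y : G} (hy : y ∈ zpowers g) (h2 : orderOf y = 2) :
    ∃ c S : ℤ, Good p (1 + r * p) (π y) (-D.ε) (charDegree D.Θ) c ∧
      D.ε * c = D.Y.card * (1 + S) ∧ ∀ d : ℤ, ((D.Xs 1 (1 + r * p)).Nonempty → d ∣ (π y)) →
        (d ∣ (u + 1 : ℕ) ∨ ¬ (π y) ∣ p + u + 1) → (d ∣ m ∨ ¬ (π y) ∣ u * m + 1) → d ∣ S := by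
  have hodd : p ≠ 2 := by have := T.hp; have := T.le; have := T.u_pos; nlinarith
  obtain ⟨c, hc, hc'⟩ := h.good D.mem_Θ hy h2 hodd
  choose! f hf hf' using fun χ hχ => h.good (D.mem_X (χ := χ) hχ) hy h2 hodd
  refine ⟨c, ∑ χ ∈ D.X, D.δ χ * f χ, hc', ?_, fun d h3 h4 h5 => Finset.dvd_sum fun χ hχ =>
    Dvd.dvd.mul_left ?_ _⟩
  · have := D.eqnΘ (h.not_dvd_of_mem hy)
    rw [hc, Finset.sum_congr rfl fun χ hχ => by rw [hf χ hχ]] at this
    exact_mod_cast this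
  · have h6 := hf' χ hχ
    rcases T.X χ hχ with h7 | h7 | h7 | h7 <;> obtain ⟨-, h8, h9⟩ := D.mem_Xs.1 h7 <;>
      rw [h8, h9] at h6
    · exact (h3 ⟨χ, h7⟩).trans (h6.of_n (by omega))
    · obtain ⟨h10, h11⟩ := h6.of_a T.toU
      exact h4.elim (·.trans h10) fun h => h11 h ▸ dvd_zero _
    · exact h6.of_p hp.out.one_le ▸ dvd_zero _
    · obtain ⟨h10, h11⟩ := h6.of_b T.toU
      exact h5.elim (·.trans h10) fun h => h11 h ▸ dvd_zero _

omit hp in
theorem exists_invol (he : 2 ∣ e) : ∃ y ∈ zpowers g, orderOf y = 2 :=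
  CL.Small.exists_mem_orderOf_eq_prime _ 2 (by rwa [Nat.card_zpowers, h.hg])

omit h hp in
theorem fix_le_pow (a : G) (k : ℕ) : (π a) ≤ (π (a ^ k)) :=
  Set.ncard_le_ncard (by simpa using fixedBy_subset_fixedBy_zpow (G ⧸ N) a k) (Set.toFinite _)

/-- No constituent of degree `n` occurs. -/
theorem not_key (hperf : commutator G = ⊤) (T : D.Typ r u m) {θ : G → ℂ} (hθ : IsIrrCharacter G θ)
    (hd : D.Y.card * charDegree θ = 1 + r * p) : False := by
  have hU := T.toU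
  have hodd : p ≠ 2 := by have := T.hp; have := T.le; have := T.u_pos; nlinarith
  have hte := D.card_Y
  have ht : 0 < D.Y.card := D.Y_nonempty.card_pos
  have he := D.two_le_e hperf
  obtain ⟨s, hs⟩ : p ∣ charDegree θ + e := by
    refine (hp.out.dvd_mul.1 (show p ∣ D.Y.card * (charDegree θ + e) from ⟨r + 1, ?_⟩)).resolve_left
      fun h' => ?_
    · rw [mul_add, hd, mul_add, mul_comm p]; omega
    · have := Nat.le_of_dvd ht h'
      nlinarith
  have hts : D.Y.card * s = r + 1 := Nat.eq_of_mul_eq_mul_left hp.out.pos (by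
    rw [mul_left_comm, ← hs, mul_add, hd, mul_add, mul_comm p]; omega)
  obtain ⟨hk, -⟩ := h.key hθ (hs.trans (mul_comm _ _)) hts hte
  obtain ⟨Q⟩ : Nonempty (Sylow 2 G) := inferInstance
  obtain ⟨a, ha, ha1, ha0⟩ : ∃ a ∈ (Q : Subgroup G), a ≠ 1 ∧ θ a ≠ 0 := by
    by_contra! h0
    obtain ⟨l, hl⟩ : Nat.card Q ∣ charDegree θ := by
      exact_mod_cast card_dvd_of_vanish hθ.isGen Q h0 (n := charDegree θ)
        (by rw [hθ.apply_one_eq_charDegree]; simp)
    obtain ⟨j, hj⟩ := hp.out.odd_of_ne_two hodd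
    refine Q.not_dvd_index ⟨l * j * p, Nat.eq_of_mul_eq_mul_left (Nat.card_pos (α := Q)) ?_⟩
    rw [card_mul_index, h.card_G, ← hd, hl]
    have : D.Y.card * e = 2 * j := by omega
    linear_combination (exp := 1) (Nat.card Q * l * p) * this
  obtain ⟨k, hk'⟩ := CL.Small.orderOf_mem_sylow Q ha
  have hap : ¬ p ∣ orderOf a := fun h' =>
    hodd ((Nat.prime_dvd_prime_iff_eq hp.out Nat.prime_two).1 (hp.out.dvd_of_dvd_pow (hk' ▸ h')))
  have h1 := hk a ha1 hap ha0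
  have h2 : 2 ∣ orderOf a := hk' ▸ dvd_pow_self 2 (by rintro rfl; exact ha1 (by simpa using hk'))
  obtain ⟨y, hy, hy2⟩ := h.exists_invol (h2.trans (h.orderOf_dvd_of_fix hap (by omega)))
  have h3 := orderOf_pow_orderOf_div (orderOf_pos a).ne' h2
  have h4 := fix_le_pow (P := P) a (orderOf a / 2)
  obtain ⟨b, hb⟩ := isConj_iff.1 (h.isConj_of_invol hodd (by omega) h3 (zpowers_le.2 h.gN hy) hy2)
  rw [← hb, fix_conj] at h4
  have h5 := h.fix_le (a := y) (by rintro rfl; simp at hy2) (h.not_dvd_of_mem hy)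
  obtain ⟨h6, h7⟩ := h.fix_mul hy hy2 hodd
  obtain ⟨c, S, hc, hS, hS'⟩ := h.invol T hy hy2
  have h8 : (π y) = r + 1 := by omega
  rw [h8] at h6 h7 hc hS'
  have h9 : r + 1 ∣ p - 1 := by
    have h9 : r + 1 ∣ 1 + r * p := h7.dvd_of_dvd_mul_left (h6 ▸ dvd_mul_left _ _)
    refine (Nat.dvd_add_right h9).1 ⟨p, ?_⟩
    have := hp.out.one_le
    rw [add_mul r, one_mul]
    omega
  have h10 : r + 1 = m * (u + 1) := by
    obtain ⟨i, hi⟩ := h9
    have := hU.lt_two_mul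
    have := hU.hp
    have := hp.out.two_le
    rcases i with _ | _ | i
    · omega
    · omega
    · nlinarith [Nat.sub_le p 1]
  have hB : ¬ r + 1 ∣ p + u + 1 := fun h' => by
    have := hU.cop1.eq_one_of_dvd ((h10 ▸ dvd_mul_left _ _ :).trans h')
    have := hU.u_pos
    omega
  have hA : ¬ r + 1 ∣ u * m + 1 := fun h' => by
    have := (U.cop2 u m).eq_one_of_dvd ((h10 ▸ dvd_mul_right _ _ :).trans h')
    have := hU.u_pos
    have := hU.le
    omega
  have h11 := hS' _ (fun _ => dvd_rfl) (Or.inr hB) (Or.inr hA)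
  have h12 : ((r + 1 : ℕ) : ℤ) ∣ c := by
    rcases T.Y with ⟨h12, h13⟩ | ⟨h12, h13⟩ | ⟨h12, h13⟩ | ⟨h12, h13⟩ <;> rw [h12, h13] at hc
    · exact hc.of_n (by omega)
    · exact (Good.of_a hU hc).2 hB ▸ dvd_zero _
    · exact hc.of_p hp.out.one_le ▸ dvd_zero _
    · exact (hc.of_b hU).2 hA ▸ dvd_zero _
  have h13 := h12.mul_left D.ε
  rw [hS, mul_add, mul_one, dvd_add_left (h11.mul_left _), Int.natCast_dvd_natCast] at h13
  have := Nat.le_of_dvd ht h13
  have := hU.hp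
  nlinarith

theorem two_dvd_fix [IsSimpleGroup G] (hG : ¬ IsMulCommutative G) (hodd : p ≠ 2) {y : G}
    (h2 : orderOf y = 2) : 2 ∣ (π y) := by
  have h1 := (isCharacter_perm G (G ⧸ N)).isGen.int_modEq_one Nat.prime_two (k := 1) (g := y)
    (by rw [pow_one, ← h2, pow_orderOf_eq_one]) (m := (π y)) (by simp) (n := (1 + r * p : ℕ))
    (by rw [fixedBy_one_eq_univ, Nat.card_univ, ← index_eq_card, h.index_N]; simp)
  by_contra h3
  have h4 : ¬ 2 ∣ 1 + r * p := by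
    have := h1.dvd
    omega
  obtain ⟨j, l, hl, hj⟩ := Nat.exists_eq_two_pow_mul_odd h.e_pos.ne'
  have h5 : Nat.card G = 2 ^ j * ((1 + r * p) * (p * l)) := by rw [h.card_G, hj]; ring
  have h6 : ¬ 2 ∣ (1 + r * p) * (p * l) := by
    simp only [Nat.prime_two.dvd_mul, not_or]
    exact ⟨h4, (hp.out.odd_of_ne_two hodd).not_two_dvd_nat, hl.not_two_dvd_nat⟩
  have h7 : orderOf (g ^ l) = 2 ^ j := by
    rw [orderOf_pow' g hl.pos.ne', h.hg, hj, Nat.gcd_mul_left_left, Nat.mul_div_cancel _ hl.pos]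
  obtain ⟨Q, hQ⟩ := CL.Small.exists_sylow_mem h7
  have h8 : zpowers (g ^ l) = Q := eq_of_le_of_card_ge (zpowers_le.2 hQ)
    (by rw [CL.Small.card_sylow_eq_of_factor Q h5 h6, Nat.card_zpowers, h7])
  have h9 : 2 ∣ Nat.card G := h2 ▸ orderOf_dvd_natCard y
  have : IsCyclic Q := h8 ▸ isCyclic_zpowers _
  exact CL.Small.not_normalizer_le_centralizer hG Q h9
    (this.normalizer_le_centralizer ((Nat.minFac_eq_two_iff _).2 h9))

end SC

end CL.D1
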