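import Cfsg.Agent.INV.Nag3

/-! Few Sylow subgroups of prime order, IV: the self-centralizing case, the degrees. -/

set_option autoImplicit false
open Cfsg Subgroup CL.Char MulAction
open CL.Blk hiding irrOne irrOne_apply

namespace CL.D1

variable {G : Type*} [Group G] [Finite G] {p : ℕ} [hp : Fact p.Prime]

namespace Data
variable {e r u m : ℕ} {D : Data G p e} (T : D.Typ r u m) {x : G} (hx : orderOf x = p)
  (hi : (centralizer ({x} : Set G)).index = e * (1 + r * p))
include T hx hi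

omit hp in
theorem Typ.dvd_a (h : (D.Xs 1 ((u + 1) * (u * m + 1))).card ≠ 0) : u + 1 ∣ e := by
  obtain ⟨χ, hχ⟩ := Finset.card_ne_zero.1 h
  obtain ⟨h1, -, h2⟩ := D.mem_Xs.1 hχ
  have h3 := D.deg_X_dvd hx h1
  rw [h2, hi, T.n_eq, mul_comm (u * m + 1), ← mul_assoc] at h3
  exact T.cop1.dvd_of_dvd_mul_right (Nat.dvd_of_mul_dvd_mul_right (by omega) h3)

omit hp in
theorem Typ.dvd_b (h : (D.Xs (-1) (m * (p + u + 1))).card ≠ 0) : m ∣ e := by
  obtain ⟨χ, hχ⟩ := Finset.card_ne_zero.1 h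
  obtain ⟨h1, -, h2⟩ := D.mem_Xs.1 hχ
  have h3 := D.deg_X_dvd hx h1
  rw [h2, hi, T.n_eq, ← mul_assoc] at h3
  exact (U.cop2 u m).dvd_of_dvd_mul_right (Nat.dvd_of_mul_dvd_mul_right (by omega) h3)

end Data

theorem dvd_of_mul_eq {t e a b : ℕ} (ha : a ≠ 0) (h : t * e = a * b) (h' : a ∣ e) : t ∣ b := by
  obtain ⟨c, rfl⟩ := h'
  exact ⟨c, (Nat.eq_of_mul_eq_mul_left (Nat.pos_of_ne_zero ha) (by rw [← h]; ring))⟩

namespace SC
variable {P : Sylow p G} {e r : ℕ} {x g : G} (h : SC P e r x g) {D : Data G p e} {u m : ℕ}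
include h

theorem config [IsSimpleGroup G] (hG : ¬ IsMulCommutative G) (T : D.Typ r u m) :
    D.Y.card = m ∧ e = u + 1 ∧ (D.Xs 1 (1 + r * p)).card = 0 ∧
      (D.Xs 1 ((u + 1) * (u * m + 1))).card = 1 ∧ (D.Xs (-1) (p - 1)).card + 1 = u ∧
      (D.Xs (-1) (m * (p + u + 1))).card = 0 ∧ D.ε = 1 ∧
      (∀ θ ∈ D.Y, charDegree θ.1 = p + u + 1) ∧ m ≠ u + 1 := by
  have hperf := CL.Small.commutator_eq_top hG
  have hU := T.toU
  obtain ⟨hu, hm, hpm, hr⟩ := T.toU
  have hodd : p ≠ 2 := by nlinarith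
  obtain ⟨α, β, γ, η, hα, hβ, hγ, hη, he, hte, hrel⟩ := T.rel
  have hβ' := T.dvd_a h.hz (h.index_cent h.hz)
  have hη' := T.dvd_b h.hz (h.index_cent h.hz)
  obtain ⟨θ, hθ⟩ := D.Y_nonempty
  have ht : 0 < D.Y.card := D.Y_nonempty.card_pos
  have he2 := D.two_le_e hperf
  obtain rfl : α = 0 := by
    by_contra h0
    obtain ⟨χ, hχ⟩ := Finset.card_ne_zero.1 (hα ▸ h0)
    obtain ⟨h1, -, h2⟩ := D.mem_Xs.1 hχ
    have h3 := D.sum_sq_le hθ
    have h4 := Finset.single_le_sum (f := fun χ : IrrCharacter G => charDegree χ.1 ^ 2)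
      (fun _ _ => Nat.zero_le _) h1
    simp only [h2] at h4
    have h5 : 1 + r * p ≤ p * e := Nat.le_of_mul_le_mul_left
      (by rw [← h.card_G, ← sq]; omega) (show 0 < 1 + r * p by omega)
    have h6 : r < e := lt_of_mul_lt_mul_left (a := p) (by rw [mul_comm]; omega) (Nat.zero_le _)
    have h7 : D.Y.card = 1 := by
      by_contra h7
      have := hU.lt_two_mul
      have := Nat.mul_le_mul_right e (show 2 ≤ D.Y.card by omega)
      omega
    exact h.not_key hperf T χ.2 (by rw [h7, one_mul, h2])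
  replace hrel := hrel.resolve_left fun h1 => h.not_key hperf T θ.2 (D.deg_Θ hθ ▸ h1.2.1)
  rw [hβ] at hβ'
  rw [hη] at hη'
  have hev : 2 ∣ m * (u + 1) := by have := hp.out.eq_two_or_odd.resolve_left hodd; omega
  have hsum := T.sum_split (fun χ => (D.δ χ : ℂ) * χ.1 g)
  have hdeg := D.deg_Θ hθ
  have hinv := fun he : 2 ∣ e => (h.exists_invol he).imp fun y hy =>
    And.intro (h.two_dvd_fix hG hodd hy.2) (h.invol T hy.1 hy.2)
  simp only [← Finset.card_pos, hα, lt_irrefl, false_imp_iff, true_imp_iff] at hinv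
  generalize htd : D.Y.card = t at *
  simp only [zero_mul, zero_add, add_zero] at hrel he
  by_cases h1 : t ∣ m
  swap
  · exfalso
    obtain rfl : β = 0 := by
      by_contra h0
      exact h1 (dvd_of_mul_eq (by omega) (hte.trans (mul_comm _ _)) (hβ' h0))
    simp only [zero_mul, mul_zero, zero_add, add_zero] at hrel he
    rcases hrel with ⟨-, -, h2⟩ | ⟨-, -, h2⟩ | ⟨-, -, h2⟩
    · obtain rfl : η = 0 := by
        by_contra h0
        have : 1 * (1 * (m + 1)) ≤ t * (γ + η * (m + 1)) :=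
          Nat.mul_le_mul ht (le_add_left (Nat.mul_le_mul_right _ (by omega)))
        omega
      subst he
      simp only [zero_mul, add_zero] at h2 hte
      have h3 : t ≤ u + 1 := Nat.le_of_dvd (by omega) ⟨γ, h2⟩
      have h4 : m ≤ 2 := by
        by_contra h4
        have := Nat.mul_le_mul_right (u + 1) (show 3 ≤ m by omega)
        rw [mul_add] at hte
        omega
      obtain rfl : m = 2 := by omega
      obtain rfl : u = 1 := by omega
      rw [mul_add] at hte
      exact h1 (dvd_of_eq (by omega))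
    · have : η * 1 ≤ η * (m + 1) := Nat.mul_le_mul_left _ (by omega)
      omega
    · omega
  by_cases h2 : t ∣ u + 1
  · exfalso
    obtain ⟨y, hF, c, S, hc, hS, hS'⟩ := hinv (by
      obtain ⟨a, rfl⟩ := h1
      obtain ⟨b, hb⟩ := h2
      rw [hb] at hte hev
      rw [Nat.eq_of_mul_eq_mul_left ht (hte.trans (mul_assoc _ _ _))]
      rcases (Nat.prime_two.dvd_mul.1 hev).imp_left Nat.prime_two.dvd_mul.1 with (h3 | h3) | h3
      exacts [(h3.mul_right _).mul_left _, h3.mul_right _, h3.mul_left _])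
    generalize Nat.card (fixedBy (G ⧸ normalizer ((P : Subgroup G) : Set G)) y) = F at *
    have hc' : (((u + 1 : ℕ) : ℤ) ∣ c ∧ (¬ F ∣ p + u + 1 → c = 0)) ∧
        t * (β * u) + u + 1 = t * (γ + η * (m + 1)) ∨ (m : ℤ) ∣ c ∧ (¬ F ∣ u * m + 1 → c = 0) := by
      rcases hrel with ⟨h3, h4, h5⟩ | ⟨h3, h4, -⟩ | ⟨h3, h4, -⟩ <;> rw [h3, h4] at hc
      · exact Or.inl ⟨Good.of_a hU hc, h5⟩
      · exact Or.inr (by simp [hc.of_p hp.out.one_le])
      · exact Or.inr (hc.of_b hU)
    have hε : D.ε * c = 0 ↔ c = 0 := by rcases D.ε_sign with h | h <;> simp [h]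
    by_cases h3 : 2 ∣ u + 1
    · have hB : ¬ F ∣ p + u + 1 := fun h' => by have := hF.trans h'; omega
      have h4 : (m : ℤ) ∣ D.ε * c :=
        (hc'.elim (fun h => h.1.2 hB ▸ dvd_zero _) fun h => h.1).mul_left _
      rw [hS, mul_add, mul_one, dvd_add_left ((hS' m (Or.inr hB) (Or.inl dvd_rfl)).mul_left _),
        Int.natCast_dvd_natCast] at h4
      obtain rfl : m = u + 1 := le_antisymm (Nat.le_of_dvd (by omega) (h4.trans h2)) hm
      have hA : ¬ F ∣ u * (u + 1) + 1 := fun h' => by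
        have := hF.trans h'
        have := h3.mul_left u
        omega
      rw [zero_dvd_iff.1 (hS' 0 (Or.inr hB) (Or.inr hA)),
        hc'.elim (fun h => h.1.2 hB) fun h => h.2 hA] at hS
      omega
    · have hA : ¬ F ∣ u * m + 1 := fun h' => by
        have := hF.trans h'
        have := (show 2 ∣ u by omega).mul_right m
        omega
      have h4 := hS' _ (Or.inl dvd_rfl) (Or.inr hA)
      rcases hc' with ⟨⟨h5, -⟩, h6⟩ | ⟨-, h5⟩
      · have h7 := h5.mul_left D.ε
        rw [hS, mul_add, mul_one, dvd_add_left (h4.mul_left _), Int.natCast_dvd_natCast] at h7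
        obtain rfl := Nat.dvd_antisymm h7 h2
        obtain rfl : e = m := Nat.eq_of_mul_eq_mul_left ht (hte.trans (mul_comm _ _))
        have h8 : β * u + 1 = γ + η * (e + 1) :=
          Nat.eq_of_mul_eq_mul_left ht (by rw [← h6]; ring)
        have h9 : u + 1 ∣ β * (u + 1) + 2 :=
          h1.trans ⟨1 + η, by linear_combination (exp := 1) h8 + he.symm⟩
        have := Nat.le_of_dvd two_pos ((Nat.dvd_add_right (dvd_mul_left _ _)).1 h9)
        omega
      · rw [h5 hA, mul_zero, eq_comm, mul_eq_zero] at hS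
        rw [show S = -1 by omega, dvd_neg, Int.natCast_dvd_ofNat, Nat.dvd_one] at h4
        omega
  obtain rfl : η = 0 := by
    by_contra h0
    exact h2 (dvd_of_mul_eq (by omega) hte (hη' h0))
  simp only [zero_mul, add_zero] at hrel he
  rcases hrel with ⟨-, -, h3⟩ | ⟨-, -, h3⟩ | ⟨h3, h4, h5⟩
  · exact absurd ((Nat.dvd_add_right (dvd_mul_right t (β * u))).1
      (by rw [← add_assoc, h3]; exact dvd_mul_right _ _)) h2
  · exfalso
    have h4 : u + 1 ∣ β * (u + 1) + 1 :=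
      (hβ' (by rintro rfl; omega)).trans (dvd_of_eq (by rw [he, ← h3]; ring))
    have := Nat.dvd_one.1 ((Nat.dvd_add_right (dvd_mul_left _ _)).1 h4)
    omega
  obtain ⟨l, rfl⟩ := h1
  have h6 : β * u = γ + l := Nat.eq_of_mul_eq_mul_left ht (by rw [h5]; ring)
  have h7 : e = l * (u + 1) := Nat.eq_of_mul_eq_mul_left ht (by rw [hte]; ring)
  have h8 : 1 + β * (u + 1) = l * (u + 2) := by linear_combination (exp := 1) h6 + h7 + he.symm
  have h9 : charDegree θ.1 = l * (p + u + 1) :=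
    Nat.eq_of_mul_eq_mul_left ht (by rw [← hdeg, h4]; ring)
  obtain rfl : l = 1 := by
    by_contra h10
    obtain ⟨q, hq, hql⟩ := Nat.exists_prime_and_dvd h10
    obtain ⟨s, hs, hsu⟩ := Nat.exists_prime_and_dvd (show u + 1 ≠ 1 by omega)
    have h11 : ∀ q : ℕ, q.Prime → q ∣ l → ¬ q ∣ u + 1 := fun q hq h1 h2 => hq.not_dvd_one
      ((Nat.dvd_add_left (h2.mul_left β)).1 (h8 ▸ h1.mul_right _))
    have h12 : ∀ q : ℕ, q.Prime → q ∣ e → ¬ q ∣ p := fun q hq h1 h2 =>
      h.not_dvd_e ((Nat.prime_dvd_prime_iff_eq hq hp.out).1 h2 ▸ h1)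
    have hl : 0 < l := Nat.pos_of_ne_zero (by rintro rfl; omega)
    have hqe : q ∣ e := h7 ▸ hql.mul_right _
    have hse : s ∣ e := h7 ▸ hsu.mul_left _
    have h13 := D.eqn θ hθ g (h.not_dvd_of_mem (mem_zpowers g))
    rw [hsum, Finset.card_eq_zero.1 hα, Finset.card_eq_zero.1 hη, eq_zero_of_not_dvd hq
      (fun h' => ?_) (h.hg ▸ hqe), Finset.sum_eq_zero (s := D.Xs 1 _) fun χ hχ => ?_,
      Finset.sum_eq_zero (s := D.Xs (-1) _) fun χ hχ => ?_] at h13
    · simp at h13
    · obtain ⟨h14, h15, h16⟩ := D.mem_Xs.1 hχ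
      have := h.norm_le (D.mem_X h14) (mem_zpowers g) (fun h' => by
        have := h.hg; rw [h', orderOf_one] at this; omega) (k := 0)
        (by rw [h15, h16, Nat.cast_sub hp.out.one_le]; simp)
      simpa using Or.inr this
    · rw [eq_zero_of_not_dvd hs (fun h' => ?_) (h.hg ▸ hse), mul_zero]
      rw [(D.mem_Xs.1 hχ).2.2, h.card_G, hU.n_eq, h7, show ∀ A B : ℕ, A * B * (p * (l * (u + 1))) =
        B * (p * l) * ((u + 1) * A) from fun _ _ => by ring] at h'
      have h14 := Nat.dvd_of_mul_dvd_mul_right (by positivity) h'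
      simp only [hs.dvd_mul] at h14
      rcases h14 with h14 | h14 | h14
      exacts [hs.not_dvd_one (hU.cop1 ▸ Nat.dvd_gcd hsu h14), h12 s hs hse h14,
        h11 s hs h14 hsu]
    · rw [h9, h.card_G, hU.n_eq, h7, show ∀ A B : ℕ, A * B * (p * (l * (u + 1))) =
        A * (p * (u + 1)) * (l * B) from fun _ _ => by ring] at h'
      have h14 := Nat.dvd_of_mul_dvd_mul_right (by positivity) h'
      simp only [hq.dvd_mul] at h14
      rcases h14 with h14 | h14 | h14
      exacts [hq.not_dvd_one (U.cop2 u (t * l) ▸ Nat.dvd_gcd (hql.mul_left t) h14),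
        h12 q hq hqe h14, h11 q hq hql h14]
  obtain rfl : β = 1 := Nat.eq_of_mul_eq_mul_right (show 0 < u + 1 by omega) (by omega)
  refine ⟨by omega, by omega, hα, hβ, by omega, hη, h3, fun θ' h' => ?_, fun h' => h2 ?_⟩
  · rw [D.deg_Y_eq h' hθ, h9, one_mul]
  · rw [← h', mul_one]

end SC

end CL.D1
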