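import Cfsg.Agent.INV.Nag4
import Cfsg.Agent.FGS.SqFree

/-! Few Sylow subgroups of prime order, VI: large centralizers, the character theory. -/

set_option autoImplicit false
open Cfsg Subgroup CL.Char MulAction
open CL.Blk hiding irrOne irrOne_apply

namespace CL.D1

variable {G : Type*} [Group G] [Finite G] {p : ℕ} [hp : Fact p.Prime]

theorem Data.Typ.both {e r u m : ℕ} {D : Data G p e} (T : D.Typ r u m) {x : G}
    (hx : orderOf x = p) (hi : (centralizer ({x} : Set G)).index = e * (1 + r * p))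
    (hd : ∀ χ, χ ∈ D.X ∨ χ ∈ D.Y → 2 * p < charDegree χ.1) :
    2 ≤ u ∧ ∃ β η, (D.Xs 1 ((u + 1) * (u * m + 1))).card = β ∧
      (D.Xs (-1) (m * (p + u + 1))).card = η ∧ β ≠ 0 ∧ η ≠ 0 ∧ 2 * e ≤ 3 * (β + η) + 1 := by
  obtain ⟨hu, hm, hpm, hr⟩ := T.toU
  obtain ⟨α, β, γ, η, hα, hβ, hγ, hη, he, hte, hrel⟩ := T.rel
  have hβ' := T.dvd_a hx hi
  have hη' := T.dvd_b hx hi
  obtain ⟨θ, hθ⟩ := D.Y_nonempty
  have ht : 0 < D.Y.card := D.Y_nonempty.card_pos
  have hΘ : 2 * p < charDegree D.Θ :=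
    (hd θ (Or.inr hθ)).trans_le (D.deg_Θ hθ ▸ Nat.le_mul_of_pos_left _ ht)
  obtain rfl : γ = 0 := by
    by_contra h0
    obtain ⟨χ, hχ⟩ := Finset.card_ne_zero.1 (hγ ▸ h0)
    have := hd χ (Or.inl (D.mem_Xs.1 hχ).1)
    rw [(D.mem_Xs.1 hχ).2.2] at this
    omega
  have ha : 2 * p < (u + 1) * (u * m + 1) → 2 ≤ u := fun h => by
    by_contra h1
    obtain rfl : u = 1 := by omega
    omega
  have hu2 : β ≠ 0 → 2 ≤ u := fun h0 => by
    obtain ⟨χ, hχ⟩ := Finset.card_ne_zero.1 (hβ ▸ h0)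
    exact ha ((D.mem_Xs.1 hχ).2.2 ▸ hd χ (Or.inl (D.mem_Xs.1 hχ).1))
  rw [hβ] at hβ'
  rw [hη] at hη'
  generalize D.Y.card = t at *
  simp only [zero_add, add_zero] at hrel he
  have htp : t ≤ m * (u + 1) := hte ▸ Nat.le_mul_of_pos_right _ (by omega)
  have hB : ¬ (m + 1) * (u + 1) + 1 ∣ t * (m + 1) := fun h => by
    have := Nat.le_of_dvd ht ((show Nat.Coprime ((m + 1) * (u + 1) + 1) (m + 1) by
      simp [add_comm _ 1]).dvd_of_dvd_mul_right h)
    nlinarith
  have hβ0 : β ≠ 0 := by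
    rintro rfl
    subst hr he
    simp only [zero_mul, add_zero] at hrel hte
    rcases hrel with ⟨-, -, h⟩ | ⟨-, h', h⟩ | ⟨-, h', -⟩ | ⟨-, -, h⟩
    · refine hB ((Nat.dvd_add_right (dvd_mul_left _ (t * α + 1))).1 ⟨m, ?_⟩)
      zify at h hte ⊢
      linear_combination h + (m + 1) * hte
    · have h1 := ha (h' ▸ hΘ)
      have h2 : η ≠ 0 := by rintro rfl; omega
      have h3 := Nat.le_of_dvd (by omega) (dvd_of_mul_eq (by omega) hte (hη' h2))
      have h4 : t * (m + 1) + (u + m + 1) + t * α * ((m + 1) * (u + 1) + 1) =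
          m * ((m + 1) * (u + 1) + 1) := by
        zify at h hte ⊢
        linear_combination h + (m + 1) * hte
      obtain ⟨c, hc⟩ : (m + 1) * (u + 1) + 1 ∣ t * (m + 1) + (u + m + 1) :=
        (Nat.dvd_add_left (dvd_mul_left _ _)).1 (h4 ▸ dvd_mul_left _ _)
      have h5 : c = 1 := by
        rcases c with _ | _ | c
        · omega
        · rfl
        · nlinarith
      rw [h5, mul_one] at hc
      have h6 : m + 1 ∣ u - 1 := (Nat.dvd_add_right (dvd_mul_left _ (t + 1))).1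
        ⟨u + 1, by rw [add_mul t]; omega⟩
      have := Nat.le_of_dvd (by omega) h6
      omega
    · omega
    · refine hB ((Nat.dvd_add_right (dvd_mul_left _ (t * α))).1 ⟨m, ?_⟩)
      zify at h hte ⊢
      linear_combination h + (m + 1) * hte
  have h1 := hu2 hβ0
  have h2 : t * (α * r + β * u) ≤ t * (η * (m + 1)) + m := by
    rcases hrel with ⟨-, -, h⟩ | ⟨-, -, h⟩ | ⟨-, h, -⟩ | ⟨-, -, h⟩ <;> omega
  have h3 : α * u ≤ η := by
    by_contra h3
    have h4 : (η + 1) * (m + 1) ≤ α * r :=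
      (Nat.mul_le_mul_right _ (not_le.1 h3)).trans (by rw [hr]; nlinarith)
    have h5 := Nat.mul_le_mul_left t (h4.trans (Nat.le_add_right _ (β * u)))
    nlinarith
  have hη0 : η ≠ 0 := by
    rintro rfl
    obtain rfl : α = 0 := by nlinarith
    have h4 := Nat.le_of_dvd (by omega)
      (dvd_of_mul_eq (by omega) (hte.trans (mul_comm _ _)) (hβ' hβ0))
    subst he
    nlinarith
  exact ⟨h1, β, η, hβ, hη, hβ0, hη0, by nlinarith [Nat.pos_of_ne_zero hβ0]⟩

theorem dvd_sub_one_of_mem_normalizer {y v : G} (hy : orderOf y = p) {q k : ℕ} (hq : q.Prime)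
    (hv : orderOf v = q ^ k) (hN : v ∈ normalizer (zpowers y : Set G)) (hc : ¬ Commute y v) :
    q ∣ p - 1 := by
  by_contra h
  have hK : Nat.card (zpowers y) = p := by rw [Nat.card_zpowers, hy]
  have : IsCyclic (zpowers y) := isCyclic_of_prime_card hK
  have h1 : (zpowers y).normalizerMonoidHom (⟨v, hN⟩ ^ (p - 1)) = 1 := by
    rw [map_pow, ← Nat.totient_prime hp.out, ← hK, ← IsCyclic.card_mulAut, pow_card_eq_one']
  rw [← MonoidHom.mem_ker, normalizerMonoidHom_ker, mem_subgroupOf,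
    CL.Small.centralizer_zpowers_eq] at h1
  have h2 : v ∈ zpowers (v ^ (p - 1)) := mem_zpowers_pow_iff.2 (by
    rw [hv]; exact ((hq.coprime_iff_not_dvd.2 h).symm.pow_right k))
  exact hc (CL.Small.mem_centralizer_singleton_iff'.1 (zpowers_le.2 h1 h2))

/-- A `q`-element centralizing a Sylow `p`-subgroup centralizes every Sylow `p`-subgroup it
normalizes. -/
def Star (p : ℕ) (G : Type*) [Group G] : Prop :=
  ∀ (Q R : Sylow p G) (v : G) (q k : ℕ), q.Prime → q ≠ p → orderOf v = q ^ k →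
    v ∈ centralizer ((Q : Subgroup G) : Set G) → v ∈ normalizer ((R : Subgroup G) : Set G) →
      v ∈ centralizer ((R : Subgroup G) : Set G)

theorem exists_gen (P : Sylow p G) (hP : Nat.card P = p) (Q : Sylow p G) :
    ∃ x, orderOf x = p ∧ (Q : Subgroup G) = zpowers x := by
  have hQ := (CL.Small.card_sylow_eq_card_sylow Q P).trans hP
  obtain ⟨x, hx, hx'⟩ := CL.Small.exists_mem_orderOf_eq_prime (Q : Subgroup G) p (by rw [hQ])
  exact ⟨x, hx', CL.Small.eq_zpowers_of_card_prime hQ hx (by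
    rintro rfl; exact hp.out.one_lt.ne (orderOf_one.symm.trans hx'))⟩

omit [Finite G] in
theorem not_dvd_of_pow {v : G} {q k : ℕ} (hq : q.Prime) (hqp : q ≠ p) (hv : orderOf v = q ^ k) :
    ¬ p ∣ orderOf v := fun h =>
  hqp ((Nat.prime_dvd_prime_iff_eq hp.out hq).1 (hp.out.dvd_of_dvd_pow (hv ▸ h))).symm

omit [Finite G] hp in
theorem mem_zpowers_unit {v : G} {n : ℕ} [NeZero n] (hv : orderOf v = n) (j : (ZMod n)ˣ) :
    v ∈ zpowers (v ^ (j : ZMod n).val) :=
  mem_zpowers_pow_iff.2 (by rw [hv]; exact ZMod.val_coe_unit_coprime j)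

theorem star {r u m : ℕ} (hU : U p r u m) (P : Sylow p G) (hP : Nat.card P = p) {ψ ψ' : G → ℂ}
    (hψ : Mem p ψ 1) (hd : charDegree ψ = (u + 1) * (u * m + 1)) (hψ' : Mem p ψ' (-1))
    (hd' : charDegree ψ' = m * (p + u + 1)) : Star p G := by
  intro Q R v q k hq hqp hv hQ hR
  obtain ⟨x, hx, hQx⟩ := exists_gen P hP Q
  obtain ⟨y, hy, hRy⟩ := exists_gen P hP R
  rw [hQx, CL.Small.centralizer_zpowers_eq, CL.Small.mem_centralizer_singleton_iff'] at hQ
  rw [hRy] at hR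
  rw [hRy, CL.Small.centralizer_zpowers_eq, CL.Small.mem_centralizer_singleton_iff']
  by_contra hc
  have : NeZero (q ^ k) := ⟨pow_ne_zero _ hq.ne_zero⟩
  obtain ⟨hu, hm, hpm, -⟩ := hU
  have key : ∀ {χ : G → ℂ} {δ c : ℤ} {l : ℕ}, Mem p χ δ → (charDegree χ : ℤ) = δ + p * c →
      c + δ = l → l + 1 < p → (q : ℤ) ∣ c := fun {χ δ c l} hχ h1 h2 h3 => by
    by_contra h4
    have h5 := (hχ.sum_units_ge hx hQ (not_dvd_of_pow hq hqp hv) hq
      (by rw [← hv, pow_orderOf_eq_one]) h1 h4).trans (Finset.sum_le_card_nsmul _ _ ((l : ℝ) ^ 2)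
        fun j _ => pow_le_pow_left₀ (norm_nonneg _) (hχ.norm_le hy (pow_mem hR _) (fun h' => by
          obtain ⟨i, hi⟩ := mem_zpowers_unit hv j
          exact hc (hi ▸ h'.zpow_right i)) (by rw [h1, ← h2]; ring)) 2)
    rw [Finset.card_univ, nsmul_eq_mul] at h5
    have h6 := le_of_mul_le_mul_left h5 (by exact_mod_cast Fintype.card_pos)
    have h7 : (l : ℝ) + 1 < p := by exact_mod_cast h3
    nlinarith [Nat.cast_nonneg (α := ℝ) l]
  have h1 : q ∣ u := by
    exact_mod_cast key (c := u) (l := u + 1) hψ (by rw [hd, hpm]; push_cast; ring) (by simp)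
      (by nlinarith)
  have h2 : q ∣ m + 1 := by
    exact_mod_cast key (c := m + 1) (l := m) hψ' (by rw [hd', hpm]; push_cast; ring) (by simp)
      (by nlinarith)
  have h3 := dvd_sub_one_of_mem_normalizer hy hq hv hR hc
  rw [hpm, add_tsub_cancel_right, hq.dvd_mul] at h3
  exact hq.not_dvd_one (h3.elim (fun h => (Nat.dvd_add_right h).1 h2)
    fun h => (Nat.dvd_add_right h1).1 h)

theorem card_cent_gt {e u m : ℕ} (D : Data G p e) (hpm : p = m * (u + 1) + 1) {x v : G}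
    (hx : orderOf x = p) (hc : Commute x v) {q k : ℕ} (hq : q.Prime) (hqp : q ≠ p)
    (hv : orderOf v = q ^ k) (h1 : ¬ q ∣ u) (h2 : ¬ q ∣ m + 1) :
    ((D.Xs 1 ((u + 1) * (u * m + 1))).card + (D.Xs (-1) (m * (p + u + 1))).card) * (p - 1) ^ 2 ≤
      Nat.card (centralizer ({v} : Set G)) := by
  classical
  have : NeZero (q ^ k) := ⟨pow_ne_zero _ hq.ne_zero⟩
  have h3 : ∀ χ ∈ D.Xs 1 ((u + 1) * (u * m + 1)) ∪ D.Xs (-1) (m * (p + u + 1)), _ := fun χ hχ => by
    refine (Finset.mem_union.1 hχ).elim (fun h => ?_) fun h => ?_ <;>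
      obtain ⟨h4, h5, h6⟩ := D.mem_Xs.1 h
    · exact (D.mem_X h4).sum_units_ge hx hc (not_dvd_of_pow hq hqp hv) hq
        (by rw [← hv, pow_orderOf_eq_one]) (c := u) (by rw [h5, h6, hpm]; push_cast; ring)
        (by exact_mod_cast h1)
    · exact (D.mem_X h4).sum_units_ge hx hc (not_dvd_of_pow hq hqp hv) hq
        (by rw [← hv, pow_orderOf_eq_one]) (c := m + 1) (by rw [h5, h6, hpm]; push_cast; ring)
        (by exact_mod_cast h2)
  have h4 := (Finset.card_nsmul_le_sum _ _ _ h3).trans (Finset.sum_le_sum_of_subset_of_nonneg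
    (Finset.subset_univ _) fun _ _ _ => by positivity)
  rw [Finset.sum_comm, Finset.sum_congr rfl
    (g := fun _ => (Nat.card (centralizer ({v} : Set G)) : ℝ)) fun j _ => by
      rw [sum_norm_sq_eq_card_centralizer, ← CL.Small.centralizer_zpowers_eq,
        ← CL.Small.centralizer_zpowers_eq v, le_antisymm (zpowers_le.2 (pow_mem (mem_zpowers v) _))
          (zpowers_le.2 (mem_zpowers_unit hv j))],
    Finset.card_union_of_disjoint (Finset.disjoint_left.2 fun χ h h' => by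
      have := (D.mem_Xs.1 h).2.1.symm.trans (D.mem_Xs.1 h').2.1
      omega), Finset.sum_const, Finset.card_univ, nsmul_eq_mul, nsmul_eq_mul, mul_left_comm] at h4
  have h5 := le_of_mul_le_mul_left h4 (by exact_mod_cast Fintype.card_pos)
  rw [← Nat.cast_one (R := ℝ), ← Nat.cast_sub hp.out.one_le] at h5
  exact_mod_cast h5

end CL.D1
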