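import Cfsg.Agent.INV.Nag6

/-! Few Sylow subgroups of prime order, VII: large centralizers with trivial intersections. -/

set_option autoImplicit false
open Cfsg Subgroup CL.Char MulAction

namespace CL.D1

variable {G : Type*} [Group G] [Finite G] {p : ℕ} [hp : Fact p.Prime]

local notation "𝐂" Q => centralizer (((Q : Sylow p G) : Subgroup G) : Set G)
local notation "𝐍" Q => normalizer (((Q : Sylow p G) : Subgroup G) : Set G)

theorem mem_cent_smul {g v : G} {Q : Sylow p G} : v ∈ (𝐂 (g • Q)) ↔ g⁻¹ * v * g ∈ (𝐂 Q) := by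
  simp only [mem_centralizer_iff, SetLike.mem_coe, CL.Small.mem_smul_sylow_iff]
  refine ⟨fun h x hx => ?_, fun h x hx => ?_⟩
  · have := h (g * x * g⁻¹) (by simpa [mul_assoc] using hx)
    calc _ = g⁻¹ * (g * x * g⁻¹ * v) * g := by group
      _ = _ := by rw [this]; group
  · have := h _ hx
    calc _ = g * (g⁻¹ * x * g * (g⁻¹ * v * g)) * g⁻¹ := by group
      _ = _ := by rw [this]; group

omit hp in
theorem exists_prime_pow {g : G} (hg : g ≠ 1) : ∃ k, (orderOf (g ^ k)).Prime := by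
  obtain ⟨q, hq, h⟩ := Nat.exists_prime_and_dvd (mt orderOf_eq_one_iff.1 hg)
  exact ⟨_, by rwa [orderOf_pow_orderOf_div (orderOf_pos g).ne' h]⟩

theorem eq_of_mem_normalizer (P : Sylow p G) (hP : Nat.card P = p) {Q R : Sylow p G} {x : G}
    (hx : orderOf x = p) (hQ : x ∈ (𝐍 Q)) (hR : x ∈ (𝐍 R)) : Q = R := by
  by_contra h
  have h1 := (CL.Small.sylow_inf_eq_bot_of_card_prime
    ((CL.Small.card_sylow_eq_card_sylow R P).trans hP) h).le
    ⟨CL.Small.mem_sylow_of_mem_normalizer R (k := 1) (by rw [hx, pow_one]) hR,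
      CL.Small.mem_sylow_of_mem_normalizer Q (k := 1) (by rw [hx, pow_one]) hQ⟩
  exact hp.out.one_lt.ne (by rw [← hx, mem_bot.1 h1, orderOf_one])

theorem semireg [IsSimpleGroup G] (hG : ¬ IsMulCommutative G) (P : Sylow p G)
    (hP : Nat.card P = p) (hS : Star p G) (hTI : ∀ Q R : Sylow p G, Q ≠ R → (𝐂 Q) ⊓ (𝐂 R) = ⊥)
    {w r : ℕ} (hw : Nat.card (𝐂 P) = p * w) (hw1 : w ≠ 1) (hn : Nat.card (Sylow p G) = 1 + r * p)
    (hbig : w ∣ r → ∀ (v : G) (q k : ℕ), q.Prime → q ≠ p → q ∣ r → orderOf v = q ^ k →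
      v ∈ (𝐂 P) → Nat.card (𝐍 P) < 2 * Nat.card (centralizer ({v} : Set G))) : False := by
  have hCN := CL.Small.centralizer_le_normalizer' (G := G)
  have h1 : ∀ R : Sylow p G, R ≠ P → ∀ g ∈ (𝐂 P), g ∈ (𝐍 R) → g = 1 := fun R hR g hg hg' => by
    by_contra h1
    obtain ⟨k, hk⟩ := exists_prime_pow h1
    by_cases h2 : orderOf (g ^ k) = p
    · exact hR (eq_of_mem_normalizer P hP h2 (pow_mem hg' k) (hCN _ (pow_mem hg k)))
    · have h3 := (hTI R P hR).le ⟨hS P R _ _ 1 hk h2 (pow_one _).symm (pow_mem hg k)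
        (pow_mem hg' k), pow_mem hg k⟩
      rw [mem_bot.1 h3, orderOf_one] at hk
      exact Nat.not_prime_one hk
  have hw0 : 0 < p * w := hw ▸ Nat.card_pos
  have h2 : w ∣ r := by
    have h2 := CL.Small.card_modEq_card_fixedPoints_of_dvd (𝐂 P) (Sylow p G) (p * w) fun R hR => by
      rw [Nat.card_coe_set_eq, ← index_stabilizer, (eq_bot_iff_forall (stabilizer (𝐂 P) R)).2
        fun g hg => Subtype.ext (h1 R
        (by rintro rfl; exact hR fun g => CL.Small.smul_sylow_eq_iff.2 (hCN _ g.2)) g g.2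
        (CL.Small.smul_sylow_eq_iff.1 hg)), index_bot, hw]
    have h3 : fixedPoints (𝐂 P) (Sylow p G) = {P} := Set.eq_singleton_iff_unique_mem.2
      ⟨fun g => CL.Small.smul_sylow_eq_iff.2 (hCN _ g.2), fun R hR => by
        obtain ⟨x, hx, hx'⟩ :=
          CL.Small.exists_mem_orderOf_eq_prime (𝐂 P) p (hw ▸ dvd_mul_right _ _)
        exact eq_of_mem_normalizer P hP hx' (CL.Small.smul_sylow_eq_iff.1 (hR ⟨x, hx⟩))
          (hCN _ hx)⟩
    rw [h3, hn, Nat.card_unique] at h2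
    have h4 := (Nat.modEq_iff_dvd' (by omega)).1 h2.symm
    rw [add_tsub_cancel_left, mul_comm r] at h4
    exact Nat.dvd_of_mul_dvd_mul_left hp.out.pos h4
  obtain ⟨q, hq, hqw⟩ := Nat.exists_prime_and_dvd hw1
  have hqp : q ≠ p := by
    rintro rfl
    exact not_sq_dvd P hP ((sq q ▸ hw ▸ Nat.mul_dvd_mul_left q hqw :).trans
      (card_subgroup_dvd_card _))
  have := Fact.mk hq
  have h3 : ∀ (v : G) (k : ℕ), v ≠ 1 → orderOf v = q ^ k → v ∈ (𝐂 P) →
      centralizer ({v} : Set G) = (𝐍 P) := fun v k hv1 hv hvP => by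
    have h3 : centralizer ({v} : Set G) ≤ (𝐍 P) := fun c hc => by
      by_contra h3
      refine hv1 (mem_bot.1 ((hTI _ _ (mt CL.Small.smul_sylow_eq_iff.1 h3)).le
        ⟨mem_cent_smul.2 ?_, hvP⟩))
      rwa [mul_assoc, CL.Small.mem_centralizer_singleton_iff'.1 hc, inv_mul_cancel_left]
    refine eq_of_le_of_card_ge h3 ?_
    obtain ⟨i, hi⟩ := card_dvd_of_le h3
    have h4 := hbig h2 v q k hq hqp (hqw.trans h2) hv hvP
    rw [hi, mul_comm] at h4
    rw [hi]
    exact (Nat.mul_le_mul_left _ (Nat.lt_succ_iff.1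
      (lt_of_mul_lt_mul_right h4 (Nat.zero_le _)))).trans_eq (mul_one _)
  obtain ⟨v, hv, hvq⟩ := CL.Small.exists_mem_orderOf_eq_prime (𝐂 P) q (hw ▸ hqw.mul_left _)
  have hv1 : v ≠ 1 := by rintro rfl; exact hq.one_lt.ne (orderOf_one.symm.trans hvq)
  have hvq' := hvq.trans (pow_one q).symm
  obtain ⟨R, hvR, hR⟩ := CL.CS.exists_sylow_le_of_not_dvd_index' (p := q) (H := 𝐍 P) (by
    rw [← CL.Small.card_sylow_eq_index, hn, Nat.dvd_add_left ((hqw.trans h2).mul_right _)]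
    exact hq.not_dvd_one) (CL.Small.isPGroup_zpowers_of_orderOf hvq') (zpowers_le.2 (hCN _ hv))
  have hcyc : IsCyclic P := isCyclic_of_prime_card hP
  have : IsCyclic (MulAut P) := by
    have : IsCyclic (ZMod (Nat.card P))ˣ := by rw [hP]; infer_instance
    exact isCyclic_of_injective (IsCyclic.mulAutMulEquiv P).toMonoidHom
      (IsCyclic.mulAutMulEquiv P).injective
  refine hv1 (CL.CS.eq_one_of_abelian_sylow R
    (MonoidHom.isMulCommutative_of_isCyclic_of_ker_le_center ((P : Subgroup G).normalizerMonoidHom.comp (inclusion hR)) fun a ha => mem_center_iff.2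
      fun b => ?_) (zpowers_le.1 hvR) (CL.Small.commutator_eq_top hG ▸ mem_top v) fun g hg => ?_)
  · by_cases h4 : a = 1
    · simp [h4]
    rw [← MonoidHom.comap_ker, mem_comap, normalizerMonoidHom_ker, mem_subgroupOf] at ha
    obtain ⟨k, hk⟩ := CL.Small.orderOf_mem_sylow R a.2
    exact Subtype.ext (CL.Small.mem_centralizer_singleton_iff'.1
      ((h3 a k (fun h => h4 (Subtype.ext h)) hk ha).ge (hR b.2))).symm
  · rw [h3 v 1 hv1 hvq' hv]
    by_contra h4
    have h5 : g * v * g⁻¹ ∈ (𝐂 (g • P)) := mem_cent_smul.2 (by simpa [mul_assoc] using hv)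
    have h6 := (hTI _ _ (mt CL.Small.smul_sylow_eq_iff.1 h4)).le ⟨h5, hS _ P _ q 1 hq hqp
      (by rw [CL.Small.orderOf_conj', hvq']) h5
      (hR ((mem_normalizer_iff.1 hg v).1 (zpowers_le.1 hvR)))⟩
    exact hv1 (by simpa using h6)

end CL.D1
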