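import Cfsg.Agent.INV.Nag7

/-! Few Sylow subgroups of prime order, VIII: large centralizers with nontrivial intersections. -/

set_option autoImplicit false
open Cfsg Subgroup MulAction Finset

namespace CL.D1

open Classical in
theorem lines_count {G Ω B : Type*} [Group G] [MulAction G Ω] [MulAction G B] [Fintype Ω]
    [Fintype B] [IsPretransitive G Ω] [IsPretransitive G B] (I : Ω → B → Prop)
    (hI : ∀ (g : G) a L, I (g • a) (g • L) ↔ I a L)
    (uniq : ∀ a a' L L', a ≠ a' → I a L → I a' L → I a L' → I a' L' → L = L') {p : ℕ}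
    (hk : ∀ L, p + 1 ≤ #{a | I a L}) (hn : Fintype.card Ω < p ^ 2)
    (hb : ∀ a, p ∣ #{L | ¬ I a L}) (L₀ : B) :
    (∀ L L', ∃ a, I a L ∧ I a L') ∧ ∀ a, #{L | ¬ I a L} + p ≤ p * #{L | I a L} := by
  obtain ⟨a₀, ha₀⟩ := card_pos.1 ((Nat.succ_pos p).trans_le (hk L₀))
  have h1 : ∀ L, #{a | I a L} = #{a | I a L₀} := fun L => by
    obtain ⟨g, rfl⟩ := exists_smul_eq G L₀ L
    exact (card_equiv (MulAction.toPerm g) fun a => by simp [hI]).symm
  have h2 : ∀ a, #{L | I a L} = #{L | I a₀ L} := fun a => by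
    obtain ⟨g, rfl⟩ := exists_smul_eq G a₀ a
    exact (card_equiv (MulAction.toPerm g) fun a => by simp [hI]).symm
  have h3 := card_mul_eq_card_mul (s := univ) (t := univ) I (fun a _ => h2 a) (fun L _ => h1 L)
  have h4 : 0 < #{L | I a₀ L} := card_pos.2 ⟨L₀, by simpa using ha₀⟩
  have h5 : ∀ a, #{L | ¬ I a L} + p ≤ p * #{L | I a L} := fun a => by
    have h5 := card_filter_add_card_filter_not (s := univ) (I a)
    obtain ⟨c, hc⟩ := hb a
    rw [hc, h2] at h5 ⊢
    have h6 := hk L₀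
    rw [← h5, card_univ] at h3
    generalize #{L | I a₀ L} = ρ at *
    generalize #{a | I a L₀} = k at *
    refine Nat.mul_le_mul_left p (show c + 1 ≤ ρ from lt_of_mul_lt_mul_left (a := p ^ 2) ?_
      (Nat.zero_le _))
    calc p ^ 2 * c ≤ (ρ + p * c) * k := by nlinarith [Nat.zero_le (p * c), Nat.zero_le (ρ * k)]
      _ < _ := by rw [← h3]; exact Nat.mul_lt_mul_of_pos_right hn h4
  refine ⟨fun L L' => ?_, h5⟩
  by_contra! h6
  obtain ⟨a, ha⟩ := card_pos.1 ((Nat.succ_pos p).trans_le (hk L))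
  have h7 := card_mul_le_card_mul (s := ({a | I a L} : Finset Ω).erase a)
    (t := ({M | ¬ I a M} : Finset B).erase L') I (m := #{L | I a₀ L} - 1) (n := 1)
    (fun b hb => by
      simp only [mem_erase, mem_filter, mem_univ, true_and] at hb ha
      rw [← h2 b, ← card_erase_of_mem (a := L) (by simpa using hb.2)]
      refine card_le_card fun M hM => ?_
      simp only [mem_erase, mem_filter, mem_univ, true_and, mem_bipartiteAbove] at hM ⊢
      exact ⟨⟨fun h => h6 b hb.2 (h ▸ hM.2), fun h => hM.1 (uniq _ _ _ _ hb.1 hM.2 h hb.2 ha)⟩, hM.2⟩)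
    (fun M hM => card_le_one.2 fun b hb c hc => by
      simp only [mem_erase, mem_filter, mem_univ, true_and, mem_bipartiteBelow] at hM hb hc ha
      by_contra h
      exact hM.2 (uniq _ _ _ _ h hb.1.2 hc.1.2 hb.2 hc.2 ▸ ha))
  have h8 : L' ∈ ({M | ¬ I a M} : Finset B) := by simpa using h6 a (by simpa using ha)
  have h9 := card_pos.2 ⟨_, h8⟩
  have h10 := h5 a
  have h11 := Nat.mul_le_mul_right (#{L | I a₀ L} - 1) (show p ≤ #{a | I a L} - 1 by
    have := hk L; omega)
  rw [card_erase_of_mem ha, card_erase_of_mem h8, mul_one] at h7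
  rw [h2] at h10
  rw [Nat.mul_sub_one] at h11
  omega

variable {G : Type*} [Group G] [Finite G] {p : ℕ} [hp : Fact p.Prime]

local notation "𝐂" Q => centralizer (((Q : Sylow p G) : Subgroup G) : Set G)
local notation "𝐍" Q => normalizer (((Q : Sylow p G) : Subgroup G) : Set G)

open Classical in
theorem card_mod_of_inv (P : Sylow p G) (hP : Nat.card P = p) (R : Sylow p G)
    (S : Set (Sylow p G)) (hS : ∀ x ∈ (R : Subgroup G), ∀ T ∈ S, x • T ∈ S) :
    Nat.card S ≡ if R ∈ S then 1 else 0 [MOD p] := by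
  let A : SubMulAction (R : Subgroup G) (Sylow p G) := ⟨S, fun x T hT => hS x x.2 T hT⟩
  obtain ⟨x, hx, hR⟩ := exists_gen P hP R
  have hxR : x ∈ (R : Subgroup G) := hR ▸ mem_zpowers x
  have h1 : ∀ T : A, T ∈ fixedPoints (R : Subgroup G) A ↔ T = R := fun T =>
    ⟨fun h => eq_of_mem_normalizer P hP hx (CL.Small.smul_sylow_eq_iff.1
      (congrArg Subtype.val (h ⟨x, hxR⟩))) (le_normalizer hxR), fun h g => Subtype.ext (by
        rw [SubMulAction.val_smul, h]; exact CL.Small.smul_sylow_eq_iff.2 (le_normalizer g.2))⟩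
  refine (R.2.card_modEq_card_fixedPoints A).trans (congrArg (· % p) ?_)
  split_ifs with h
  · rw [Set.eq_singleton_iff_unique_mem.2 ⟨(h1 ⟨R, h⟩).2 rfl, fun T hT => Subtype.ext ((h1 T).1 hT)⟩,
      Nat.card_unique]
  · rw [Set.eq_empty_of_forall_notMem fun T hT => h ((h1 T).1 hT ▸ T.2)]
    simp

/-- Conjugation action on subgroups. -/
@[reducible] def cAct (G : Type*) [Group G] : MulAction G (Subgroup G) where
  smul g L := L.map (MulAut.conj g).toMonoidHom
  one_smul L := by change L.map _ = L; rw [map_one]; exact L.map_id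
  mul_smul a b L := by change L.map _ = (L.map _).map _; rw [Subgroup.map_map, map_mul]; rfl

attribute [local instance] cAct

omit [Finite G] in
theorem mem_cAct {g x : G} {L : Subgroup G} : x ∈ g • L ↔ g⁻¹ * x * g ∈ L := by
  change x ∈ L.map _ ↔ _
  rw [Subgroup.mem_map_equiv]
  simp

theorem TI_of_star [IsSimpleGroup G] (hG : ¬ IsMulCommutative G) (P : Sylow p G)
    (hP : Nat.card P = p) (hS : Star p G) (hn : Nat.card (Sylow p G) < p ^ 2)
    (Q R : Sylow p G) (hQR : Q ≠ R) : (𝐂 Q) ⊓ (𝐂 R) = ⊥ := by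
  classical
  by_contra h0
  have hCN := CL.Small.centralizer_le_normalizer' (G := G)
  have : Nonempty {a : Sylow p G × Sylow p G // a.1 ≠ a.2} := ⟨⟨(Q, R), hQR⟩⟩
  obtain ⟨⟨⟨Q₀, R₀⟩, hne⟩, hmax⟩ := Finite.exists_max
    fun a : {a : Sylow p G × Sylow p G // a.1 ≠ a.2} => Nat.card ↥((𝐂 a.1.1) ⊓ (𝐂 a.1.2))
  simp only [Subtype.forall, Prod.forall] at hmax hne
  set W := (𝐂 Q₀) ⊓ (𝐂 R₀) with hW
  have hW0 : W ≠ ⊥ := fun h => h0 ((card_le_one_iff_eq_bot _).1 ((hmax Q R hQR).trans (by simp [h])))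
  have := Fintype.ofFinite (Sylow p G)
  have := Fintype.ofFinite (orbit G W)
  let I : Sylow p G → orbit G W → Prop := fun T L => L.1 ≤ 𝐂 T
  have hI : ∀ (g : G) a L, I (g • a) (g • L) ↔ I a L := fun g a L =>
    ⟨fun h x hx => by
      simpa [mul_assoc] using mem_cent_smul.1 (h (x := g * x * g⁻¹)
        (mem_cAct.2 (by simpa [mul_assoc] using hx))),
      fun h x hx => mem_cent_smul.2 (h (mem_cAct.1 hx))⟩
  have hc : ∀ L : orbit G W, Nat.card L.1 = Nat.card W := by
    rintro ⟨_, g, rfl⟩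
    exact card_map_of_injective (MulAut.conj g).injective
  have hL : ∀ a a' L, a ≠ a' → I a L → I a' L → L.1 = (𝐂 a) ⊓ (𝐂 a') := fun a a' L h h1 h2 =>
    eq_of_le_of_card_ge (le_inf h1 h2) (hc L ▸ hmax a a' h)
  have uniq : ∀ a a' L L', a ≠ a' → I a L → I a' L → I a L' → I a' L' → L = L' :=
    fun a a' L L' h h1 h2 h3 h4 => Subtype.ext ((hL a a' L h h1 h2).trans (hL a a' L' h h3 h4).symm)
  have hfix : ∀ a L, I a L → ∀ x ∈ (a : Subgroup G), x • L = L := fun a L h x hx =>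
    Subtype.ext (eq_of_le_of_card_ge (fun y hy => mem_cAct.2 (by
      rwa [mul_assoc, ← h hy x hx, inv_mul_cancel_left])) ((hc (x • L)).trans (hc L).symm).le).symm
  have hmod : ∀ (a : Sylow p G) L, (∀ x ∈ (a : Subgroup G), x • L = L) →
      #{b | I b L} ≡ if I a L then 1 else 0 [MOD p] := fun a L h => by
    have := card_mod_of_inv P hP a {b | I b L} fun x hx T hT => by
      change I _ _
      rw [← h x hx, hI]
      exact hT
    rwa [Nat.card_eq_fintype_card, Fintype.card_subtype] at this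
  have hk : ∀ L, #{b | I b L} ≡ 1 [MOD p] ∧ p + 1 ≤ #{a | I a L} := by
    rintro ⟨_, g, rfl⟩
    have h1 : I (g • Q₀) ⟨_, g, rfl⟩ := (hI g Q₀ ⟨W, mem_orbit_self W⟩).2 inf_le_left
    have h2 : I (g • R₀) ⟨_, g, rfl⟩ := (hI g R₀ ⟨W, mem_orbit_self W⟩).2 inf_le_right
    have h3 := hmod _ _ (hfix _ _ h1)
    rw [if_pos h1] at h3
    have h4 : 1 < #{b | I b ⟨_, g, rfl⟩} := one_lt_card.2 ⟨_, mem_filter.2 ⟨mem_univ _, h1⟩, _,
      mem_filter.2 ⟨mem_univ _, h2⟩, fun h => hne (smul_left_cancel g h)⟩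
    have := Nat.le_of_dvd (by omega) ((Nat.modEq_iff_dvd' h4.le).1 h3.symm)
    exact ⟨h3, by omega⟩
  have hfix' : ∀ (a : Sylow p G) L, (∀ x ∈ (a : Subgroup G), x • L = L) → I a L := fun a L h => by
    by_contra h1
    have h2 := hmod a L h
    rw [if_neg h1] at h2
    exact hp.out.not_dvd_one ((Nat.modEq_zero_iff_dvd.1 ((hk L).1.symm.trans h2)))
  obtain ⟨hmeet, hcount⟩ := lines_count (G := G) I hI uniq (fun L => (hk L).2)
    (by rwa [← Nat.card_eq_fintype_card]) (fun a => by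
      have h1 := a.2.card_modEq_card_fixedPoints (orbit G W)
      rw [show fixedPoints (a : Subgroup G) (orbit G W) = {L | I a L} from Set.ext fun L =>
        ⟨fun h => hfix' a L fun x hx => h ⟨x, hx⟩, fun h x => hfix a L h x x.2⟩,
        Nat.card_eq_fintype_card, ← card_univ, ← card_filter_add_card_filter_not (I a),
        Nat.card_eq_fintype_card, Fintype.card_subtype] at h1
      simpa using (Nat.modEq_iff_dvd' (Nat.le_add_right _ _)).1 h1.symm) ⟨W, mem_orbit_self W⟩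
  have hcore : ∀ (T : Sylow p G) d, (∀ g : G, g * d * g⁻¹ ∈ (𝐂 T)) → d = 1 := fun T d h => by
    refine mem_bot.1 ((((𝐂 T).normalCore_normal.eq_bot_or_eq_top).resolve_right fun h1 => ?_).le h)
    obtain ⟨x, hx, hT⟩ := exists_gen P hP T
    refine CL.Small.centralizer_ne_top hG (x := x) ?_ (eq_top_iff.2 (h1.ge.trans ?_))
    · rintro rfl
      exact hp.out.one_lt.ne (orderOf_one.symm.trans hx)
    · exact (normalCore_le _).trans (by rw [hT, CL.Small.centralizer_zpowers_eq])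
  have hnt : ∀ a, ∃ L, ¬ I a L := fun a => by
    by_contra! h
    exact hW0 ((eq_bot_iff_forall _).2 fun d hd => hcore a d fun g =>
      h ⟨_, g, rfl⟩ (mem_cAct.2 (by simpa [mul_assoc] using hd)))
  have hD : ∀ L L' : orbit G W, L ≠ L' → ∀ d ∈ L.1, d ∈ L'.1 → d = 1 := fun L L' h d h1 h2 => by
    obtain ⟨O, hO, hO'⟩ := hmeet L L'
    have h3 : ∀ M : orbit G W, ¬ I O M → d ∈ M.1 := fun M hM => by
      obtain ⟨a, ha, ha'⟩ := hmeet L M
      obtain ⟨b, hb, hb'⟩ := hmeet L' M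
      rw [hL a b M (by
        rintro rfl
        exact h (uniq a O _ _ (by rintro rfl; exact hM ha') ha hO hb hO')) ha' hb']
      exact ⟨ha h1, hb h2⟩
    have h4 : ∀ M : orbit G W, d ∈ M.1 := fun M => by
      by_cases hM : I O M
      · obtain ⟨K, hK⟩ := hnt O
        obtain ⟨a, ha, ha'⟩ := hmeet M K
        rw [hL a O M (by rintro rfl; exact hK ha') ha hM]
        exact ⟨ha' (h3 K hK), hO h1⟩
      · exact h3 M hM
    exact hcore Q₀ d fun g => by simpa using (mem_cAct.1 (h4 ⟨_, g⁻¹, rfl⟩)).1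
  obtain ⟨δ, hδ⟩ := hnt P
  obtain ⟨x, hx, hPx⟩ := exists_gen P hP P
  have hxP : x ∈ (P : Subgroup G) := hPx ▸ mem_zpowers x
  have h1 : ∀ y ∈ (P : Subgroup G), orderOf y = p → y • δ ≠ δ := fun y hy hy' h =>
    hδ (hfix' P δ fun z hz => by
      rw [CL.Small.eq_zpowers_of_card_prime hP hy (by
        rintro rfl; exact hp.out.one_lt.ne (orderOf_one.symm.trans hy'))] at hz
      exact zpowers_le.2 (mem_stabilizer_iff.2 h) hz)
  have h2 : ∀ g ∈ (𝐂 P), g • δ = δ → g = 1 := fun g hg h => by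
    by_contra h2
    obtain ⟨k, hk⟩ := exists_prime_pow h2
    have h3 : g ^ k • δ = δ := pow_mem (mem_stabilizer_iff.2 h) k
    have h4 := pow_mem hg k
    generalize g ^ k = s at hk h3 h4
    by_cases h5 : orderOf s = p
    · exact h1 s (CL.Small.mem_sylow_of_mem_normalizer P (k := 1) (by rw [h5, pow_one])
        (hCN _ h4)) h5 h3
    obtain ⟨a, ha, ha'⟩ := hmeet δ (x • δ)
    have h6 : x * s = s * x := h4 x hxP
    have h7 : s • a = a := by
      by_contra h7
      refine h1 x hxP hx (uniq _ _ _ _ h7 ?_ ha' ?_ ha)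
      · rwa [← h3, ← mul_smul, h6, mul_smul, hI]
      · rwa [← h3, hI]
    have h8 := hS P a s _ 1 hk h5 (pow_one _).symm h4 (CL.Small.smul_sylow_eq_iff.1 h7)
    have h9 : s ∈ δ.1 := by
      rw [hL a (x⁻¹ • a) δ (fun h' => hδ (eq_of_mem_normalizer P hP hx (le_normalizer hxP)
        (inv_mem_iff.1 (CL.Small.smul_sylow_eq_iff.1 h'.symm)) ▸ ha)) ha
        (by rwa [← hI x, smul_inv_smul])]
      exact ⟨h8, mem_cent_smul.2 (by rwa [inv_inv, h6, mul_inv_cancel_right])⟩
    rw [hD _ _ (h1 x hxP hx) s (mem_cAct.2 (by rwa [mul_assoc, ← h6, inv_mul_cancel_left])) h9,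
      orderOf_one] at hk
    exact Nat.not_prime_one hk
  have h3 : Nat.card (𝐂 P) ≤ #{L | ¬ I P L} := by
    rw [← Fintype.card_subtype, ← Nat.card_eq_fintype_card]
    refine Nat.card_le_card_of_injective (fun g => ⟨(g : G) • δ, fun h => hδ ((hI g _ _).1
      (by rwa [CL.Small.smul_sylow_eq_iff.2 (hCN _ g.2)]))⟩) fun g g' h => Subtype.ext ?_
    refine (inv_mul_eq_one.1 (h2 _ (mul_mem (inv_mem g'.2) g.2) ?_)).symm
    rw [mul_smul, show (g : G) • δ = (g' : G) • δ from congrArg Subtype.val h, inv_smul_smul]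
  have h4 : ∀ L : orbit G W, ∃ v ∈ L.1, v ^ p ≠ 1 := fun L => by
    obtain ⟨⟨v, hv⟩, hv1⟩ := (ne_bot_iff_exists_ne_one (H := L.1)).1 fun h =>
      hW0 ((card_le_one_iff_eq_bot _).1 (by rw [← hc L, h]; simp))
    obtain ⟨a, ha, b, hb, hab⟩ := one_lt_card.1 (show 1 < #{a | I a L} by
      have := (hk L).2; have := hp.out.pos; omega)
    exact ⟨v, hv, fun h => hab (eq_of_mem_normalizer P hP
      (orderOf_eq_prime h fun h' => hv1 (Subtype.ext h')) (hCN _ ((mem_filter.1 ha).2 hv))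
      (hCN _ ((mem_filter.1 hb).2 hv)))⟩
  choose v hv hv' using h4
  have h5 : p * #{L | I P L} ≤ Nat.card (𝐂 P) := by
    rw [← Fintype.card_subtype, ← Nat.card_eq_fintype_card,
      ← (Nat.card_prod P _).trans (congrArg (· * _) hP)]
    have h5 : ∀ (y : (P : Subgroup G)) (L : {L // I P L}), (y * v L) ^ p = v L ^ p := fun y L => by
      rw [Commute.mul_pow (L.2 (hv L) y y.2), orderOf_dvd_iff_pow_eq_one.1
        ((CL.Small.orderOf_dvd_card_of_mem y.2).trans hP.dvd), one_mul]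
    refine Nat.card_le_card_of_injective (fun a => ⟨a.1 * v a.2, mul_mem ?_ (a.2.2 (hv _))⟩) ?_
    · have := isCyclic_of_prime_card hP
      exact fun z hz => congrArg Subtype.val (mul_comm' (⟨z, hz⟩ : (P : Subgroup G)) a.1)
    · rintro ⟨y, L⟩ ⟨y', L'⟩ h
      have h6 : y * v L = y' * v L' := congrArg Subtype.val h
      obtain rfl : L = L' := Subtype.ext (by_contra fun h7 => hv' L (hD _ _ h7 _
        (pow_mem (hv L) p) (by rw [← h5 y, h6, h5]; exact pow_mem (hv L') p)))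
      exact Prod.ext (Subtype.ext (mul_right_cancel h6)) rfl
  have := hcount P
  have := hp.out.pos
  omega

end CL.D1
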